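import Mathlib

set_option autoImplicit false

/-!
Finite groups with an abelian normal subgroup of prime index: the commutator subgroup is the image
of `a ↦ x a x⁻¹ a⁻¹` for `x` outside the subgroup.
-/

namespace Cfsg.Agent.Lib.H8Group

open scoped commutatorElement

variable {Q : Type*} [Group Q]

theorem eq_top_of_le_of_mem_of_prime_index [Finite Q] {A H : Subgroup Q} (hA : A.index.Prime) (hAH : A ≤ H)
    {x : Q} (hx : x ∈ H) (hxA : x ∉ A) : H = ⊤ := by
  have h1 : A.relIndex H * H.index = A.index := Subgroup.relIndex_mul_index hAH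
  have h2 := (Nat.prime_mul_iff.mp (h1 ▸ hA))
  rcases h2 with ⟨_, h3⟩ | ⟨_, h3⟩
  · exact Subgroup.index_eq_one.mp h3
  · exact absurd ((Subgroup.relIndex_eq_one.mp h3) hx) hxA

/-- The commutator map `a ↦ x a x⁻¹ a⁻¹` on an abelian normal subgroup. -/
def commMap (A : Subgroup Q) [hn : A.Normal] (hab : ∀ a ∈ A, ∀ b ∈ A, a * b = b * a) (x : Q) : A →* A :=
  MonoidHom.mk' (fun a => ⟨x * a * x⁻¹ * (a : Q)⁻¹, A.mul_mem (hn.conj_mem _ a.2 _) (A.inv_mem a.2)⟩)
    (by
      intro a b
      apply Subtype.ext
      have hA : x * (b : Q) * x⁻¹ * (b : Q)⁻¹ ∈ A := A.mul_mem (hn.conj_mem _ b.2 _) (A.inv_mem b.2)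
      have hc := hab _ (A.inv_mem a.2) _ hA
      simp only [Subgroup.coe_mul, mul_inv_rev]
      calc x * (↑a * ↑b) * x⁻¹ * ((↑b)⁻¹ * (↑a)⁻¹)
          = x * ↑a * x⁻¹ * ((x * ↑b * x⁻¹ * (↑b)⁻¹) * (↑a : Q)⁻¹) := by group
        _ = x * ↑a * x⁻¹ * ((↑a : Q)⁻¹ * (x * ↑b * x⁻¹ * (↑b)⁻¹)) := by rw [hc]
        _ = _ := by group)

@[simp] theorem commMap_coe (A : Subgroup Q) [A.Normal] (hab : ∀ a ∈ A, ∀ b ∈ A, a * b = b * a) (x : Q) (a : A) :
    ((commMap A hab x a : A) : Q) = x * a * x⁻¹ * (a : Q)⁻¹ := rfl

theorem commutator_eq_map_range [Finite Q] (A : Subgroup Q) [hn : A.Normal]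
    (hab : ∀ a ∈ A, ∀ b ∈ A, a * b = b * a) (hp : A.index.Prime) {x : Q} (hx : x ∉ A) :
    commutator Q = (commMap A hab x).range.map A.subtype := by
  set K : Subgroup Q := (commMap A hab x).range.map A.subtype with hK
  have hKA : K ≤ A := by
    rintro _ ⟨_, ⟨a, rfl⟩, rfl⟩
    exact (commMap A hab x a).2
  have hmemK : ∀ a : A, x * (a : Q) * x⁻¹ * (a : Q)⁻¹ ∈ K := fun a =>
    ⟨commMap A hab x a, ⟨a, rfl⟩, rfl⟩
  have hKnorm : K.Normal := by
    have hN : Subgroup.normalizer (K : Set Q) = ⊤ := by
      apply eq_top_of_le_of_mem_of_prime_index hp (x := x) _ _ hx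
      · intro a ha
        rw [Subgroup.mem_normalizer_iff]
        intro k
        constructor
        · intro hk
          have hkA := hKA hk
          rw [hab a ha k hkA]
          simpa [mul_assoc] using hk
        · intro hk
          have hk2 : k = a⁻¹ * (a * k * a⁻¹) * a := by group
          have hkA : a * k * a⁻¹ ∈ A := hKA hk
          rw [hk2, hab _ (A.inv_mem ha) _ hkA]
          simpa [mul_assoc] using hk
      · rw [Subgroup.mem_normalizer_iff]
        intro k
        constructor
        · rintro ⟨_, ⟨a, rfl⟩, rfl⟩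
          have := hmemK ⟨x * a * x⁻¹, hn.conj_mem _ a.2 _⟩
          simp only [Subgroup.subtype_apply, commMap_coe]
          convert this using 1
          simp only [mul_inv_rev, inv_inv]
          group
        · intro hk
          obtain ⟨_, ⟨a, rfl⟩, hka⟩ := hk
          simp only [Subgroup.subtype_apply, commMap_coe] at hka
          have := hmemK ⟨x⁻¹ * a * x, by simpa using hn.conj_mem a a.2 x⁻¹⟩
          convert this using 1
          have : k = x⁻¹ * (x * k * x⁻¹) * x := by group
          rw [this, ← hka]
          simp only [mul_inv_rev, inv_inv]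
          group
    exact Subgroup.normalizer_eq_top_iff.mp hN
  apply le_antisymm
  · -- the quotient by `K` is abelian
    have hcomm : ∀ a : Q, a ∈ A → (QuotientGroup.mk a : Q ⧸ K) * QuotientGroup.mk x =
        QuotientGroup.mk x * QuotientGroup.mk a := by
      intro a ha
      have := hmemK ⟨a, ha⟩
      simp only at this
      have h2 : (QuotientGroup.mk (x * a * x⁻¹ * a⁻¹) : Q ⧸ K) = 1 :=
        (QuotientGroup.eq_one_iff _).mpr this
      simp only [QuotientGroup.mk_mul, QuotientGroup.mk_inv] at h2
      have h3 : (QuotientGroup.mk x : Q ⧸ K) * QuotientGroup.mk a = QuotientGroup.mk a * QuotientGroup.mk x := by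
        have := mul_inv_eq_one.mp (by simpa [mul_assoc] using h2 : ((QuotientGroup.mk x : Q ⧸ K) * QuotientGroup.mk a * (QuotientGroup.mk x)⁻¹) * (QuotientGroup.mk a)⁻¹ = 1)
        exact mul_inv_eq_iff_eq_mul.mp this
      exact h3.symm
    have hcomm2 : ∀ a b : Q, a ∈ A → b ∈ A → (QuotientGroup.mk a : Q ⧸ K) * QuotientGroup.mk b =
        QuotientGroup.mk b * QuotientGroup.mk a := by
      intro a b ha hb
      rw [← QuotientGroup.mk_mul, ← QuotientGroup.mk_mul, hab a ha b hb]
    -- every image of an element of `A` is central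
    have hcentA : ∀ a : Q, a ∈ A → ∀ g : Q, (QuotientGroup.mk a : Q ⧸ K) * QuotientGroup.mk g =
        QuotientGroup.mk g * QuotientGroup.mk a := by
      intro a ha g
      let S : Subgroup Q := (Subgroup.centralizer {(QuotientGroup.mk a : Q ⧸ K)}).comap (QuotientGroup.mk' K)
      have hS : S = ⊤ := by
        apply eq_top_of_le_of_mem_of_prime_index hp (x := x) _ _ hx
        · intro b hb
          simp only [S, Subgroup.mem_comap, Subgroup.mem_centralizer_singleton_iff, QuotientGroup.mk'_apply]
          exact (hcomm2 a b ha hb).symm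
        · simp only [S, Subgroup.mem_comap, Subgroup.mem_centralizer_singleton_iff, QuotientGroup.mk'_apply]
          exact (hcomm a ha).symm
      have : g ∈ S := hS ▸ Subgroup.mem_top g
      simp only [S, Subgroup.mem_comap, Subgroup.mem_centralizer_singleton_iff, QuotientGroup.mk'_apply] at this
      exact this.symm
    have hcentx : ∀ g : Q, (QuotientGroup.mk x : Q ⧸ K) * QuotientGroup.mk g =
        QuotientGroup.mk g * QuotientGroup.mk x := by
      intro g
      let S : Subgroup Q := (Subgroup.centralizer {(QuotientGroup.mk x : Q ⧸ K)}).comap (QuotientGroup.mk' K)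
      have hS : S = ⊤ := by
        apply eq_top_of_le_of_mem_of_prime_index hp (x := x) _ _ hx
        · intro b hb
          simp only [S, Subgroup.mem_comap, Subgroup.mem_centralizer_singleton_iff, QuotientGroup.mk'_apply]
          exact hcomm b hb
        · simp only [S, Subgroup.mem_comap, Subgroup.mem_centralizer_singleton_iff, QuotientGroup.mk'_apply]
      have : g ∈ S := hS ▸ Subgroup.mem_top g
      simp only [S, Subgroup.mem_comap, Subgroup.mem_centralizer_singleton_iff, QuotientGroup.mk'_apply] at this
      exact this.symm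
    -- so every element has central image
    have hcentall : ∀ g h : Q, (QuotientGroup.mk g : Q ⧸ K) * QuotientGroup.mk h =
        QuotientGroup.mk h * QuotientGroup.mk g := by
      intro g h
      let S : Subgroup Q := (Subgroup.center (Q ⧸ K)).comap (QuotientGroup.mk' K)
      have hS : S = ⊤ := by
        apply eq_top_of_le_of_mem_of_prime_index hp (x := x) _ _ hx
        · intro a ha
          simp only [S, Subgroup.mem_comap, Subgroup.mem_center_iff, QuotientGroup.mk'_apply]
          intro q
          induction q using QuotientGroup.induction_on with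
          | H z => exact (hcentA a ha z).symm
        · simp only [S, Subgroup.mem_comap, Subgroup.mem_center_iff, QuotientGroup.mk'_apply]
          intro q
          induction q using QuotientGroup.induction_on with
          | H z => exact (hcentx z).symm
      have : g ∈ S := hS ▸ Subgroup.mem_top g
      simp only [S, Subgroup.mem_comap, Subgroup.mem_center_iff, QuotientGroup.mk'_apply] at this
      exact (this _).symm
    rw [commutator_def, Subgroup.commutator_le]
    intro g _ h _
    rw [← QuotientGroup.eq_one_iff (N := K)]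
    simp only [commutatorElement_def, QuotientGroup.mk_mul, QuotientGroup.mk_inv]
    rw [hcentall g h]
    group
  · rintro _ ⟨_, ⟨a, rfl⟩, rfl⟩
    have : ⁅x, (a : Q)⁆ ∈ commutator Q :=
      Subgroup.commutator_mem_commutator (Subgroup.mem_top _) (Subgroup.mem_top _)
    simpa [commutatorElement_def] using this

theorem card_commutator_mul_card_ker [Finite Q] (A : Subgroup Q) [A.Normal]
    (hab : ∀ a ∈ A, ∀ b ∈ A, a * b = b * a) (hp : A.index.Prime) {x : Q} (hx : x ∉ A) :
    Nat.card (commutator Q) * Nat.card (commMap A hab x).ker = Nat.card A := by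
  rw [commutator_eq_map_range A hab hp hx]
  have h1 : Nat.card ((commMap A hab x).range.map A.subtype) = Nat.card (commMap A hab x).range :=
    Subgroup.card_map_of_injective A.subtype_injective
  rw [h1, ← Subgroup.index_ker, mul_comm, Subgroup.card_mul_index]

end Cfsg.Agent.Lib.H8Group
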