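import Mathlib
import Cfsg.Prelude.Def_Blocks
import Cfsg.Prelude.Def_Transfer
import Cfsg.Agent.Lib.Blocks.FirstMain

set_option autoImplicit false

/-!
Sylow subgroups all of whose nonidentity elements are conjugate.
-/

namespace Cfsg.Agent.Lib.H8Group

open Cfsg Cfsg.Agent.Lib.Blocks

universe u

section GT

variable {G : Type u} [Group G] [Finite G] {p : ℕ} [hp : Fact p.Prime]

/-- Exponent `p` when all nonidentity elements are conjugate. -/
theorem pow_prime_eq_one_of_conj (D : Subgroup G) (hD : IsPGroup p D)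
    (hconj : ∀ u ∈ D, ∀ v ∈ D, u ≠ 1 → v ≠ 1 → IsConj u v) {a : G} (ha : a ∈ D) : a ^ p = 1 := by
  by_cases ha1 : a = 1
  · rw [ha1, one_pow]
  obtain ⟨k, hk⟩ := IsPGroup.iff_orderOf.mp hD ⟨a, ha⟩
  rw [Subgroup.orderOf_mk] at hk
  have hk0 : k ≠ 0 := by
    rintro rfl
    rw [pow_zero, orderOf_eq_one_iff] at hk
    exact ha1 hk
  obtain ⟨j, rfl⟩ := Nat.exists_eq_succ_of_ne_zero hk0
  let y := a ^ p ^ j
  have hyD : y ∈ D := D.pow_mem ha _
  have hyo : orderOf y = p := by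
    have h1 : orderOf y = orderOf a / (orderOf a).gcd (p ^ j) := orderOf_pow a
    rw [hk] at h1
    rw [h1, Nat.gcd_eq_right (pow_dvd_pow p (Nat.le_succ j)), Nat.pow_succ,
      Nat.mul_div_cancel_left _ (pow_pos hp.out.pos j)]
  have hy1 : y ≠ 1 := by
    intro h
    rw [h, orderOf_one] at hyo
    exact hp.out.one_lt.ne hyo
  obtain ⟨c, hc⟩ := isConj_iff.mp (hconj a ha y hyD ha1 hy1)
  have h2 : orderOf a = p := by
    rw [← hyo, ← hc]
    have := orderOf_injective (MulAut.conj c).toMonoidHom (MulAut.conj c).injective a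
    simpa using this.symm
  rw [← h2]
  exact pow_orderOf_eq_one a

theorem isElementaryAbelian_of_conj_of_comm (D : Subgroup G) (hD : IsPGroup p D)
    (hconj : ∀ u ∈ D, ∀ v ∈ D, u ≠ 1 → v ≠ 1 → IsConj u v) (hcomm : ∀ u ∈ D, ∀ v ∈ D, u * v = v * u) :
    IsElementaryAbelian p D := by
  refine ⟨⟨⟨fun a b => Subtype.ext (hcomm a a.2 b b.2)⟩⟩, fun a ha => ?_⟩
  exact pow_prime_eq_one_of_conj D hD hconj ha

/-- Central elements of a Sylow subgroup conjugate in `G` are conjugate in its normalizer. -/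
theorem exists_normalizer_conj_central (P : Sylow p G) {z z' : G}
    (hz : ∀ u ∈ (P : Subgroup G), u * z = z * u) (hz' : ∀ u ∈ (P : Subgroup G), u * z' = z' * u)
    (h : IsConj z z') :
    ∃ n ∈ Subgroup.normalizer (((P : Subgroup G)) : Set G), n * z * n⁻¹ = z' := by
  have hs : ∀ c : G, (∀ u ∈ (P : Subgroup G), u * c = c * u) →
      IsSylowIn p (Subgroup.centralizer ({c} : Set G)) (P : Subgroup G) := by
    intro c hc
    have hle : (P : Subgroup G) ≤ Subgroup.centralizer ({c} : Set G) := by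
      intro u hu
      rw [Subgroup.mem_centralizer_singleton_iff]
      exact hc u hu
    refine ⟨P.subtype hle, ?_⟩
    rw [Sylow.coe_subtype]
    exact Subgroup.map_subgroupOf_eq_of_le hle
  exact Cfsg.Agent.Lib.Blocks.exists_normalizer_conj (hs z hz) (hs z' hz') h

theorem comm_of_conj_of_nil (P : Sylow p G) (hodd : p ≠ 2)
    (hconj : ∀ u ∈ (P : Subgroup G), ∀ v ∈ (P : Subgroup G), u ≠ 1 → v ≠ 1 → IsConj u v)
    (hnil : ∀ v ∈ (P : Subgroup G), v ≠ 1 → ∃ K : Subgroup (Subgroup.centralizer ({v} : Set G)),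
      K.Normal ∧ ¬ p ∣ Nat.card K ∧ ∀ y : Subgroup.centralizer ({v} : Set G), ¬ p ∣ orderOf y → y ∈ K) :
    ∀ u ∈ (P : Subgroup G), ∀ v ∈ (P : Subgroup G), u * v = v * u := by
  classical
  have hPp : IsPGroup p (P : Subgroup G) := P.isPGroup'
  -- the key lemma
  have key : ∀ v ∈ (P : Subgroup G), v ≠ 1 → ∀ s : G, s ∈ Subgroup.normalizer (((P : Subgroup G)) : Set G) →
      s * v = v * s → ¬ p ∣ orderOf s → ∀ u ∈ (P : Subgroup G), u * v = v * u → s * u = u * s := by
    intro v hv hv1 s hsN hsv hso u hu huv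
    obtain ⟨K, hKn, hKc, hKy⟩ := hnil v hv hv1
    have hmem : ∀ x : G, x * v = v * x → x ∈ Subgroup.centralizer ({v} : Set G) := by
      intro x hx
      rw [Subgroup.mem_centralizer_singleton_iff]
      exact hx
    let y : Subgroup.centralizer ({v} : Set G) := ⟨s, hmem s hsv⟩
    let w : Subgroup.centralizer ({v} : Set G) := ⟨u, hmem u huv⟩
    have hyK : y ∈ K := hKy y (by rwa [Subgroup.orderOf_mk])
    let c : Subgroup.centralizer ({v} : Set G) := y * (w * y⁻¹ * w⁻¹)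
    have hcK : c ∈ K := K.mul_mem hyK (hKn.conj_mem _ (K.inv_mem hyK) w)
    have hcG : (c : G) = s * u * s⁻¹ * u⁻¹ := by
      show s * (u * s⁻¹ * u⁻¹) = _
      group
    have hcP : (c : G) ∈ (P : Subgroup G) := by
      rw [hcG]
      exact Subgroup.mul_mem _ ((Subgroup.mem_normalizer_iff.mp hsN u).mp hu) (Subgroup.inv_mem _ hu)
    obtain ⟨k, hk⟩ := IsPGroup.iff_orderOf.mp hPp ⟨c, hcP⟩
    rw [Subgroup.orderOf_mk, Subgroup.orderOf_coe] at hk
    have h1 : orderOf c ∣ Nat.card K := by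
      have := orderOf_dvd_natCard (⟨c, hcK⟩ : K)
      rwa [Subgroup.orderOf_mk] at this
    have h2 : c = 1 := by
      have h3 : k = 0 := by
        by_contra h4
        apply hKc
        rw [hk] at h1
        exact (dvd_pow_self p h4).trans h1
      rw [h3, pow_zero, orderOf_eq_one_iff] at hk
      exact hk
    have h3 : s * u * s⁻¹ * u⁻¹ = 1 := by
      rw [← hcG, h2]
      rfl
    rw [mul_inv_eq_one, mul_inv_eq_iff_eq_mul] at h3
    exact h3
  by_cases hP : ∀ x ∈ (P : Subgroup G), x = 1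
  · intro u hu v hv
    rw [hP u hu, hP v hv]
  push Not at hP
  obtain ⟨x, hx, hx1⟩ := hP
  haveI : Nontrivial (P : Subgroup G) := ⟨⟨⟨x, hx⟩, 1, fun h => hx1 (congrArg Subtype.val h)⟩⟩
  haveI := hPp.center_nontrivial
  obtain ⟨z, hz⟩ := exists_ne (1 : Subgroup.center (P : Subgroup G))
  set z₀ : G := ((z : (P : Subgroup G)) : G) with hz₀
  have hz₀P : z₀ ∈ (P : Subgroup G) := (z : (P : Subgroup G)).2
  have hz₀1 : z₀ ≠ 1 := by
    intro h
    apply hz
    exact Subtype.ext (Subtype.ext h)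
  have hz₀c : ∀ u ∈ (P : Subgroup G), u * z₀ = z₀ * u := by
    intro u hu
    have h1 := (Subgroup.mem_center_iff.mp z.2) ⟨u, hu⟩
    exact congrArg Subtype.val h1
  have hz₀i : z₀ ≠ z₀⁻¹ := by
    intro h
    apply hz₀1
    have h2 : z₀ ^ 2 = 1 := by
      rw [pow_two]
      nth_rewrite 2 [h]
      simp
    obtain ⟨k, hk⟩ := IsPGroup.iff_orderOf.mp hPp ⟨z₀, hz₀P⟩
    rw [Subgroup.orderOf_mk] at hk
    have h3 : orderOf z₀ ∣ 2 := orderOf_dvd_of_pow_eq_one h2
    rw [hk] at h3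
    have h4 : k = 0 := by
      by_contra h5
      have h6 : p ∣ 2 := (dvd_pow_self p h5).trans h3
      exact hodd ((Nat.prime_dvd_prime_iff_eq hp.out Nat.prime_two).mp h6)
    rw [h4, pow_zero, orderOf_eq_one_iff] at hk
    exact hk
  have hz₀iP : z₀⁻¹ ∈ (P : Subgroup G) := Subgroup.inv_mem _ hz₀P
  have hz₀ic : ∀ u ∈ (P : Subgroup G), u * z₀⁻¹ = z₀⁻¹ * u := by
    intro u hu
    have := hz₀c u hu
    rw [mul_inv_eq_iff_eq_mul, mul_assoc, this]
    group
  obtain ⟨g, hgN, hg⟩ := exists_normalizer_conj_central P hz₀c hz₀ic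
    (hconj z₀ hz₀P z₀⁻¹ hz₀iP hz₀1 (inv_ne_one.mpr hz₀1))
  -- the `2`-part
  obtain ⟨e, m, hm, hn⟩ : ∃ e m : ℕ, Odd m ∧ orderOf g = 2 ^ e * m := by
    have hpos : orderOf g ≠ 0 := (orderOf_pos g).ne'
    refine ⟨(orderOf g).factorization 2, ordCompl[2] (orderOf g), ?_, ?_⟩
    · rw [← Nat.not_even_iff_odd, even_iff_two_dvd]
      exact Nat.not_dvd_ordCompl Nat.prime_two hpos
    · exact (Nat.ordProj_mul_ordCompl_eq_self _ _).symm
  set t : G := g ^ m with ht
  have htN : t ∈ Subgroup.normalizer (((P : Subgroup G)) : Set G) := Subgroup.pow_mem _ hgN m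
  have ho : t ^ 2 ^ e = 1 := by
    rw [ht, ← pow_mul, mul_comm, ← hn, pow_orderOf_eq_one]
  have hto : ¬ p ∣ orderOf t := by
    intro h
    have h1 : p ∣ 2 ^ e := h.trans (orderOf_dvd_of_pow_eq_one ho)
    exact hodd ((Nat.prime_dvd_prime_iff_eq hp.out Nat.prime_two).mp (hp.out.dvd_of_dvd_pow h1))
  have hto2 : ¬ p ∣ orderOf (t ^ 2) := by
    intro h
    apply hto
    exact h.trans (orderOf_pow_dvd 2)
  -- `t` inverts `z₀`
  have hg2 : g ^ 2 * z₀ = z₀ * g ^ 2 := by
    have h1 : g * z₀ = z₀⁻¹ * g := by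
      rw [← hg]
      group
    have h2 : g * z₀⁻¹ = z₀ * g := by
      have h3 : g * z₀⁻¹ * g⁻¹ = z₀ := by
        have := congrArg (·⁻¹) hg
        simpa [mul_assoc] using this
      exact mul_inv_eq_iff_eq_mul.mp h3
    rw [pow_two, mul_assoc, h1, ← mul_assoc, h2, mul_assoc]
  have ht1 : t * z₀ * t⁻¹ = z₀⁻¹ := by
    obtain ⟨j, hj⟩ := hm
    have hc : Commute (g ^ 2) z₀ := hg2
    have hc2 : Commute ((g ^ 2) ^ j) z₀ := hc.pow_left j
    rw [ht, hj, pow_succ', pow_mul]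
    calc g * (g ^ 2) ^ j * z₀ * (g * (g ^ 2) ^ j)⁻¹
        = g * ((g ^ 2) ^ j * z₀ * ((g ^ 2) ^ j)⁻¹) * g⁻¹ := by group
      _ = g * z₀ * g⁻¹ := by
          rw [hc2.eq]
          group
      _ = z₀⁻¹ := hg
  have ht2 : t ^ 2 * z₀ = z₀ * t ^ 2 := by
    have h1 : t * z₀ = z₀⁻¹ * t := by
      rw [← ht1]
      group
    have h2 : t * z₀⁻¹ = z₀ * t := by
      have h3 : t * z₀⁻¹ * t⁻¹ = z₀ := by
        have := congrArg (·⁻¹) ht1
        simpa [mul_assoc] using this
      exact mul_inv_eq_iff_eq_mul.mp h3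
    rw [pow_two, mul_assoc, h1, ← mul_assoc, h2, mul_assoc]
  have ht2c : ∀ u ∈ (P : Subgroup G), t ^ 2 * u = u * t ^ 2 := by
    intro u hu
    exact key z₀ hz₀P hz₀1 (t ^ 2) (Subgroup.pow_mem _ htN 2) ht2 hto2 u hu (hz₀c u hu)
  -- the involutive automorphism of `P`
  let φ : (P : Subgroup G) →* (P : Subgroup G) :=
    { toFun := fun u => ⟨t * u * t⁻¹, (Subgroup.mem_normalizer_iff.mp htN u).mp u.2⟩
      map_one' := by
        apply Subtype.ext
        simp
      map_mul' := by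
        intro a b
        apply Subtype.ext
        show t * (a * b) * t⁻¹ = t * a * t⁻¹ * (t * b * t⁻¹)
        group }
  have hφ : ∀ u : (P : Subgroup G), ((φ u : (P : Subgroup G)) : G) = t * u * t⁻¹ := fun _ => rfl
  have hinv : Function.Involutive φ := by
    intro u
    apply Subtype.ext
    rw [hφ, hφ]
    have h1 := ht2c u u.2
    calc t * (t * (u : G) * t⁻¹) * t⁻¹ = (t ^ 2 * u) * (t ^ 2)⁻¹ := by rw [pow_two]; group
      _ = u := by
        rw [h1]
        group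
  have hfpf : MonoidHom.FixedPointFree φ := by
    intro u hu
    by_contra hu1
    have hu1' : (u : G) ≠ 1 := fun h => hu1 (Subtype.ext h)
    have h1 : t * (u : G) * t⁻¹ = u := by
      rw [← hφ, hu]
    have h2 : t * (u : G) = u * t := by
      rwa [mul_inv_eq_iff_eq_mul] at h1
    have h3 := key u u.2 hu1' t htN h2 hto z₀ hz₀P (hz₀c u u.2).symm
    apply hz₀i
    rw [← ht1, h3]
    group
  intro u hu v hv
  have h1 := hfpf.commute_all_of_involutive hinv ⟨u, hu⟩ ⟨v, hv⟩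
  exact congrArg Subtype.val h1.eq

/-- The main group theoretical statement. -/
theorem isElementaryAbelian_of_conj_of_nil (P : Sylow p G)
    (hconj : ∀ u ∈ (P : Subgroup G), ∀ v ∈ (P : Subgroup G), u ≠ 1 → v ≠ 1 → IsConj u v)
    (hnil : ∀ v ∈ (P : Subgroup G), v ≠ 1 → ∃ K : Subgroup (Subgroup.centralizer ({v} : Set G)),
      K.Normal ∧ ¬ p ∣ Nat.card K ∧ ∀ y : Subgroup.centralizer ({v} : Set G), ¬ p ∣ orderOf y → y ∈ K) :
    IsElementaryAbelian p (P : Subgroup G) := by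
  refine isElementaryAbelian_of_conj_of_comm _ P.isPGroup' hconj ?_
  by_cases hodd : p = 2
  · subst hodd
    intro u hu v hv
    have h1 := pow_prime_eq_one_of_conj _ P.isPGroup' hconj hu
    have h2 := pow_prime_eq_one_of_conj _ P.isPGroup' hconj hv
    have h3 := pow_prime_eq_one_of_conj _ P.isPGroup' hconj (Subgroup.mul_mem _ hu hv)
    have hu' : u⁻¹ = u := by
      rw [inv_eq_iff_mul_eq_one, ← pow_two, h1]
    have hv' : v⁻¹ = v := by
      rw [inv_eq_iff_mul_eq_one, ← pow_two, h2]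
    have h4 : (u * v)⁻¹ = u * v := by
      rw [inv_eq_iff_mul_eq_one, ← pow_two, h3]
    rw [mul_inv_rev, hu', hv'] at h4
    exact h4.symm
  · exact comm_of_conj_of_nil P hodd hconj hnil

end GT

end Cfsg.Agent.Lib.H8Group
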