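import Mathlib
import Cfsg.Agent.Lib.Char.Clifford
import Cfsg.Agent.Lib.Char.Linear

set_option autoImplicit false

/-!
Characters lying over a character of a central subgroup.
-/

namespace Cfsg.Agent.Lib.H8Group

open Cfsg Module Cfsg.Agent.Lib.Char
open scoped ComplexConjugate

section

theorem normal_of_le_center {G : Type*} [Group G] {N : Subgroup G} (hN : N ≤ Subgroup.center G) :
    N.Normal := by
  refine ⟨fun n hn g => ?_⟩
  have := Subgroup.mem_center_iff.mp (hN hn) g
  rw [this]
  simpa using hn

variable {G : Type*} [Group G] [Fintype G] (N : Subgroup G) [hNn : N.Normal] [Fintype N]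

omit [Fintype G] hNn [Fintype N] in
theorem central_comm (hN : N ≤ Subgroup.center G) (a b : N) : a * b = b * a := by
  apply Subtype.ext
  exact (Subgroup.mem_center_iff.mp (hN b.2) a.1)

omit [Fintype G] hNn in
/-- An irreducible character of a central subgroup is a homomorphism. -/
theorem central_irr_exists_hom (hN : N ≤ Subgroup.center G) {ψ : N → ℂ} (hψ : IsIrrCharacter N ψ) :
    ∃ lam : N →* ℂˣ, ψ = fun n => (lam n : ℂ) := by
  have h1 := (comm_iff_irr_degree_one (G := N)).mp (central_comm N hN) ⟨ψ, hψ⟩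
  exact IsCharacter.exists_monoidHom (IsIrrCharacter.isCharacter hψ) h1

/-- The key relation: over a central character `ψ`, `χ(z x) = ψ(z) χ(x)`. -/
theorem central_apply_mul (hN : N ≤ Subgroup.center G) {ψ : N → ℂ} (hψ : IsIrrCharacter N ψ)
    {χ : G → ℂ} (hχ : IsIrrCharacter G χ) (hover : classInner (resFun N χ) ψ ≠ 0)
    (z : N) (x : G) : χ (z * x) = ψ z * χ x := by
  classical
  obtain ⟨lam, rfl⟩ := central_irr_exists_hom N hN hψ
  set F : N → ℂ := fun n => conj ((lam n : ℂ)) with hF
  have hFconj : ∀ g : G, conjFun N g F = F := by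
    intro g
    funext n
    simp only [conjFun_apply, hF]
    congr 3
    apply Subtype.ext
    simp only
    have := Subgroup.mem_center_iff.mp (hN n.2) g⁻¹
    rw [this]
    group
  have key := fun y => sum_normal_mul_irr N F hFconj hχ y
  set A := ∑ n : N, F n * χ n with hA
  have hA0 : A ≠ 0 := by
    intro h0
    apply hover
    rw [classInner]
    have : ∑ n : N, χ n * conj ((lam n : ℂ)) = A := by
      rw [hA]
      exact Finset.sum_congr rfl fun n _ => mul_comm _ _
    rw [this, h0, mul_zero]
  have hχ1 := IsIrrCharacter.apply_one_ne_zero hχ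
  have hc : A / χ 1 ≠ 0 := div_ne_zero hA0 hχ1
  have h1 := key (z * x)
  have h2 := key x
  have h3 : ∑ n : N, F n * χ (n * (z * x)) = (lam z : ℂ) * ∑ n : N, F n * χ (n * x) := by
    rw [Finset.mul_sum]
    refine Fintype.sum_equiv (Equiv.mulRight z) _ _ fun n => ?_
    simp only [Equiv.coe_mulRight, hF, Subgroup.coe_mul, map_mul, Units.val_mul, map_mul]
    have h4 : ‖(lam z : ℂ)‖ = 1 := by
      apply Complex.norm_eq_one_of_pow_eq_one (n := orderOf z)
      · rw [← Units.val_pow_eq_pow_val, ← map_pow, pow_orderOf_eq_one, map_one, Units.val_one]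
      · exact (orderOf_pos z).ne'
    have h5 : (lam z : ℂ) * conj (lam z : ℂ) = 1 := by
      rw [Complex.mul_conj, Complex.normSq_eq_norm_sq, h4]
      simp
    rw [mul_assoc (n : G) (z : G) x]
    calc conj ((lam n : ℂ)) * χ (↑n * (↑z * x))
        = ((lam z : ℂ) * conj (lam z : ℂ)) * conj ((lam n : ℂ)) * χ (↑n * (↑z * x)) := by
          rw [h5, one_mul]
      _ = _ := by ring
  rw [h1, h2] at h3
  have h6 : A / χ 1 * χ (z * x) = A / χ 1 * ((lam z : ℂ) * χ x) := by
    rw [h3]; ring
  exact mul_left_cancel₀ hc h6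

end

end Cfsg.Agent.Lib.H8Group
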