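import Mathlib
import Cfsg.Agent.Lib.H8Group.RankTrace
import Cfsg.Agent.Lib.H8Group.AllConjBlocks
import Cfsg.Agent.Lib.H8Group.NormalChains
import Cfsg.Agent.Lib.Known.Conj

/-!
# The formula `|H| (k - l) = ∑ |C_H(u)| l(C_H(u))` for the blocks of a subgroup inducing a given block
-/

set_option autoImplicit false
set_option linter.unusedSectionVars false
set_option linter.style.haveILetI false

namespace Cfsg.Agent.Lib.H8Group

open Cfsg Cfsg.Agent.Lib.Char Cfsg.Agent.Lib.Blocks
open scoped ComplexConjugate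

universe u

section Closed

variable {G : Type u} [Group G] [Fintype G] {M : Ideal AlgInt} {p : ℕ} [hp : Fact p.Prime]

open scoped Classical

/-- A set of irreducible characters closed under the regular pairing. -/
def RegClosedSet (p : ℕ) (B : Set (IrrCharacter G)) : Prop :=
  ∀ χ ∈ B, ∀ ψ : IrrCharacter G, ψ ∉ B → classInner (pRegularPart p (χ : G → ℂ)) (ψ : G → ℂ) = 0

/-- Expansion of a truncated character in the block. -/
theorem pRegularPart_eq_sum_closed {B : Set (IrrCharacter G)} (hcl : RegClosedSet p B)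
    {χ : IrrCharacter G} (hχ : χ ∈ B) :
    pRegularPart p (χ : G → ℂ) =
      ∑ ψ : {ψ : IrrCharacter G // ψ ∈ B}, classInner (pRegularPart p (χ : G → ℂ)) ((ψ : IrrCharacter G) : G → ℂ) •
        ((ψ : IrrCharacter G) : G → ℂ) := by
  classical
  have h1 := classFunction_eq_sum (pRegularPart p (χ : G → ℂ)) (pRegularPart_isClassFunction (irr_isClassFunction χ))
  conv_lhs => rw [h1]
  rw [← Finset.sum_filter_add_sum_filter_not Finset.univ (fun ψ : IrrCharacter G => ψ ∈ B)]
  have h2 : ∑ ψ ∈ Finset.univ.filter (fun ψ : IrrCharacter G => ¬ ψ ∈ B),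
      classInner (pRegularPart p (χ : G → ℂ)) (ψ : G → ℂ) • (ψ : G → ℂ) = 0 := by
    refine Finset.sum_eq_zero fun ψ hψ => ?_
    rw [hcl χ hχ ψ (Finset.mem_filter.mp hψ).2, zero_smul]
  rw [h2, add_zero]
  refine Finset.sum_subtype _ (fun ψ => by simp) _

theorem regMatrix_mul_self_closed {B : Set (IrrCharacter G)} (hcl : RegClosedSet p B) :
    regMatrix p B * regMatrix p B = regMatrix p B := by
  classical
  ext χ ψ
  simp only [Matrix.mul_apply, regMatrix, Matrix.of_apply]
  have h1 := pRegularPart_eq_sum_closed hcl χ.2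
  have h2 : pRegularPart p ((χ : IrrCharacter G) : G → ℂ) =
      ∑ φ : {ψ : IrrCharacter G // ψ ∈ B},
        classInner (pRegularPart p ((χ : IrrCharacter G) : G → ℂ)) ((φ : IrrCharacter G) : G → ℂ) •
          pRegularPart p ((φ : IrrCharacter G) : G → ℂ) := by
    funext g
    have h3 := congrFun h1 g
    by_cases hg : p ∣ orderOf g
    · simp [pRegularPart_of_dvd _ hg]
    · simp only [Finset.sum_apply, Pi.smul_apply, smul_eq_mul] at h3 ⊢
      rw [h3]
      refine Finset.sum_congr rfl fun φ _ => ?_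
      rw [pRegularPart_of_not_dvd _ hg]
  conv_rhs => rw [h2]
  rw [classInner_sum_left]
  refine Finset.sum_congr rfl fun φ _ => ?_
  rw [classInner_smul_left]

/-- **The rank of a block as a trace.** -/
theorem sum_classInner_pRegularPart_closed {B : Set (IrrCharacter G)} (hcl : RegClosedSet p B) :
    ∑ χ : {ψ : IrrCharacter G // ψ ∈ B},
      classInner (pRegularPart p ((χ : IrrCharacter G) : G → ℂ)) ((χ : IrrCharacter G) : G → ℂ) =
      (blockRank p B : ℂ) := by
  classical
  set A := regMatrix p B with hA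
  have hid : (Matrix.toLin' A.transpose) * (Matrix.toLin' A.transpose) = Matrix.toLin' A.transpose := by
    rw [Module.End.mul_eq_comp, ← Matrix.toLin'_mul, ← Matrix.transpose_mul, hA, regMatrix_mul_self_closed hcl]
  have hidem : IsIdempotentElem (Matrix.toLin' A.transpose) := hid
  have hproj := (LinearMap.isProj_range_iff_isIdempotentElem (Matrix.toLin' A.transpose)).mpr hidem
  have htr := hproj.trace
  have h1 : LinearMap.trace ℂ _ (Matrix.toLin' A.transpose) = A.transpose.trace := by
    rw [← Matrix.toLin_eq_toLin', Matrix.trace_toLin_eq]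
  rw [h1, Matrix.trace_transpose] at htr
  have h2 : A.trace = ∑ χ : {ψ : IrrCharacter G // ψ ∈ B},
      classInner (pRegularPart p ((χ : IrrCharacter G) : G → ℂ)) ((χ : IrrCharacter G) : G → ℂ) := by
    simp [Matrix.trace, hA, regMatrix]
  rw [← h2, htr]
  congr 1
  -- the dimension
  have h3 : (LinearMap.range (Matrix.toLin' A.transpose)).map (blockExpand B) =
      Submodule.span ℂ ((fun χ : IrrCharacter G => pRegularPart p (χ : G → ℂ)) '' B) := by
    rw [Matrix.toLin'_apply', Matrix.range_mulVecLin, Submodule.map_span]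
    congr 1
    ext f
    constructor
    · rintro ⟨_, ⟨χ, rfl⟩, rfl⟩
      refine ⟨χ.1, χ.2, ?_⟩
      show pRegularPart p ((χ : IrrCharacter G) : G → ℂ) = _
      rw [pRegularPart_eq_sum_closed hcl χ.2]
      rfl
    · rintro ⟨χ, hχ, rfl⟩
      refine ⟨_, ⟨⟨χ, hχ⟩, rfl⟩, ?_⟩
      show _ = pRegularPart p (χ : G → ℂ)
      rw [pRegularPart_eq_sum_closed hcl hχ]
      rfl
  rw [blockRank, ← h3]
  exact ((Submodule.equivMapOfInjective (blockExpand B) (blockExpand_injective B) _).finrank_eq)


end Closed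

section Union

variable {G : Type u} [Group G] [Fintype G] {M : Ideal AlgInt} {p : ℕ} [hp : Fact p.Prime]

open scoped Classical

/-- The union of the blocks with a property. -/
def unionOf (P : Set (IrrCharacter G) → Prop) : Set (IrrCharacter G) := {ψ | ∃ β, ψ ∈ β ∧ P β}

theorem unionOf_regClosed (hM : IsPModular p M) {P : Set (IrrCharacter G) → Prop} (hP : ∀ β, P β → IsPBlock M β) :
    RegClosedSet p (unionOf P) := by
  rintro χ ⟨β, hχ, hβ⟩ ψ hψ
  refine classInner_pRegularPart_eq_zero hM (hP β hβ) hχ fun h => hψ ⟨β, h, hβ⟩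

theorem sum_unionOf (hM : IsPModular p M) {P : Set (IrrCharacter G) → Prop} (hP : ∀ β, P β → IsPBlock M β)
    (f : IrrCharacter G → ℂ) :
    have := isPrime_of_modular hM
    ∑ χ : {ψ : IrrCharacter G // ψ ∈ unionOf P}, f χ =
      ∑ β ∈ (blocksFinset M G).filter P, ∑ χ : {ψ : IrrCharacter G // ψ ∈ β}, f χ := by
  intro hpr
  have h1 : ∑ χ : {ψ : IrrCharacter G // ψ ∈ unionOf P}, f χ =
      ∑ χ ∈ Finset.univ.filter (fun ψ : IrrCharacter G => ψ ∈ unionOf P), f χ :=
    (Finset.sum_subtype (Finset.univ.filter (fun ψ : IrrCharacter G => ψ ∈ unionOf P)) (fun x => by simp) f).symm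
  have h2 : ∀ β ∈ (blocksFinset M G).filter P, ∑ χ : {ψ : IrrCharacter G // ψ ∈ β}, f χ =
      ∑ χ ∈ Finset.univ.filter (fun ψ : IrrCharacter G => ψ ∈ β), f χ := by
    intro β _
    exact (Finset.sum_subtype (Finset.univ.filter (fun ψ : IrrCharacter G => ψ ∈ β)) (fun x => by simp) f).symm
  rw [h1, Finset.sum_congr rfl h2, ← Finset.sum_biUnion]
  · refine Finset.sum_congr ?_ fun _ _ => rfl
    ext χ
    simp only [Finset.mem_filter, Finset.mem_univ, true_and, Finset.mem_biUnion]
    constructor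
    · rintro ⟨β, hχ, hβ⟩
      exact ⟨β, ⟨mem_blocksFinset.mpr (hP β hβ), hβ⟩, hχ⟩
    · rintro ⟨β, ⟨-, hβ⟩, hχ⟩
      exact ⟨β, hχ, hβ⟩
  · intro β hβ β' hβ' hne
    refine Finset.disjoint_left.mpr fun χ hχ hχ' => hne ?_
    have h3 := mem_blocksFinset.mp (Finset.mem_filter.mp hβ).1
    have h4 := mem_blocksFinset.mp (Finset.mem_filter.mp hβ').1
    exact (blockOf_eq_of_mem h3 (Finset.mem_filter.mp hχ).2).trans (blockOf_eq_of_mem h4 (Finset.mem_filter.mp hχ').2).symm

theorem rank_unionOf (hM : IsPModular p M) {P : Set (IrrCharacter G) → Prop} (hP : ∀ β, P β → IsPBlock M β) :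
    have := isPrime_of_modular hM
    blockRank p (unionOf P) = ∑ β ∈ (blocksFinset M G).filter P, blockRank p β := by
  intro hpr
  apply Nat.cast_injective (R := ℂ)
  rw [← sum_classInner_pRegularPart_closed (unionOf_regClosed hM hP), Nat.cast_sum,
    sum_unionOf hM hP (fun χ => classInner (pRegularPart p (χ : G → ℂ)) (χ : G → ℂ))]
  refine Finset.sum_congr rfl fun β hβ => ?_
  rw [sum_classInner_pRegularPart hM (mem_blocksFinset.mp (Finset.mem_filter.mp hβ).1)]

theorem card_unionOf (hM : IsPModular p M) {P : Set (IrrCharacter G) → Prop} (hP : ∀ β, P β → IsPBlock M β) :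
    have := isPrime_of_modular hM
    Nat.card (unionOf P) = ∑ β ∈ (blocksFinset M G).filter P, Nat.card β := by
  intro hpr
  apply Nat.cast_injective (R := ℂ)
  have h1 : ∀ S : Set (IrrCharacter G), (Nat.card S : ℂ) = ∑ _χ : {ψ : IrrCharacter G // ψ ∈ S}, (1 : ℂ) := by
    intro S
    rw [Finset.sum_const, Finset.card_univ, nsmul_eq_mul, mul_one, Nat.card_eq_fintype_card]
  rw [h1, Nat.cast_sum, sum_unionOf hM hP (fun _ => (1 : ℂ))]
  refine Finset.sum_congr rfl fun β _ => ?_
  rw [h1]

end Union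

section Tower

variable {G : Type u} [Group G] [Fintype G] {M : Ideal AlgInt} {p : ℕ} [hp : Fact p.Prime]

open scoped Classical

/-- The reverse direction of the transitivity of block induction. -/
theorem isInducedBlock_tower_rev (hM : IsPModular p M) (K : Subgroup G) [Fintype K] (L : Subgroup K) [Fintype L]
    (L' : Subgroup G) [Fintype L'] (φ : L ≃* L') (hφ : ∀ x : L, ((φ x : L') : G) = ((x : K) : G))
    {b : Set (IrrCharacter L)} {B₀ : Set (IrrCharacter K)} {B : Set (IrrCharacter G)}
    (h1 : IsInducedBlock M L b B₀) (h2 : IsInducedBlock M L' (transBlock φ.symm b) B) :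
    IsInducedBlock M K B₀ B := by
  classical
  have := isPrime_of_modular hM
  refine ⟨h1.2.1, h2.2.1, fun θ hθ χ hχ g => ?_⟩
  obtain ⟨ξ', hξ'⟩ := IsPBlock.nonempty h2.1
  have hξ : Cfsg.Agent.Lib.Blocks.irrComp φ ξ' ∈ b := hξ'
  have ha : IsClassFunction K (Cfsg.Agent.Lib.Blocks.resFun K (cls g)) :=
    resFun_isClassFunction K (cls_isClassFunction g)
  have hc : spec (Cfsg.Agent.Lib.Blocks.resFun K (cls g)) ∈ zS M K :=
    Cfsg.Agent.Lib.Blocks.spec_mem_zS ha (fun x => cls_memLocalRing g x)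
  have h3 := IsInducedBlock.resPhi_congr L h1 hξ hθ hc
  rw [resPhi, coef_spec _ ha] at h3
  have h4 : spec (Cfsg.Agent.Lib.Blocks.resFun L (Cfsg.Agent.Lib.Blocks.resFun K (cls g)))
      (Cfsg.Agent.Lib.Blocks.irrComp φ ξ') = spec (Cfsg.Agent.Lib.Blocks.resFun L' (cls g)) ξ' := by
    rw [← spec_irrComp φ]
    congr 1
    funext x
    simp only [resFun_apply, Function.comp_apply, hφ]
  have h5 := h2.2.2 ξ' hξ' χ hχ g
  rw [inducedCentralChar_eq_spec] at h5 ⊢
  rw [h4] at h3
  exact MemLocalIdeal.trans (MemLocalIdeal.symm h3) h5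

/-- The centraliser of an element inside a subgroup. -/
def cenInf (H : Subgroup G) (x : H) :
    Subgroup.centralizer ({x} : Set H) ≃* ((H ⊓ Subgroup.centralizer ({(x : G)} : Set G) : Subgroup G)) where
  toFun c := ⟨((c : H) : G), (c : H).2, Subgroup.mem_centralizer_singleton_iff.mpr
    (congrArg (fun y : H => (y : G)) (Subgroup.mem_centralizer_singleton_iff.mp c.2))⟩
  invFun y := ⟨⟨y, y.2.1⟩, by
    rw [Subgroup.mem_centralizer_singleton_iff]
    exact Subtype.ext (Subgroup.mem_centralizer_singleton_iff.mp y.2.2)⟩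
  left_inv c := rfl
  right_inv y := rfl
  map_mul' _ _ := rfl

/-- The union of the blocks of `K` inducing `b`. -/
def bS (M : Ideal AlgInt) (b : Set (IrrCharacter G)) (K : Subgroup G) : Set (IrrCharacter K) :=
  {ψ | ∃ β, ψ ∈ β ∧ IsInducedBlock M K β b}

/-- The weight of a subgroup. -/
noncomputable def Wt (M : Ideal AlgInt) (p : ℕ) (b : Set (IrrCharacter G)) (K : Subgroup G) : ℤ :=
  (Nat.card K : ℤ) * blockRank p (bS M b K)

theorem bS_eq_unionOf (b : Set (IrrCharacter G)) (K : Subgroup G) [Fintype K] :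
    bS M b K = unionOf (fun β => IsInducedBlock M K β b) := rfl

theorem blockPull_bS (hM : IsPModular p M) (H : Subgroup G) [Fintype H] (x : H) (hx : ∃ k, orderOf x = p ^ k)
    [Fintype (Subgroup.centralizer ({x} : Set H))]
    [Fintype ((H ⊓ Subgroup.centralizer ({(x : G)} : Set G) : Subgroup G))] (b : Set (IrrCharacter G)) :
    blockPull (cenInf H x) (bS M b (H ⊓ Subgroup.centralizer ({(x : G)} : Set G))) =
      unionOf (fun γ : Set (IrrCharacter (Subgroup.centralizer ({x} : Set H))) =>
        IsPBlock M γ ∧ ∃ β, IsInducedBlock M (Subgroup.centralizer ({x} : Set H)) γ β ∧ IsInducedBlock M H β b) := by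
  classical
  have := isPrime_of_modular hM
  have hφ : ∀ c : Subgroup.centralizer ({x} : Set H), (((cenInf H x) c : _) : G) = ((c : H) : G) := fun _ => rfl
  ext ψ
  constructor
  · rintro ⟨β', hψ, hβ'⟩
    -- the transported block
    let γ : Set (IrrCharacter (Subgroup.centralizer ({x} : Set H))) := blockPull (cenInf H x) β'
    have hγ : IsPBlock M γ := isPBlock_blockPull (cenInf H x) hβ'.1
    obtain ⟨β, hβ⟩ := exists_isInducedBlock_sub hM (mem_cent_iff x) hx hγ
    refine ⟨γ, hψ, hγ, β, hβ, ?_⟩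
    refine isInducedBlock_tower_rev hM H _ _ (cenInf H x) hφ hβ ?_
    have h1 : transBlock (cenInf H x).symm γ = β' := by
      ext ξ
      show Cfsg.Agent.Lib.Blocks.irrComp (cenInf H x).symm (Cfsg.Agent.Lib.Blocks.irrComp (cenInf H x) ξ) ∈ β' ↔ _
      rw [irrComp_symm_irrComp]
    rw [h1]
    exact hβ'
  · rintro ⟨γ, hψ, hγ, β, hβ, hβb⟩
    refine ⟨transBlock (cenInf H x).symm γ, ?_, Cfsg.Agent.Lib.Char.BK.isInducedBlock_tower hM H _ _ (cenInf H x) hφ hβ hβb⟩
    show Cfsg.Agent.Lib.Blocks.irrComp (cenInf H x) (Cfsg.Agent.Lib.Blocks.irrComp (cenInf H x).symm ψ) ∈ γ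
    have h2 := irrComp_symm_irrComp (cenInf H x).symm ψ
    rw [MulEquiv.symm_symm] at h2
    rwa [h2]

theorem finsum_induced_eq_sum [M.IsPrime] {K : Type u} [Group K] [Fintype K] (L : Subgroup K) [Fintype L]
    (β : Set (IrrCharacter K)) (f : Set (IrrCharacter L) → ℕ) :
    ∑ᶠ γ ∈ {γ : Set (IrrCharacter L) | IsInducedBlock M L γ β}, f γ =
      ∑ γ ∈ (blocksFinset M L).filter (fun γ => IsInducedBlock M L γ β), f γ := by
  classical
  rw [← finsum_mem_coe_finset]
  refine finsum_mem_congr ?_ fun _ _ => rfl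
  ext γ
  simp only [Finset.coe_filter, mem_blocksFinset]
  constructor
  · intro h
    exact ⟨h.1, h⟩
  · intro h
    exact h.2

theorem rank_bS_inf (hM : IsPModular p M) (H : Subgroup G) [Fintype H] (x : H) (hx : ∃ k, orderOf x = p ^ k)
    [Fintype (Subgroup.centralizer ({x} : Set H))]
    [Fintype ((H ⊓ Subgroup.centralizer ({(x : G)} : Set G) : Subgroup G))] (b : Set (IrrCharacter G)) :
    have := isPrime_of_modular hM
    blockRank p (bS M b (H ⊓ Subgroup.centralizer ({(x : G)} : Set G))) =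
      ∑ β ∈ (blocksFinset M H).filter (fun β => IsInducedBlock M H β b),
        ∑ᶠ γ ∈ {γ : Set (IrrCharacter (Subgroup.centralizer ({x} : Set H))) |
          IsInducedBlock M (Subgroup.centralizer ({x} : Set H)) γ β}, blockRank p γ := by
  intro hpr
  classical
  rw [← blockRank_blockPull (p := p) (cenInf H x), blockPull_bS hM H x hx b, rank_unionOf hM (fun _ h => h.1)]
  simp_rw [finsum_induced_eq_sum]
  rw [← Finset.sum_biUnion]
  · refine Finset.sum_congr ?_ fun _ _ => rfl
    ext γ
    simp only [Finset.mem_filter, Finset.mem_biUnion, mem_blocksFinset]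
    constructor
    · rintro ⟨hγ, -, β, hβ, hβb⟩
      exact ⟨β, ⟨hβb.1, hβb⟩, hγ, hβ⟩
    · rintro ⟨β, ⟨-, hβb⟩, hγ, hβ⟩
      exact ⟨hγ, hγ, β, hβ, hβb⟩
  · intro β _ β' _ hne
    refine Finset.disjoint_left.mpr fun γ hγ hγ' => hne ?_
    exact IsInducedBlock.unique _ (Finset.mem_filter.mp hγ).2 (Finset.mem_filter.mp hγ').2

/-- The count of characters in the subgroup `H`. -/
theorem card_bS_eq_sum (hM : IsPModular p M) (H : Subgroup G) [Fintype H] (b : Set (IrrCharacter G))
    (X : Finset H) (hX : ∀ x ∈ X, ∃ k, orderOf x = p ^ k)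
    (hXrep : ∀ g : H, (∃ k, orderOf g = p ^ k) → ∃! x, x ∈ X ∧ IsConj g x) :
    Nat.card (bS M b H) = ∑ x ∈ X, blockRank p (bS M b (H ⊓ Subgroup.centralizer ({(x : G)} : Set G))) := by
  classical
  have := isPrime_of_modular hM
  letI : ∀ x : H, Fintype (Subgroup.centralizer ({x} : Set H)) := fun _ => Fintype.ofFinite _
  letI : ∀ x : H, Fintype ((H ⊓ Subgroup.centralizer ({(x : G)} : Set G) : Subgroup G)) := fun _ => Fintype.ofFinite _
  rw [bS_eq_unionOf, card_unionOf hM (fun _ h => h.1)]
  have h1 : ∀ β ∈ (blocksFinset M H).filter (fun β => IsInducedBlock M H β b), Nat.card β =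
      ∑ x ∈ X, ∑ᶠ γ ∈ {γ : Set (IrrCharacter (Subgroup.centralizer ({x} : Set H))) |
          IsInducedBlock M (Subgroup.centralizer ({x} : Set H)) γ β}, blockRank p γ := fun β hβ =>
    card_block_eq_sum hM (Finset.mem_filter.mp hβ).2.1 X hX hXrep
  rw [Finset.sum_congr rfl h1, Finset.sum_comm]
  refine Finset.sum_congr rfl fun x hx => ?_
  rw [rank_bS_inf hM H x (hX x hx) b]

end Tower

section Reps

variable {A : Type u} [Group A] [Fintype A]

open scoped Classical

theorem card_filter_isConj (x : A) :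
    (Finset.univ.filter (fun u : A => IsConj u x)).card * Nat.card (Subgroup.centralizer ({x} : Set A)) = Nat.card A := by
  classical
  rw [← Cfsg.Agent.Lib.Known.card_carrier_mul_card_centralizer x]
  congr 1
  have : (ConjClasses.mk x).carrier = ↑(Finset.univ.filter (fun u : A => IsConj u x)) := by
    ext u
    simp [ConjClasses.mem_carrier_iff_mk_eq, ConjClasses.mk_eq_mk_iff_isConj]
  rw [this, Nat.card_coe_set_eq, Set.ncard_coe_finset]

/-- The sum over all `p`-elements from the sums over systems of representatives. -/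
theorem sum_pElements_of_reps (p : ℕ) (ρ : A → ℤ) (n : ℤ)
    (h : ∀ X : Finset A, (∀ x ∈ X, ∃ k, orderOf x = p ^ k) →
      (∀ g : A, (∃ k, orderOf g = p ^ k) → ∃! x, x ∈ X ∧ IsConj g x) → n = ∑ x ∈ X, ρ x) :
    (Nat.card A : ℤ) * n = ∑ u ∈ Finset.univ.filter (fun u : A => ∃ k, orderOf u = p ^ k),
      (Nat.card (Subgroup.centralizer ({u} : Set A)) : ℤ) * ρ u := by
  classical
  obtain ⟨X, hX, hXrep⟩ := exists_pElement_reps (G := A) p
  have hord : ∀ {u v : A}, IsConj u v → orderOf u = orderOf v := by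
    intro u v huv
    obtain ⟨c, rfl⟩ := isConj_iff.mp huv
    exact (orderOf_conj _ _).symm
  have hinv : ∀ x ∈ X, ∀ u, IsConj u x → ρ u = ρ x := by
    intro x hx u hux
    by_cases hne : u = x
    · rw [hne]
    have hu' : u ∉ X.erase x := by
      intro hu
      have hp : ∃ k, orderOf u = p ^ k := by rw [hord hux]; exact hX x hx
      exact hne ((hXrep u hp).unique ⟨(Finset.mem_erase.mp hu).2, IsConj.refl u⟩ ⟨hx, hux⟩)
    have h1 := h X hX hXrep
    have h2 := h (insert u (X.erase x)) ?_ ?_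
    · rw [Finset.sum_insert hu'] at h2
      rw [← Finset.add_sum_erase X _ hx] at h1
      linarith
    · intro y hy
      rcases Finset.mem_insert.mp hy with rfl | hy
      · rw [hord hux]; exact hX x hx
      · exact hX y (Finset.mem_of_mem_erase hy)
    · intro g hg
      obtain ⟨y₀, ⟨hy₀, hgy₀⟩, huniq⟩ := hXrep g hg
      by_cases hy₀x : y₀ = x
      · subst hy₀x
        refine ⟨u, ⟨Finset.mem_insert_self _ _, hgy₀.trans hux.symm⟩, ?_⟩
        rintro y ⟨hy, hgy⟩
        rcases Finset.mem_insert.mp hy with rfl | hy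
        · rfl
        · exact absurd (huniq y ⟨Finset.mem_of_mem_erase hy, hgy⟩) (Finset.mem_erase.mp hy).1
      · refine ⟨y₀, ⟨Finset.mem_insert_of_mem (Finset.mem_erase.mpr ⟨hy₀x, hy₀⟩), hgy₀⟩, ?_⟩
        rintro y ⟨hy, hgy⟩
        rcases Finset.mem_insert.mp hy with rfl | hy
        · exact absurd (huniq x ⟨hx, hgy.trans hux⟩).symm hy₀x
        · exact huniq y ⟨Finset.mem_of_mem_erase hy, hgy⟩
  have hP : Finset.univ.filter (fun u : A => ∃ k, orderOf u = p ^ k) =
      X.biUnion (fun x => Finset.univ.filter (fun u : A => IsConj u x)) := by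
    ext u
    simp only [Finset.mem_filter, Finset.mem_univ, true_and, Finset.mem_biUnion]
    constructor
    · intro hu
      obtain ⟨x, ⟨hx, hc⟩, -⟩ := hXrep u hu
      exact ⟨x, hx, hc⟩
    · rintro ⟨x, hx, hc⟩
      rw [hord hc]
      exact hX x hx
  rw [hP, Finset.sum_biUnion]
  · rw [h X hX hXrep, Finset.mul_sum]
    refine Finset.sum_congr rfl fun x hx => ?_
    have h3 : ∀ u ∈ Finset.univ.filter (fun u : A => IsConj u x),
        (Nat.card (Subgroup.centralizer ({u} : Set A)) : ℤ) * ρ u =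
          (Nat.card (Subgroup.centralizer ({x} : Set A)) : ℤ) * ρ x := by
      intro u hu
      have hc := (Finset.mem_filter.mp hu).2
      rw [hinv x hx u hc]
      obtain ⟨c, rfl⟩ := isConj_iff.mp hc.symm
      rw [Nat.card_congr (cenSingletonConj c x).toEquiv.symm]
    rw [Finset.sum_congr rfl h3, Finset.sum_const, nsmul_eq_mul, ← mul_assoc]
    congr 1
    exact_mod_cast (card_filter_isConj x).symm
  · intro x hx x' hx' hne
    refine Finset.disjoint_left.mpr fun u hu hu' => hne ?_
    have hc := (Finset.mem_filter.mp hu).2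
    have hc' := (Finset.mem_filter.mp hu').2
    have hp : ∃ k, orderOf u = p ^ k := by rw [hord hc]; exact hX x hx
    exact (hXrep u hp).unique ⟨hx, hc⟩ ⟨hx', hc'⟩

end Reps

section Formula

variable {G : Type u} [Group G] [Fintype G] {M : Ideal AlgInt} {p : ℕ} [hp : Fact p.Prime]

open scoped Classical

/-- **The formula for a subgroup.** -/
theorem formula_subgroup (hM : IsPModular p M) (H : Subgroup G) (b : Set (IrrCharacter G)) :
    (Nat.card H : ℤ) * Nat.card (bS M b H) =
      ∑ u ∈ Finset.univ.filter (fun u : G => u ∈ H ∧ ∃ k, orderOf u = p ^ k),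
        Wt M p b (H ⊓ Subgroup.centralizer ({u} : Set G)) := by
  classical
  letI : Fintype H := Fintype.ofFinite _
  have h1 := sum_pElements_of_reps (A := H) p
    (fun x => (blockRank p (bS M b (H ⊓ Subgroup.centralizer ({(x : G)} : Set G))) : ℤ)) (Nat.card (bS M b H) : ℤ)
    (fun X hX hXrep => by
      rw [card_bS_eq_sum hM H b X hX hXrep]
      push_cast
      rfl)
  rw [h1]
  refine Finset.sum_bij (fun u _ => (u : G)) ?_ ?_ ?_ ?_
  · intro u hu
    simp only [Finset.mem_filter, Finset.mem_univ, true_and] at hu ⊢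
    refine ⟨u.2, ?_⟩
    rwa [Subgroup.orderOf_coe]
  · intro u _ v _ h
    exact Subtype.ext h
  · intro g hg
    simp only [Finset.mem_filter, Finset.mem_univ, true_and] at hg
    refine ⟨⟨g, hg.1⟩, ?_, rfl⟩
    simp only [Finset.mem_filter, Finset.mem_univ, true_and]
    rw [← Subgroup.orderOf_coe]
    exact hg.2
  · intro u _
    rw [Wt, Nat.card_congr (cenInf H u).toEquiv]

/-- The part of the formula at the identity. -/
theorem sub_formula_subgroup (hM : IsPModular p M) (H : Subgroup G) (b : Set (IrrCharacter G)) :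
    (Nat.card H : ℤ) * ((Nat.card (bS M b H) : ℤ) - (blockRank p (bS M b H) : ℤ)) =
      ∑ u ∈ Finset.univ.filter (fun u : G => u ≠ 1 ∧ (∃ k, orderOf u = p ^ k) ∧ u ∈ H),
        Wt M p b (H ⊓ Subgroup.centralizer ({u} : Set G)) := by
  classical
  have h1 := formula_subgroup hM H b
  have h2 : Finset.univ.filter (fun u : G => u ∈ H ∧ ∃ k, orderOf u = p ^ k) =
      insert 1 (Finset.univ.filter (fun u : G => u ≠ 1 ∧ (∃ k, orderOf u = p ^ k) ∧ u ∈ H)) := by
    ext u
    simp only [Finset.mem_filter, Finset.mem_univ, true_and, Finset.mem_insert]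
    constructor
    · rintro ⟨h3, h4⟩
      by_cases hu : u = 1
      · exact Or.inl hu
      · exact Or.inr ⟨hu, h4, h3⟩
    · rintro (rfl | ⟨-, h4, h3⟩)
      · exact ⟨one_mem _, 0, by simp⟩
      · exact ⟨h3, h4⟩
  rw [h2, Finset.sum_insert (by simp)] at h1
  have h3 : H ⊓ Subgroup.centralizer ({(1 : G)} : Set G) = H := by
    refine inf_eq_left.mpr fun g _ => Subgroup.mem_centralizer_singleton_iff.mpr (by simp)
  rw [h3, Wt] at h1
  linarith

/-- **The formula for the group itself.** -/
theorem sub_formula_group (hM : IsPModular p M) {b : Set (IrrCharacter G)} (hb : IsPBlock M b) :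
    (Nat.card G : ℤ) * ((Nat.card b : ℤ) - (blockRank p b : ℤ)) =
      ∑ u ∈ Finset.univ.filter (fun u : G => u ≠ 1 ∧ ∃ k, orderOf u = p ^ k),
        Wt M p b (Subgroup.centralizer ({u} : Set G)) := by
  classical
  have := isPrime_of_modular hM
  letI : ∀ x : G, Fintype (Subgroup.centralizer ({x} : Set G)) := fun _ => Fintype.ofFinite _
  have hrk : ∀ x : G, blockRank p (bS M b (Subgroup.centralizer ({x} : Set G))) =
      ∑ᶠ γ ∈ {γ : Set (IrrCharacter (Subgroup.centralizer ({x} : Set G))) |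
        IsInducedBlock M (Subgroup.centralizer ({x} : Set G)) γ b}, blockRank p γ := by
    intro x
    rw [finsum_induced_eq_sum, bS_eq_unionOf, rank_unionOf hM (fun _ h => h.1)]
  have h1 := sum_pElements_of_reps (A := G) p
    (fun x => (blockRank p (bS M b (Subgroup.centralizer ({x} : Set G))) : ℤ)) (Nat.card b : ℤ)
    (fun X hX hXrep => by
      rw [card_block_eq_sum hM hb X hX hXrep, Nat.cast_sum]
      refine Finset.sum_congr rfl fun x _ => ?_
      rw [hrk x])
  have h2 : Finset.univ.filter (fun u : G => ∃ k, orderOf u = p ^ k) =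
      insert 1 (Finset.univ.filter (fun u : G => u ≠ 1 ∧ ∃ k, orderOf u = p ^ k)) := by
    ext u
    simp only [Finset.mem_filter, Finset.mem_univ, true_and, Finset.mem_insert]
    constructor
    · intro h4
      by_cases hu : u = 1
      · exact Or.inl hu
      · exact Or.inr ⟨hu, h4⟩
    · rintro (rfl | ⟨-, h4⟩)
      · exact ⟨0, by simp⟩
      · exact h4
  rw [h2, Finset.sum_insert (by simp)] at h1
  have h3 : blockRank p (bS M b (Subgroup.centralizer ({(1 : G)} : Set G))) = blockRank p b := by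
    rw [hrk, finsum_centOne hb]
  have h4 : Nat.card (Subgroup.centralizer ({(1 : G)} : Set G)) = Nat.card G := by
    have : Subgroup.centralizer ({(1 : G)} : Set G) = ⊤ := by
      rw [eq_top_iff]
      exact fun g _ => Subgroup.mem_centralizer_singleton_iff.mpr (by simp)
    rw [this, Subgroup.card_top]
  rw [h3, h4] at h1
  have h5 : ∑ u ∈ Finset.univ.filter (fun u : G => u ≠ 1 ∧ ∃ k, orderOf u = p ^ k),
      (Nat.card (Subgroup.centralizer ({u} : Set G)) : ℤ) * (blockRank p (bS M b (Subgroup.centralizer ({u} : Set G))) : ℤ) =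
      ∑ u ∈ Finset.univ.filter (fun u : G => u ≠ 1 ∧ ∃ k, orderOf u = p ^ k),
        Wt M p b (Subgroup.centralizer ({u} : Set G)) := rfl
  rw [h5] at h1
  linarith

end Formula

end Cfsg.Agent.Lib.H8Group
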