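import Cfsg.Agent.Lib.H8Group.FourierLB

/-!
# A lattice lemma for a complementary form

An integer symmetric matrix `N` with `N² = Q N`, congruent to a rank one matrix in a graded sense, and with
trace at most `3 Q`, has size at most `Q`.
-/

set_option autoImplicit false
set_option linter.unusedSectionVars false
set_option linter.style.haveILetI false

namespace Cfsg.Agent.Lib.H8Group

section Lattice

variable {κ : Type*} [Fintype κ]

theorem compl_aux {t G : ℤ} {h : ℕ} (h1 : (2 : ℤ) ^ (h + 1) ∣ t - 2 ^ h * G) (hG : ¬ (2 : ℤ) ∣ G) :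
    (2 : ℤ) ^ h ∣ t ∧ t ≠ 0 := by
  have h2 : (2 : ℤ) ^ h ∣ t := by
    have h3 : (2 : ℤ) ^ h ∣ t - 2 ^ h * G := (pow_dvd_pow _ (Nat.le_succ h)).trans h1
    have h4 := dvd_add h3 (dvd_mul_right ((2 : ℤ) ^ h) G)
    simpa using h4
  refine ⟨h2, ?_⟩
  rintro rfl
  apply hG
  rw [zero_sub, dvd_neg, pow_succ] at h1
  exact (mul_dvd_mul_iff_left (pow_ne_zero _ two_ne_zero)).mp h1

theorem compl_aux2 {t : ℤ} {h : ℕ} (h1 : (2 : ℤ) ^ h ∣ t) (h2 : t ≠ 0) : (4 : ℤ) ^ h ≤ t ^ 2 := by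
  obtain ⟨u, rfl⟩ := h1
  have hu : u ≠ 0 := fun h => h2 (by simp [h])
  have h3 : (1 : ℤ) ≤ u ^ 2 := by
    have : 0 < u ^ 2 := by positivity
    omega
  have h4 : ((2 : ℤ) ^ h * u) ^ 2 = 4 ^ h * u ^ 2 := by
    rw [mul_pow, ← pow_mul, mul_comm h 2, pow_mul]
    norm_num
  rw [h4]
  have h5 : (0 : ℤ) < 4 ^ h := by positivity
  nlinarith

/-- **The lattice lemma.** -/
theorem compl_lattice {Q : ℤ} (hQ : 0 < Q) {N : κ → κ → ℤ} (hNs : ∀ χ ψ, N χ ψ = N ψ χ)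
    (hN2 : ∀ χ τ, ∑ ψ, N χ ψ * N ψ τ = Q * N χ τ) {g : κ → ℤ} {h : κ → ℕ}
    (h1 : ∀ χ ψ, (2 : ℤ) ^ (h χ + 1) ∣ N χ ψ - 2 ^ h χ * g ψ)
    (h2 : ∀ χ, (¬ (2 : ℤ) ∣ g χ ↔ h χ = 0))
    {χ₀ : κ} (hχ₀ : h χ₀ = 0)
    (h3 : ∑ χ, N χ χ ≤ 3 * Q) :
    (Fintype.card κ : ℤ) ≤ Q := by
  classical
  set t : (κ → ℤ) → κ → ℤ := fun n χ => ∑ ψ, N χ ψ * n ψ with ht
  set Gf : (κ → ℤ) → ℤ := fun n => ∑ χ, n χ * g χ with hG
  have hqsum : ∀ n, Q * qbil N n n = ∑ χ, t n χ ^ 2 := by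
    intro n
    have h4 : ∑ χ, t n χ ^ 2 = ∑ ψ, ∑ τ, ∑ χ, (N χ ψ * n ψ) * (N χ τ * n τ) := by
      simp only [ht, sq, Finset.sum_mul_sum]
      rw [Finset.sum_comm]
      refine Finset.sum_congr rfl fun ψ _ => ?_
      rw [Finset.sum_comm]
    rw [h4, qbil_apply, Finset.mul_sum]
    refine Finset.sum_congr rfl fun ψ _ => ?_
    rw [Finset.mul_sum]
    refine Finset.sum_congr rfl fun τ _ => ?_
    have h5 : Q * (n ψ * n τ * N ψ τ) = n ψ * n τ * (Q * N ψ τ) := by ring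
    rw [h5, ← hN2, Finset.mul_sum]
    refine Finset.sum_congr rfl fun χ _ => ?_
    rw [hNs ψ χ]
    ring
  have hnn : ∀ n, 0 ≤ qbil N n n := by
    intro n
    have h4 := hqsum n
    have h5 : 0 ≤ Q * qbil N n n := by
      rw [h4]
      positivity
    exact nonneg_of_mul_nonneg_right h5 hQ
  have ht1 : ∀ n χ, (2 : ℤ) ^ (h χ + 1) ∣ t n χ - 2 ^ h χ * Gf n := by
    intro n χ
    have h4 : t n χ - 2 ^ h χ * Gf n = ∑ ψ, (N χ ψ - 2 ^ h χ * g ψ) * n ψ := by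
      simp only [ht, hG, Finset.mul_sum, ← Finset.sum_sub_distrib]
      refine Finset.sum_congr rfl fun ψ _ => ?_
      ring
    rw [h4]
    exact Finset.dvd_sum fun ψ _ => Dvd.dvd.mul_right (h1 χ ψ) _
  have hpar : ∀ n, (2 : ℤ) ∣ qbil N n n - Gf n ^ 2 := by
    intro n
    have h4 : qbil N n n - Gf n ^ 2 = ∑ χ, n χ * (t n χ - g χ * Gf n) := by
      have h5 : qbil N n n = ∑ χ, n χ * t n χ := by
        simp only [qbil_apply, ht, Finset.mul_sum]
        refine Finset.sum_congr rfl fun χ _ => Finset.sum_congr rfl fun ψ _ => ?_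
        ring
      have h6 : Gf n ^ 2 = ∑ χ, n χ * (g χ * Gf n) := by
        rw [sq]
        conv_lhs => rw [hG]
        simp only
        rw [Finset.sum_mul]
        refine Finset.sum_congr rfl fun χ _ => ?_
        ring
      rw [h5, h6, ← Finset.sum_sub_distrib]
      refine Finset.sum_congr rfl fun χ _ => ?_
      ring
    rw [h4]
    refine Finset.dvd_sum fun χ _ => Dvd.dvd.mul_left ?_ _
    by_cases h0 : h χ = 0
    · have h5 := ht1 n χ
      rw [h0] at h5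
      simp only [zero_add, pow_one, pow_zero, one_mul] at h5
      have h6 : ¬ (2 : ℤ) ∣ g χ := (h2 χ).mpr h0
      have h7 : (2 : ℤ) ∣ g χ - 1 := by omega
      have h8 : t n χ - g χ * Gf n = (t n χ - Gf n) - (g χ - 1) * Gf n := by ring
      rw [h8]
      exact dvd_sub h5 (Dvd.dvd.mul_right h7 _)
    · have h5 : (2 : ℤ) ∣ t n χ - 2 ^ h χ * Gf n :=
        (dvd_pow_self (2 : ℤ) (by omega)).trans (ht1 n χ)
      have h6 : (2 : ℤ) ∣ (2 : ℤ) ^ h χ := dvd_pow_self _ h0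
      have h7 : (2 : ℤ) ∣ g χ := by
        by_contra hcon
        exact h0 ((h2 χ).mp hcon)
      have h8 : t n χ - g χ * Gf n = (t n χ - 2 ^ h χ * Gf n) + (2 ^ h χ - g χ) * Gf n := by ring
      rw [h8]
      exact dvd_add h5 (Dvd.dvd.mul_right (dvd_sub h6 h7) _)
  have hodd : ∀ n, ¬ (2 : ℤ) ∣ Gf n → ¬ (2 : ℤ) ∣ qbil N n n := by
    intro n hn hcon
    have h4 := dvd_sub hcon (hpar n)
    rw [sub_sub_cancel] at h4
    exact hn (Int.prime_two.dvd_of_dvd_pow h4)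
  -- the basis vectors
  have hGδ : ∀ χ, Gf (fun ψ => if ψ = χ then 1 else 0) = g χ := by
    intro χ
    simp [hG]
  have hqδ : ∀ χ, qbil N (fun ψ => if ψ = χ then 1 else 0) (fun ψ => if ψ = χ then 1 else 0) = N χ χ := by
    intro χ
    simp [qbil_apply]
  -- the minimum
  have hex : ∃ k : ℕ, ∃ n : κ → ℤ, ¬ (2 : ℤ) ∣ Gf n ∧ (qbil N n n).toNat = k :=
    ⟨_, fun ψ => if ψ = χ₀ then 1 else 0, by
      rw [hGδ]
      exact (h2 χ₀).mpr hχ₀, rfl⟩
  obtain ⟨n₀, hn₀, h0⟩ := Nat.find_spec hex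
  have hmin : ∀ n, ¬ (2 : ℤ) ∣ Gf n → qbil N n₀ n₀ ≤ qbil N n n := by
    intro n hn
    have h4 : Nat.find hex ≤ (qbil N n n).toNat := Nat.find_min' hex ⟨n, hn, rfl⟩
    have h5 := hnn n
    have h6 := hnn n₀
    omega
  set m := qbil N n₀ n₀ with hm
  have hmodd : ¬ (2 : ℤ) ∣ m := hodd n₀ hn₀
  have hmnn : 0 ≤ m := hnn n₀
  have htne : ∀ χ, t n₀ χ ≠ 0 := fun χ => (compl_aux (ht1 n₀ χ) hn₀).2
  have h4t : ∀ χ, (4 : ℤ) ^ h χ ≤ t n₀ χ ^ 2 := fun χ =>
    compl_aux2 (compl_aux (ht1 n₀ χ) hn₀).1 (htne χ)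
  rcases (by omega : m = 1 ∨ 3 ≤ m) with hm1 | hm3
  · have h5 : (Fintype.card κ : ℤ) ≤ ∑ χ, t n₀ χ ^ 2 := by
      calc (Fintype.card κ : ℤ) = ∑ χ : κ, (1 : ℤ) := by simp
        _ ≤ ∑ χ, t n₀ χ ^ 2 := Finset.sum_le_sum fun χ _ => le_trans (one_le_pow₀ (by norm_num)) (h4t χ)
    rw [← hqsum, ← hm, hm1, mul_one] at h5
    exact h5
  · have h5 : ∀ χ, 3 ≤ N χ χ := by
      intro χ
      by_cases h0 : h χ = 0
      · have h6 := hmin (fun ψ => if ψ = χ then 1 else 0) (by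
          rw [hGδ]
          exact (h2 χ).mpr h0)
        rw [hqδ] at h6
        omega
      · have h6 : (2 : ℤ) ∣ g χ := by
          by_contra hcon
          exact h0 ((h2 χ).mp hcon)
        have h7 : (2 : ℤ) ^ (h χ + 1) ∣ N χ χ := by
          have h8 := h1 χ χ
          have h9 : (2 : ℤ) ^ (h χ + 1) ∣ 2 ^ h χ * g χ := by
            rw [pow_succ]
            exact mul_dvd_mul_left _ h6
          have h10 := dvd_add h8 h9
          simpa using h10
        have h8 : (4 : ℤ) ∣ N χ χ := by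
          have h9 : (4 : ℤ) = 2 ^ 2 := by norm_num
          rw [h9]
          exact (pow_dvd_pow _ (by omega)).trans h7
        have h9 : Q * N χ χ = ∑ ψ, N χ ψ ^ 2 := by
          rw [← hN2]
          refine Finset.sum_congr rfl fun ψ _ => ?_
          rw [hNs ψ χ, sq]
        have h10 : 0 ≤ N χ χ := by
          have h11 : 0 ≤ Q * N χ χ := by
            rw [h9]
            positivity
          exact nonneg_of_mul_nonneg_right h11 hQ
        have h11 : N χ χ ≠ 0 := by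
          intro h12
          rw [h12, mul_zero] at h9
          have h13 := (Finset.sum_eq_zero_iff_of_nonneg (fun ψ _ => by positivity)).mp h9.symm
          apply htne χ
          simp only [ht]
          refine Finset.sum_eq_zero fun ψ hψ => ?_
          have h14 := h13 ψ hψ
          have h15 : N χ ψ = 0 := by
            simpa using h14
          rw [h15, zero_mul]
        omega
    have h6 : 3 * (Fintype.card κ : ℤ) ≤ ∑ χ, N χ χ := by
      calc 3 * (Fintype.card κ : ℤ) = ∑ χ : κ, (3 : ℤ) := by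
            simp [mul_comm]
        _ ≤ ∑ χ, N χ χ := Finset.sum_le_sum fun χ _ => h5 χ
    omega

end Lattice

end Cfsg.Agent.Lib.H8Group
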