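import Mathlib
import Cfsg.Prelude.Def_Blocks
import Cfsg.Prelude.Def_Transfer
import Cfsg.Agent.Lib.H8Group.Thompson
import Cfsg.Agent.Lib.H8Group.Det
import Cfsg.Agent.Lib.Char.Kernel
import Cfsg.Agent.Lib.Char.CliffordBij
import Cfsg.Agent.Lib.Char.BrolineA
import Cfsg.Agent.Lib.Char.Galois
import Cfsg.Agent.Lib.Char.RelGraph2

set_option autoImplicit false

/-!
The intersection of the kernels of the irreducible characters of degree prime to `p`.
-/

namespace Cfsg.Agent.Lib.H8Group

open Cfsg Cfsg.Agent.Lib.Char MulAction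

universe u

section General

variable {G : Type u} [Group G] [Fintype G]

/-- A `p'`-degree character of a subgroup of `p'`-index lies under a `p'`-degree character. -/
theorem exists_over_of_coprime_index (H : Subgroup G) [Fintype H] (p : ℕ) [hp : Fact p.Prime]
    (hH : ¬ p ∣ H.index) {ψ : H → ℂ} (hψ : IsIrrCharacter H ψ) (hd : ¬ p ∣ charDegree ψ) :
    ∃ χ : IrrCharacter G, ¬ p ∣ charDegree (χ : G → ℂ) ∧
      classInner (fun h : H => (χ : G → ℂ) h) ψ ≠ 0 := by
  classical
  have hΦ := isCharacter_indFun H (IsIrrCharacter.isCharacter hψ)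
  obtain ⟨m, hm, hsum⟩ := IsCharacter.exists_eq_sum hΦ
  by_contra hcon
  push Not at hcon
  have h1 := congrFun hsum 1
  rw [indFun_one, apply_one_eq_charDegree (IsIrrCharacter.isCharacter hψ)] at h1
  simp only [Finset.sum_apply, Pi.smul_apply] at h1
  simp only [nsmul_eq_mul] at h1
  have h2 : H.index * charDegree ψ = ∑ χ : IrrCharacter G, m χ * charDegree (χ : G → ℂ) := by
    have : ((H.index * charDegree ψ : ℕ) : ℂ) = ((∑ χ : IrrCharacter G, m χ * charDegree (χ : G → ℂ) : ℕ) : ℂ) := by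
      push_cast
      rw [h1]
      refine Finset.sum_congr rfl fun χ _ => ?_
      rw [apply_one_eq_charDegree (IsIrrCharacter.isCharacter χ.2)]
    exact_mod_cast this
  have h3 : p ∣ H.index * charDegree ψ := by
    rw [h2]
    refine Finset.dvd_sum fun χ _ => ?_
    by_cases h : p ∣ charDegree (χ : G → ℂ)
    · exact Dvd.dvd.mul_left h _
    · have h4 := hcon χ h
      have h5 := hm χ
      rw [classInner_indFun_left H ψ _ (IsCharacter.isClassFunction (IsIrrCharacter.isCharacter χ.2))] at h5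
      rw [classInner_conj_symm, h4] at h5
      have h6 : (m χ : ℂ) = 0 := by rw [← h5]; simp
      have h7 : m χ = 0 := by exact_mod_cast h6
      rw [h7, zero_mul]
      exact dvd_zero _
  rcases (Nat.Prime.dvd_mul hp.out).mp h3 with h | h
  · exact hH h
  · exact hd h

/-- A kernel element of a character is a kernel element of each of its summands. -/
theorem apply_eq_of_add {K : Type*} [Group K] [Finite K] {α β : K → ℂ} (hα : IsCharacter K α)
    (hβ : IsCharacter K β) {g : K} (h : α g + β g = α 1 + β 1) : α g = α 1 := by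
  obtain ⟨a, ha⟩ := IsCharacter.apply_one hα
  obtain ⟨b, hb⟩ := IsCharacter.apply_one hβ
  have h1 := IsCharacter.norm_le hα g
  have h2 := IsCharacter.norm_le hβ g
  rw [ha] at h1 ⊢
  rw [hb] at h2
  rw [ha, hb] at h
  simp only [Complex.norm_natCast] at h1 h2
  have h3 := congrArg Complex.re h
  simp only [Complex.add_re, Complex.natCast_re] at h3
  have h4 : (α g).re ≤ a := (Complex.re_le_norm _).trans h1
  have h5 : (β g).re ≤ b := (Complex.re_le_norm _).trans h2
  have h6 : (α g).re = a := by linarith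
  exact_mod_cast Cfsg.Agent.Lib.Char.Broline.eq_of_norm_le_of_le_re h1 h6.ge

/-- A kernel element of `χ` is in the kernel of each constituent of a restriction. -/
theorem apply_eq_of_constituent {H : Type*} [Group H] [Fintype H] {Φ ψ : H → ℂ} (hΦ : IsCharacter H Φ)
    (hψ : IsIrrCharacter H ψ) (hne : classInner Φ ψ ≠ 0) {g : H} (hg : Φ g = Φ 1) : ψ g = ψ 1 := by
  obtain ⟨a, ha⟩ := IsCharacter.classInner_irr_eq_nat hΦ hψ
  obtain ⟨Δ, hΔ, hsum⟩ := exists_complement hΦ hψ ha
  have ha0 : a ≠ 0 := by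
    rintro rfl
    apply hne
    rw [ha]
    simp
  have h1 : (a • ψ) g + Δ g = (a • ψ) 1 + Δ 1 := by
    have := hg
    rw [hsum] at this
    simpa using this
  have h2 := apply_eq_of_add (IsCharacter.nsmul (IsIrrCharacter.isCharacter hψ) a) hΔ h1
  simp only [Pi.smul_apply] at h2
  simp only [nsmul_eq_mul] at h2
  exact mul_left_cancel₀ (by exact_mod_cast ha0) h2

/-- Sums over subgroups: a constituent trivial on `R` forces a nonzero sum on `R`. -/
theorem sum_subgroup_ne_zero_of_constituent (H R : Subgroup G) [Fintype H] [Fintype R] (hRH : R ≤ H)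
    {χ : G → ℂ} (hχ : IsCharacter G χ) {ψ : H → ℂ} (hψ : IsIrrCharacter H ψ)
    (hne : classInner (fun h : H => χ h) ψ ≠ 0) (htriv : ∀ r : R, ψ ⟨r, hRH r.2⟩ = ψ 1) :
    ∑ r : R, χ r ≠ 0 := by
  classical
  have hΦ : IsCharacter H (fun h : H => χ h) := isCharacter_resFun H hχ
  obtain ⟨a, ha⟩ := IsCharacter.classInner_irr_eq_nat hΦ hψ
  obtain ⟨Δ, hΔ, hsum⟩ := exists_complement hΦ hψ ha
  have ha0 : a ≠ 0 := by
    rintro rfl
    apply hne
    rw [ha]
    simp
  -- the complement restricted to `R`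
  let ι : R →* H := Subgroup.inclusion hRH
  have hΔR : IsCharacter R (fun r : R => Δ (ι r)) := by
    exact IsCharacter.comp hΔ ι
  obtain ⟨n, hn⟩ := IsCharacter.classInner_nat hΔR (IsIrrCharacter.isCharacter (isIrrCharacter_one (G := R)))
  obtain ⟨d, hd⟩ := IsCharacter.apply_one (IsIrrCharacter.isCharacter hψ)
  have hd0 : d ≠ 0 := by
    rintro rfl
    have := IsIrrCharacter.apply_one_ne_zero hψ
    simp [hd] at this
  have h1 : ∑ r : R, χ r = (Nat.card R : ℂ) * ((a * d + n : ℕ) : ℂ) := by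
    have h2 : ∑ r : R, Δ (ι r) = (Nat.card R : ℂ) * (n : ℂ) := by
      rw [← hn]
      simp only [classInner, map_one, mul_one]
      have : (Nat.card R : ℂ) ≠ 0 := by exact_mod_cast Nat.card_pos.ne'
      field_simp
    have h3 : ∀ r : R, χ r = (a : ℂ) * (d : ℂ) + Δ (ι r) := by
      intro r
      have := congrFun hsum (ι r)
      simp only [Pi.add_apply, Pi.smul_apply] at this
      simp only [nsmul_eq_mul] at this
      have h4 : ψ (ι r) = d := by
        rw [← hd, ← htriv r]
        rfl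
      rw [h4] at this
      exact this
    simp only [h3]
    rw [Finset.sum_add_distrib, h2, Finset.sum_const, Finset.card_univ, nsmul_eq_mul,
      ← Nat.card_eq_fintype_card]
    push_cast
    ring
  rw [h1]
  have : (Nat.card R : ℂ) ≠ 0 := by exact_mod_cast Nat.card_pos.ne'
  refine mul_ne_zero this ?_
  have h5 : a * d + n ≠ 0 := by
    have := Nat.mul_ne_zero ha0 hd0
    omega
  exact_mod_cast h5

end General

section Orbit

/-- Orbit sums in a commutative ring modulo `p`. -/
theorem dvd_sum_sub_sum_fixed {Γ X R : Type*} [Group Γ] [MulAction Γ X] [Fintype X] [CommRing R]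
    (f : X → R) (hf : ∀ (g : Γ) x, f (g • x) = f x) (p : ℕ)
    (hp : ∀ x : X, (∃ g : Γ, g • x ≠ x) → p ∣ Nat.card (orbit Γ x)) :
    open scoped Classical in
    (p : R) ∣ ∑ x, (f x - if (∀ g : Γ, g • x = x) then f x else 0) := by
  classical
  let Q := orbitRel.Quotient Γ X
  let π : X → Q := fun x => Quotient.mk'' x
  let _ : Fintype Q := Fintype.ofFinite Q
  rw [← Finset.sum_fiberwise Finset.univ π]
  refine Finset.dvd_sum fun q _ => ?_
  obtain ⟨x₀, rfl⟩ : ∃ x₀, π x₀ = q := Quotient.exists_rep q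
  set S := Finset.univ.filter (fun x => π x = π x₀) with hS
  have hmem : ∀ x, x ∈ S ↔ x ∈ orbit Γ x₀ := by
    intro x
    simp only [hS, Finset.mem_filter, Finset.mem_univ, true_and]
    show (Quotient.mk'' x : Q) = Quotient.mk'' x₀ ↔ _
    rw [Quotient.eq'']
    exact orbitRel_apply
  have hval : ∀ x ∈ S, f x - (if (∀ g : Γ, g • x = x) then f x else 0) =
      f x₀ - (if (∀ g : Γ, g • x₀ = x₀) then f x₀ else 0) := by
    intro x hx
    obtain ⟨g, rfl⟩ := (hmem x).mp hx
    have hfix : (∀ h : Γ, h • (g • x₀) = g • x₀) ↔ ∀ h : Γ, h • x₀ = x₀ := by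
      constructor
      · intro h k
        have h1 := h (g * k * g⁻¹)
        simp only [mul_smul, inv_smul_smul] at h1
        exact smul_left_cancel g h1
      · intro h k
        rw [h g, h k]
    have : f ((fun m : Γ => m • x₀) g) = f x₀ := hf g x₀
    simp only [this, hfix]
  rw [Finset.sum_congr rfl hval, Finset.sum_const, nsmul_eq_mul]
  by_cases hfix : ∀ g : Γ, g • x₀ = x₀
  · simp [hfix]
  · have h1 := hp x₀ (by push Not at hfix; exact hfix)
    have h2 : Nat.card (orbit Γ x₀) = S.card := by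
      have : ↥(orbit Γ x₀) ≃ ↥S := Equiv.subtypeEquivRight (fun x => (hmem x).symm)
      rw [Nat.card_congr this, Nat.card_eq_fintype_card, Fintype.card_coe]
    rw [h2] at h1
    exact Dvd.dvd.mul_right (Nat.cast_dvd_cast h1) _

end Orbit

section Invariant

variable {G : Type u} [Group G] [Fintype G] (N : Subgroup G) [hN : N.Normal] [Fintype N]
variable (p : ℕ) [hp : Fact p.Prime]

/-- A `P`-invariant irreducible character of degree prime to `p` of a normal subgroup on which a
`p`-subgroup `P` acts with trivial fixed points is trivial. -/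
theorem eq_one_of_invariant_of_fixedPointFree (P : Subgroup G) (hP : IsPGroup p P)
    (hfix : N ⊓ Subgroup.centralizer (P : Set G) = ⊥) {θ : N → ℂ} (hθ : IsIrrCharacter N θ)
    (hinv : ∀ u ∈ P, conjFun N u θ = θ) (hd : ¬ p ∣ charDegree θ) : θ = fun _ => 1 := by
  classical
  by_contra hne
  -- the action of `P` on `N`
  let act : MulAction P N := MulAction.compHom N ((MulAut.conjNormal (H := N)).comp P.subtype)
  have hact : ∀ (u : P) (n : N), (((u • n : N)) : G) = u * n * (u : G)⁻¹ := by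
    intro u n
    rfl
  have hsum0 : ∑ n : N, θ n = 0 := by
    have h1 := classInner_irr_of_ne hθ (isIrrCharacter_one (G := N)) hne
    simp only [classInner, map_one, mul_one] at h1
    have h2 : (Nat.card N : ℂ) ≠ 0 := by exact_mod_cast Nat.card_pos.ne'
    simpa [h2] using h1
  let R := integralClosure ℤ ℂ
  let f : N → R := fun n => ⟨θ n, IsCharacter.isIntegral (IsIrrCharacter.isCharacter hθ) n⟩
  have hf : ∀ (u : P) (n : N), f (u • n) = f n := by
    intro u n
    apply Subtype.ext
    show θ (u • n) = θ n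
    have h1 := congrFun (hinv (u : G) u.2) (u • n)
    rw [conjFun_apply] at h1
    rw [← h1]
    congr 1
    apply Subtype.ext
    simp only [hact]
    group
  have horb : ∀ n : N, (∃ u : P, u • n ≠ n) → p ∣ Nat.card (orbit P n) := by
    intro n ⟨u, hu⟩
    obtain ⟨k, hk⟩ := IsPGroup.card_orbit hP n
    rw [hk]
    refine dvd_pow_self p ?_
    rintro rfl
    rw [pow_zero] at hk
    have h1 : Nat.card (orbit P n) = 1 := hk
    have h2 := Nat.card_eq_one_iff_unique.mp h1
    have h3 := h2.1.elim (⟨u • n, mem_orbit n u⟩ : orbit P n) ⟨n, mem_orbit_self n⟩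
    exact hu (congrArg Subtype.val h3)
  have hmain := dvd_sum_sub_sum_fixed (Γ := P) (X := N) (R := R) f hf p horb
  have hfixed : ∀ n : N, (∀ u : P, u • n = n) ↔ n = 1 := by
    intro n
    constructor
    · intro h
      have h1 : (n : G) ∈ N ⊓ Subgroup.centralizer (P : Set G) := by
        refine Subgroup.mem_inf.mpr ⟨n.2, Subgroup.mem_centralizer_iff.mpr ?_⟩
        intro u hu
        have h2 := congrArg Subtype.val (h ⟨u, hu⟩)
        rw [hact] at h2
        simp only at h2
        rw [mul_inv_eq_iff_eq_mul] at h2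
        exact h2
      rw [hfix, Subgroup.mem_bot] at h1
      exact Subtype.ext h1
    · rintro rfl u
      apply Subtype.ext
      rw [hact]
      simp
  have hsum1 : ∀ inst : ∀ x : N, Decidable (∀ g : P, g • x = x),
      (∑ x : N, (f x - @ite _ (∀ g : P, g • x = x) (inst x) (f x) 0)) = - f 1 := by
    intro inst
    rw [Finset.sum_sub_distrib]
    have h1 : ∑ x : N, f x = 0 := by
      apply Subtype.ext
      show ((∑ x : N, f x : R) : ℂ) = 0
      rw [AddSubmonoidClass.coe_finsetSum]
      exact hsum0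
    rw [h1, zero_sub]
    congr 1
    rw [Finset.sum_eq_single 1]
    · rw [if_pos ((hfixed 1).mpr rfl)]
    · intro n _ hn
      rw [if_neg]
      exact fun h => hn ((hfixed n).mp h)
    · simp
  obtain ⟨c, hc0⟩ := hmain
  have hc : - f 1 = (p : R) * c := (hsum1 _).symm.trans hc0
  have h2 : -(θ 1) = (p : ℂ) * (c : ℂ) := by
    have := congrArg (Subtype.val) hc
    simpa [f] using this
  obtain ⟨d, hdeg⟩ := (⟨charDegree θ, apply_one_eq_charDegree (IsIrrCharacter.isCharacter hθ)⟩ :
    ∃ d : ℕ, θ 1 = d)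
  have hp0 : (p : ℂ) ≠ 0 := by exact_mod_cast hp.out.ne_zero
  have h3 : (c : ℂ) = ((-(d : ℚ) / p : ℚ) : ℂ) := by
    push_cast
    rw [eq_div_iff hp0, mul_comm, ← h2, hdeg]
  obtain ⟨m, hm⟩ := int_of_isIntegral_of_rat c.2 ⟨_, h3⟩
  rw [hdeg, hm] at h2
  have h4 : -(d : ℤ) = p * m := by exact_mod_cast h2
  have h5 : (p : ℤ) ∣ d := by
    rw [← dvd_neg, h4]
    exact dvd_mul_right _ _
  have h6 : d = charDegree θ := by
    have := apply_one_eq_charDegree (IsIrrCharacter.isCharacter hθ)
    rw [hdeg] at this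
    exact_mod_cast this
  rw [h6] at h5
  exact hd (by exact_mod_cast h5)

end Invariant

section NormalKer

variable {G : Type u} [Group G] [Fintype G] (N : Subgroup G) [hN : N.Normal] [Fintype N]
variable (p : ℕ) [hp : Fact p.Prime]

/-- The fixed-point-free normal subgroup lies in the kernel of each `p'`-degree character. -/
theorem le_charKer_of_coprime_degree (P : Subgroup G) (hP : IsPGroup p P)
    (hfix : N ⊓ Subgroup.centralizer (P : Set G) = ⊥) {χ : G → ℂ} (hχ : IsIrrCharacter G χ)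
    (hd : ¬ p ∣ charDegree χ) : N ≤ charKer χ := by
  classical
  have hcl := IsCharacter.isClassFunction (IsIrrCharacter.isCharacter hχ)
  have hΦ := isCharacter_resFun N (IsIrrCharacter.isCharacter hχ)
  obtain ⟨m, hm, hsum⟩ := IsCharacter.exists_eq_sum hΦ
  let act := irrConjAction N
  let actP : MulAction P (IrrCharacter N) := MulAction.compHom _ P.subtype
  have hsmul : ∀ (u : P) (θ : IrrCharacter N), ((u • θ : IrrCharacter N) : N → ℂ) = conjFun N u θ :=
    fun _ _ => rfl
  let f : IrrCharacter N → ℤ := fun θ => (m θ : ℤ) * charDegree (θ : N → ℂ)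
  have hf : ∀ (u : P) θ, f (u • θ) = f θ := by
    intro u θ
    have h1 : m (u • θ) = m θ := by
      have h2 := hm (u • θ)
      rw [hsmul, classInner_resFun_conjFun N _ hcl, hm θ] at h2
      exact_mod_cast h2.symm
    show (m (u • θ) : ℤ) * charDegree ((u • θ : IrrCharacter N) : N → ℂ) = _
    rw [h1, hsmul, Cfsg.Agent.Lib.Char.RelGraph.charDegree_conjFun (IsIrrCharacter.isCharacter θ.2)]
  have horb : ∀ θ : IrrCharacter N, (∃ u : P, u • θ ≠ θ) → p ∣ Nat.card (orbit P θ) := by
    intro n ⟨u, hu⟩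
    obtain ⟨k, hk⟩ := IsPGroup.card_orbit hP n
    rw [hk]
    refine dvd_pow_self p ?_
    rintro rfl
    rw [pow_zero] at hk
    have h1 : Nat.card (orbit P n) = 1 := hk
    have h2 := Nat.card_eq_one_iff_unique.mp h1
    have h3 := h2.1.elim (⟨u • n, mem_orbit n u⟩ : orbit P n) ⟨n, mem_orbit_self n⟩
    exact hu (congrArg Subtype.val h3)
  have hcong := sum_modEq_sum_fixed (Γ := P) (X := IrrCharacter N) f hf p horb
  have htot : ∑ θ, f θ = (charDegree χ : ℤ) := by
    have h1 := congrFun hsum 1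
    have h2 : resFun N χ 1 = χ 1 := rfl
    rw [h2, apply_one_eq_charDegree (IsIrrCharacter.isCharacter hχ)] at h1
    simp only [Finset.sum_apply, Pi.smul_apply] at h1
    simp only [nsmul_eq_mul] at h1
    have h3 : ((charDegree χ : ℤ) : ℂ) = ((∑ θ, f θ : ℤ) : ℂ) := by
      push_cast
      rw [h1]
      refine Finset.sum_congr rfl fun θ _ => ?_
      rw [apply_one_eq_charDegree (IsIrrCharacter.isCharacter θ.2)]
      simp [f]
    exact_mod_cast h3.symm
  -- a fixed constituent with `p ∤ m θ(1)`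
  obtain ⟨θ, hθfix, hθp⟩ : ∃ θ : IrrCharacter N, (∀ u : P, u • θ = θ) ∧ ¬ (p : ℤ) ∣ f θ := by
    by_contra hcon
    push Not at hcon
    apply hd
    have h1 : (p : ℤ) ∣ ∑ θ, f θ := by
      apply (Int.ModEq.dvd_iff hcong (n := p)).mpr  
      refine Finset.dvd_sum fun θ _ => ?_
      by_cases h : ∀ u : P, u • θ = θ
      · rw [if_pos h]
        exact hcon θ h
      · rw [if_neg h]
        exact dvd_zero _
    rw [htot] at h1
    exact_mod_cast h1
  have hm0 : m θ ≠ 0 := by
    intro h
    apply hθp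
    show (p : ℤ) ∣ (m θ : ℤ) * _
    rw [h]
    simp
  have hdθ : ¬ p ∣ charDegree (θ : N → ℂ) := by
    intro h
    apply hθp
    exact Dvd.dvd.mul_left (by exact_mod_cast h) _
  have hθ1 := eq_one_of_invariant_of_fixedPointFree N p P hP hfix θ.2
    (fun u hu => by
      have := hθfix ⟨u, hu⟩
      exact (hsmul ⟨u, hu⟩ θ).symm.trans (congrArg Subtype.val this)) hdθ
  apply le_charKer_of_classInner_one_ne_zero N hχ
  rw [← hθ1, hm θ]
  exact_mod_cast hm0

end NormalKer

section Count

variable {G : Type u} [Group G] [Fintype G]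

/-- Sums over `N·R` compared to sums over `R`, for a function constant on `N`-cosets. -/
theorem sum_sup_ne_zero (N R : Subgroup G) [hN : N.Normal] [Fintype N] [Fintype R]
    [Fintype (N ⊔ R : Subgroup G)] (χ : G → ℂ) (hχ : ∀ n ∈ N, ∀ x, χ (n * x) = χ x)
    (h : ∑ r : R, χ r ≠ 0) : ∑ u : (N ⊔ R : Subgroup G), χ u ≠ 0 := by
  classical
  intro h0
  let U : Subgroup G := N ⊔ R
  have hNU : N ≤ U := le_sup_left
  have hRU : R ≤ U := le_sup_right
  let Φ : N × R → U := fun x => ⟨x.1 * x.2, U.mul_mem (hNU x.1.2) (hRU x.2.2)⟩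
  have hsurj : ∀ u : U, ∃ x, Φ x = u := by
    intro u
    have h1 : (u : G) ∈ ((N ⊔ R : Subgroup G) : Set G) := u.2
    rw [Subgroup.normal_mul N R] at h1
    obtain ⟨n, hn, r, hr, hnr⟩ := h1
    exact ⟨(⟨n, hn⟩, ⟨r, hr⟩), Subtype.ext hnr⟩
  let fib : U → Finset (N × R) := fun u => Finset.univ.filter (fun x => Φ x = u)
  have hfib : ∀ u, (fib u).card = (fib 1).card := by
    intro u
    obtain ⟨x₀, hx₀⟩ := hsurj u
    let e : N × R ≃ N × R := (Equiv.mulLeft x₀.1).prodCongr (Equiv.mulRight x₀.2)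
    refine Finset.card_equiv e.symm (t := fib 1) ?_
    · intro x
      simp only [fib, Finset.mem_filter, Finset.mem_univ, true_and]
      have h2 : ∀ y : N × R, (Φ (e y) : G) = x₀.1 * Φ y * x₀.2 := by
        intro y
        show ((x₀.1 * y.1 : N) : G) * ((y.2 * x₀.2 : R) : G) = _
        simp only [Subgroup.coe_mul, Φ]
        group
      constructor
      · intro hx
        apply Subtype.ext
        have h3 := h2 (e.symm x)
        rw [Equiv.apply_symm_apply, hx, ← hx₀] at h3
        have h4 : ((Φ x₀ : U) : G) = x₀.1 * x₀.2 := rfl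
        rw [h4] at h3
        have h5 : (x₀.1 : G) * (x₀.2 : G) = x₀.1 * ((Φ (e.symm x) : U) : G) * x₀.2 := h3
        have h6 : (x₀.1 : G) * (x₀.2 : G) = x₀.1 * 1 * x₀.2 := by group
        rw [h6] at h5
        have h7 := mul_right_cancel (mul_left_cancel (a := (x₀.1 : G)) (by
          simpa [mul_assoc] using h5 : (x₀.1 : G) * (1 * x₀.2) = x₀.1 * (((Φ (e.symm x) : U) : G) * x₀.2)))
        exact h7.symm
      · intro hx
        apply Subtype.ext
        have h3 := h2 (e.symm x)
        rw [Equiv.apply_symm_apply, hx] at h3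
        rw [h3, ← hx₀]
        show _ = (x₀.1 : G) * x₀.2
        simp
  have hdouble : ∑ x : N × R, χ ((Φ x : U) : G) = ((fib 1).card : ℂ) * ∑ u : U, χ u := by
    rw [← Finset.sum_fiberwise Finset.univ Φ, Finset.mul_sum]
    refine Finset.sum_congr rfl fun u _ => ?_
    rw [Finset.sum_congr rfl (g := fun _ => χ u)]
    · rw [Finset.sum_const, nsmul_eq_mul]
      congr 2
      exact hfib u
    · intro x hx
      rw [(Finset.mem_filter.mp hx).2]
  have hdouble2 : ∑ x : N × R, χ ((Φ x : U) : G) = (Nat.card N : ℂ) * ∑ r : R, χ r := by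
    rw [Fintype.sum_prod_type, Finset.sum_congr rfl (g := fun _ => ∑ r : R, χ r)]
    · rw [Finset.sum_const, nsmul_eq_mul, Finset.card_univ, Nat.card_eq_fintype_card]
    · intro n _
      refine Finset.sum_congr rfl fun r _ => ?_
      exact hχ n n.2 r
  have h1 : (Nat.card N : ℂ) * ∑ r : R, χ r = 0 := by
    rw [← hdouble2, hdouble]
    have : ∑ u : U, χ u = 0 := h0
    rw [this, mul_zero]
  rcases mul_eq_zero.mp h1 with h2 | h2
  · exact absurd h2 (by exact_mod_cast Nat.card_pos.ne')
  · exact h h2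

end Count

section Main

variable {G : Type u} [Group G] [Fintype G] (p : ℕ) [hp : Fact p.Prime]

/-- A character of `p'`-degree has a constituent of `p'`-degree. -/
theorem exists_coprime_constituent {H : Type*} [Group H] [Fintype H] {Φ : H → ℂ} (hΦ : IsCharacter H Φ)
    {d : ℕ} (h1 : Φ 1 = d) (hd : ¬ p ∣ d) :
    ∃ ψ : IrrCharacter H, ¬ p ∣ charDegree (ψ : H → ℂ) ∧ classInner Φ (ψ : H → ℂ) ≠ 0 := by
  classical
  obtain ⟨m, hm, hsum⟩ := IsCharacter.exists_eq_sum hΦ
  by_contra hcon
  push Not at hcon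
  apply hd
  have h2 := congrFun hsum 1
  rw [h1] at h2
  simp only [Finset.sum_apply, Pi.smul_apply] at h2
  simp only [nsmul_eq_mul] at h2
  have h3 : d = ∑ ψ : IrrCharacter H, m ψ * charDegree (ψ : H → ℂ) := by
    have : (d : ℂ) = ((∑ ψ : IrrCharacter H, m ψ * charDegree (ψ : H → ℂ) : ℕ) : ℂ) := by
      push_cast
      rw [h2]
      refine Finset.sum_congr rfl fun χ _ => ?_
      rw [apply_one_eq_charDegree (IsIrrCharacter.isCharacter χ.2)]
    exact_mod_cast this
  rw [h3]
  refine Finset.dvd_sum fun ψ _ => ?_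
  by_cases h : p ∣ charDegree (ψ : H → ℂ)
  · exact Dvd.dvd.mul_left h _
  · have h4 := hcon ψ h
    rw [hm ψ] at h4
    have h5 : m ψ = 0 := by exact_mod_cast h4
    rw [h5, zero_mul]
    exact dvd_zero _

/-- The intersection of the kernels of the `p'`-degree irreducible characters. -/
noncomputable def pDegKer (G : Type u) [Group G] [Fintype G] (p : ℕ) : Subgroup G :=
  ⨅ χ : {χ : IrrCharacter G // ¬ p ∣ charDegree (χ : G → ℂ)}, charKer (χ.1 : G → ℂ)

omit hp in
theorem mem_pDegKer {g : G} : g ∈ pDegKer G p ↔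
    ∀ χ : IrrCharacter G, ¬ p ∣ charDegree (χ : G → ℂ) → (χ : G → ℂ) g = (χ : G → ℂ) 1 := by
  rw [pDegKer, Subgroup.mem_iInf]
  constructor
  · intro h χ hχ
    exact (mem_charKer (IsIrrCharacter.isCharacter χ.2)).mp (h ⟨χ, hχ⟩)
  · intro h χ
    exact (mem_charKer (IsIrrCharacter.isCharacter χ.1.2)).mpr (h χ.1 χ.2)

omit hp in
theorem pDegKer_normal : (pDegKer G p).Normal := by
  refine ⟨fun n hn g => ?_⟩
  rw [pDegKer, Subgroup.mem_iInf] at hn ⊢
  intro χ
  haveI := charKer_normal (IsIrrCharacter.isCharacter χ.1.2)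
  exact Subgroup.Normal.conj_mem' inferInstance _ (hn χ) g⁻¹ |> fun h => by simpa using h

/-- Kernel elements for the `p'`-degree characters of a subgroup of `p'`-index. -/
theorem apply_eq_on_pDegKer (H : Subgroup G) [Fintype H] (hH : ¬ p ∣ H.index) {ξ : H → ℂ}
    (hξ : IsIrrCharacter H ξ) (hd : ¬ p ∣ charDegree ξ) (x : H) (hx : (x : G) ∈ pDegKer G p) :
    ξ x = ξ 1 := by
  obtain ⟨χ, hχ, hne⟩ := exists_over_of_coprime_index H p hH hξ hd
  refine apply_eq_of_constituent (isCharacter_resFun H (IsIrrCharacter.isCharacter χ.2)) hξ hne ?_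
  exact (mem_pDegKer p).mp hx χ hχ

theorem linear_trivial_on_pDegKer (H : Subgroup G) (hH : ¬ p ∣ H.index) (lam : H →* ℂˣ) (x : H)
    (hx : (x : G) ∈ pDegKer G p) : lam x = 1 := by
  classical
  have h1 := isIrrCharacter_of_monoidHom lam
  have hdeg : charDegree (fun g : H => ((lam g : ℂˣ) : ℂ)) = 1 := by
    have h2 := apply_one_eq_charDegree (IsIrrCharacter.isCharacter h1)
    simp only [map_one, Units.val_one] at h2
    exact_mod_cast h2.symm
  have h3 := apply_eq_on_pDegKer p H hH h1 (by rw [hdeg]; exact hp.out.one_lt.ne' ∘ Nat.dvd_one.mp) x hx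
  simp only [map_one, Units.val_one] at h3
  exact Units.ext h3

/-- The `p`-elements of the kernel in a `p'`-index subgroup lie in the derived subgroup. -/
theorem mem_commutator_of_mem_pDegKer (P : Subgroup G) (hP : ¬ p ∣ P.index) {u : G} (hu : u ∈ P)
    (huK : u ∈ pDegKer G p) : u ∈ ⁅P, P⁆ := by
  by_contra hcon
  have hne : Abelianization.of (⟨u, hu⟩ : P) ≠ 1 := by
    intro h
    apply hcon
    have h1 : (⟨u, hu⟩ : P) ∈ commutator P := (QuotientGroup.eq_one_iff _).mp h
    have h2 := Subgroup.mem_map_of_mem P.subtype h1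
    rwa [Subgroup.map_subtype_commutator] at h2
  obtain ⟨ξ, hξ⟩ := CommGroup.exists_apply_ne_one_of_hasEnoughRootsOfUnity (Abelianization P) ℂ hne
  exact hξ (linear_trivial_on_pDegKer p P hP (ξ.comp Abelianization.of) ⟨u, hu⟩ huK)

/-- A `p'`-element of the kernel centralizing a Sylow subgroup is trivial. -/
theorem eq_one_of_mem_pDegKer_centralizer (P : Subgroup G) (hP : ¬ p ∣ P.index) (hPp : IsPGroup p P)
    {y : G} (hy : y ∈ pDegKer G p) (hyo : ¬ p ∣ orderOf y)
    (hyc : y ∈ Subgroup.centralizer (P : Set G)) : y = 1 := by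
  classical
  by_contra hy1
  let E := Subgroup.zpowers y
  have hcomm : ∀ (u : P) (z : E), Commute (P.subtype u) (E.subtype z) := by
    intro u z
    obtain ⟨k, hk⟩ := z.2
    have h1 : Commute (u : G) y := (Subgroup.mem_centralizer_iff.mp hyc u u.2)
    show Commute (u : G) (z : G)
    rw [← hk]
    exact h1.zpow_right k
  let φ : P × E →* G := MonoidHom.noncommCoprod P.subtype E.subtype hcomm
  have hφ : ∀ x, φ x = (x.1 : G) * x.2 := fun x => rfl
  have hinj : Function.Injective φ := by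
    rw [injective_iff_map_eq_one]
    rintro ⟨u, z⟩ h
    rw [hφ] at h
    have h1 : (z : G) = (u : G)⁻¹ := by
      rw [eq_inv_iff_mul_eq_one]
      exact (hcomm u z).eq.symm.trans h
    have hzP : (z : G) ∈ P := h1 ▸ P.inv_mem u.2
    have hzo : orderOf (z : G) ∣ orderOf y := by
      obtain ⟨k, hk⟩ := z.2
      show orderOf (z : G) ∣ _
      rw [← hk]
      exact orderOf_dvd_of_pow_eq_one (by
        rw [← zpow_natCast, ← zpow_mul, mul_comm, zpow_mul, zpow_natCast, pow_orderOf_eq_one, one_zpow])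
    obtain ⟨k, hk⟩ := hPp ⟨z, hzP⟩
    have hk' : (z : G) ^ p ^ k = 1 := by simpa using congrArg Subtype.val hk
    have hz1 : (z : G) = 1 := by
      have h3 : Nat.Coprime (orderOf y) (p ^ k) :=
        Nat.Coprime.pow_right _ ((Nat.Prime.coprime_iff_not_dvd hp.out).mpr hyo).symm
      have h4 : orderOf (z : G) ∣ p ^ k := orderOf_dvd_of_pow_eq_one hk'
      have h5 : orderOf (z : G) = 1 := Nat.eq_one_of_dvd_coprimes h3 hzo h4
      exact orderOf_eq_one_iff.mp h5
    have hu1 : (u : G) = 1 := by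
      rw [hz1] at h1
      have := inv_eq_one.mp h1.symm
      exact this
    exact Prod.ext (Subtype.ext hu1) (Subtype.ext hz1)
  let A := φ.range
  have hPA : P ≤ A := by
    intro u hu
    exact ⟨(⟨u, hu⟩, 1), by simp [hφ]⟩
  have hA : ¬ p ∣ A.index := fun h => hP (h.trans (Subgroup.index_dvd_of_le hPA))
  let e : P × E ≃* A := MonoidHom.ofInjective hinj
  have hyE : Abelianization.of (⟨y, Subgroup.mem_zpowers y⟩ : E) ≠ 1 := by
    intro h
    have h1 : (⟨y, Subgroup.mem_zpowers y⟩ : E) ∈ commutator E := (QuotientGroup.eq_one_iff _).mp h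
    have h2 : commutator E = ⊥ := by
      rw [commutator_eq_bot_iff_center_eq_top, Subgroup.eq_top_iff']
      intro z
      rw [Subgroup.mem_center_iff]
      intro w
      obtain ⟨k, hk⟩ := z.2
      obtain ⟨l, hl⟩ := w.2
      apply Subtype.ext
      show (w : G) * z = z * w
      rw [← hk, ← hl]
      exact (Commute.refl y).zpow_zpow l k
    rw [h2, Subgroup.mem_bot] at h1
    exact hy1 (congrArg Subtype.val h1)
  obtain ⟨ξ, hξ⟩ := CommGroup.exists_apply_ne_one_of_hasEnoughRootsOfUnity (Abelianization E) ℂ hyE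
  let lam : A →* ℂˣ := (ξ.comp Abelianization.of).comp ((MonoidHom.snd P E).comp e.symm.toMonoidHom)
  have hyA : y ∈ A := ⟨(1, ⟨y, Subgroup.mem_zpowers y⟩), by simp [hφ]⟩
  have h1 := linear_trivial_on_pDegKer p A hA lam ⟨y, hyA⟩ hy
  apply hξ
  have h2 : e.symm ⟨y, hyA⟩ = (1, ⟨y, Subgroup.mem_zpowers y⟩) := by
    rw [MulEquiv.symm_apply_eq]
    apply Subtype.ext
    show y = φ _
    simp [hφ]
  have h3 : lam ⟨y, hyA⟩ = ξ (Abelianization.of (⟨y, Subgroup.mem_zpowers y⟩ : E)) := by
    show ξ (Abelianization.of (MonoidHom.snd P E (e.symm ⟨y, hyA⟩))) = _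
    rw [h2]
    rfl
  rw [← h3, h1]

end Main

section Residual

variable {T : Type u} [Group T] [Fintype T] (p : ℕ) [hp : Fact p.Prime]

/-- For degree one, the determinant is the character. -/
theorem detChar_eq_of_one {χ : T → ℂ} (hχ : IsCharacter T χ) (h1 : χ 1 = 1) (g : T) :
    detChar χ g = χ g := by
  obtain ⟨n, ρ, rfl⟩ := hχ
  have hn : Module.finrank ℂ (Fin n → ℂ) = 1 := by
    have := Representation.char_one ρ
    rw [h1] at this
    exact_mod_cast this.symm
  rw [detChar_of_rep, character_of_finrank_one ρ hn g, LinearMap.det_smul, LinearMap.det_id, hn]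
  simp

/-- `p'`-degree and `p'`-determinantal characters with kernel containing `K'` are trivial. -/
theorem eq_one_of_coprime_deg_det (K' : Subgroup T) [hK' : K'.Normal] (hq : IsPGroup p (T ⧸ K'))
    {ξ : T → ℂ} (hξ : IsIrrCharacter T ξ) (hle : K' ≤ charKer ξ) (hd : ¬ p ∣ charDegree ξ)
    (hdet : ¬ p ∣ detOrder ξ) : ξ = fun _ => 1 := by
  classical
  obtain ⟨β, hβ, hξβ⟩ := exists_deflate K' hξ hle
  have hβ1 : β 1 = ξ 1 := by rw [hξβ]; rfl
  have hdeg : charDegree β = charDegree ξ := by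
    have h1 := apply_one_eq_charDegree (IsIrrCharacter.isCharacter hβ)
    have h2 := apply_one_eq_charDegree (IsIrrCharacter.isCharacter hξ)
    rw [hβ1, h2] at h1
    exact_mod_cast h1.symm
  obtain ⟨k, hk⟩ := IsPGroup.iff_card.mp hq
  have h3 : charDegree ξ ∣ p ^ k := by
    rw [← hdeg, ← hk]
    exact charDegree_dvd_card hβ
  obtain ⟨j, -, hj⟩ := (Nat.dvd_prime_pow hp.out).mp h3
  have hdeg1 : charDegree ξ = 1 := by
    rcases Nat.eq_zero_or_pos j with rfl | hpos
    · simpa using hj
    · exfalso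
      apply hd
      rw [hj]
      exact dvd_pow_self p hpos.ne'
  have h1 : ξ 1 = 1 := by
    rw [apply_one_eq_charDegree (IsIrrCharacter.isCharacter hξ), hdeg1]
    simp
  obtain ⟨lam, hlam⟩ := IsCharacter.exists_monoidHom (IsIrrCharacter.isCharacter hξ) h1
  funext g
  have h4 : detChar ξ g ^ detOrder ξ = 1 := detChar_pow_orderOf ξ g
  have hξg : ξ g = lam g := congrFun hlam g
  rw [detChar_eq_of_one (IsIrrCharacter.isCharacter hξ) h1 g, hξg] at h4
  have h5 : lam g ^ detOrder ξ = 1 := by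
    apply Units.ext
    simpa using h4
  obtain ⟨m, hm⟩ := hq (g : T ⧸ K')
  have h6 : g ^ p ^ m ∈ K' := by
    rw [← QuotientGroup.eq_one_iff]
    exact_mod_cast hm
  have h7 : lam g ^ p ^ m = 1 := by
    have h8 := (mem_charKer (IsIrrCharacter.isCharacter hξ)).mp (hle h6)
    rw [h1, hlam] at h8
    apply Units.ext
    simpa using h8
  have hcop : Nat.Coprime (detOrder ξ) (p ^ m) :=
    Nat.Coprime.pow_right _ ((Nat.Prime.coprime_iff_not_dvd hp.out).mpr hdet).symm
  have h9 : lam g = 1 := by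
    have := pow_gcd_eq_one.mpr ⟨h5, h7⟩
    rwa [hcop.gcd_eq_one, pow_one] at this
  rw [hlam]
  simp [h9]

/-- If all `p'`-degree characters have `K'` in their kernels and `T/K'` is a `p`-group, then `T`
has a normal `p`-complement. -/
theorem not_dvd_card_pResidual (K' : Subgroup T) [hK' : K'.Normal] (hq : IsPGroup p (T ⧸ K'))
    (hker : ∀ ξ : IrrCharacter T, ¬ p ∣ charDegree (ξ : T → ℂ) → K' ≤ charKer (ξ : T → ℂ)) :
    ¬ p ∣ Nat.card (pResidual p T) := by
  classical
  have h0 := card_residual_modEq (G := T) p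
  have h1 : ∑ χ : IrrCharacter T, (if ¬ p ∣ charDegree (χ : T → ℂ) ∧ ¬ p ∣ detOrder (χ : T → ℂ) then
      (charDegree (χ : T → ℂ) : ℤ) ^ 2 else 0) = 1 := by
    rw [Finset.sum_eq_single (⟨fun _ => 1, isIrrCharacter_one⟩ : IrrCharacter T)]
    · have hdeg : charDegree (fun _ : T => (1 : ℂ)) = 1 := by
        have h2 := apply_one_eq_charDegree (IsIrrCharacter.isCharacter (isIrrCharacter_one (G := T)))
        exact_mod_cast h2.symm
      have hdet : detOrder (fun _ : T => (1 : ℂ)) = 1 := by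
        rw [detOrder, orderOf_eq_one_iff]
        funext g
        rw [detChar_eq_of_one (IsIrrCharacter.isCharacter (isIrrCharacter_one (G := T))) rfl g]
        rfl
      have hnd : ¬ p ∣ 1 := hp.out.one_lt.ne' ∘ Nat.dvd_one.mp
      simp only [hdeg, hdet]
      rw [if_pos ⟨hnd, hnd⟩]
      simp
    · intro χ _ hχ
      rw [if_neg]
      rintro ⟨h2, h3⟩
      apply hχ
      exact Subtype.ext (eq_one_of_coprime_deg_det p K' hq χ.2 (hker χ h2) h2 h3)
    · simp
  intro h2
  have h3 : (Nat.card (pResidual p T) : ℤ) ≡ 1 [ZMOD p] := by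
    convert h0 using 1
    convert h1.symm
  have h4 : (p : ℤ) ∣ (Nat.card (pResidual p T) : ℤ) := by exact_mod_cast h2
  have h5 := (Int.ModEq.dvd_iff h3 (n := p)).mp h4
  have h6 : p ∣ 1 := by exact_mod_cast h5
  exact hp.out.one_lt.ne' (Nat.dvd_one.mp h6)

end Residual

section Final

variable {G : Type u} [Group G] [Fintype G] (p : ℕ) [hp : Fact p.Prime]

/-- The kernel has a `p`-nilpotent structure: `pDegKer ≤ N · P'`. -/
theorem pDegKer_le (P : Sylow p G) (N : Subgroup G) [hNn : N.Normal]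
    (hmax : ∀ L : Subgroup G, L.Normal →
      L ⊓ Subgroup.centralizer ((P : Subgroup G) : Set G) = ⊥ → L ≤ N) :
    pDegKer G p ≤ N ⊔ ⁅(P : Subgroup G), (P : Subgroup G)⁆ := by
  classical
  set K := pDegKer G p with hK
  haveI hKn : K.Normal := pDegKer_normal p
  have hPidx : ¬ p ∣ (P : Subgroup G).index := P.not_dvd_index
  set T : Subgroup G := K ⊔ (P : Subgroup G) with hT
  have hKT : K ≤ T := le_sup_left
  have hPT : (P : Subgroup G) ≤ T := le_sup_right
  have hTidx : ¬ p ∣ T.index := fun h => hPidx (h.trans (Subgroup.index_dvd_of_le hPT))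
  let K' : Subgroup T := K.subgroupOf T
  haveI hK'n : K'.Normal := Subgroup.Normal.subgroupOf hKn T
  have hq : IsPGroup p (T ⧸ K') := by
    intro y
    obtain ⟨x, rfl⟩ := QuotientGroup.mk_surjective y
    have h1 : (x : G) ∈ ((K ⊔ (P : Subgroup G) : Subgroup G) : Set G) := x.2
    rw [Subgroup.normal_mul K _] at h1
    obtain ⟨k, hk, u, hu, hku⟩ := h1
    obtain ⟨m, hm⟩ := P.isPGroup' ⟨u, hu⟩
    refine ⟨m, ?_⟩
    have hm' : u ^ p ^ m = 1 := by simpa using congrArg Subtype.val hm
    have h2 : x = ⟨k, hKT hk⟩ * ⟨u, hPT hu⟩ := Subtype.ext hku.symm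
    have hkK' : (⟨k, hKT hk⟩ : T) ∈ K' := hk
    have h3 : (⟨u, hPT hu⟩ : T) ^ p ^ m = 1 := Subtype.ext (by simpa using hm')
    rw [h2, QuotientGroup.mk_mul, (QuotientGroup.eq_one_iff _).mpr hkK', one_mul,
      ← QuotientGroup.mk_pow, h3]
    rfl
  have hker : ∀ ξ : IrrCharacter T, ¬ p ∣ charDegree (ξ : T → ℂ) → K' ≤ charKer (ξ : T → ℂ) := by
    intro ξ hd x hx
    rw [mem_charKer (IsIrrCharacter.isCharacter ξ.2)]
    exact apply_eq_on_pDegKer p T hTidx ξ.2 hd x hx
  have hR := not_dvd_card_pResidual p K' hq hker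
  set R := pResidual p T with hRdef
  haveI hRn : R.Normal := Cfsg.Agent.Lib.Transfer.pResidual_normal p T
  -- the `p'`-part of the kernel
  let L : Subgroup G := Subgroup.closure {y : G | y ∈ K ∧ Nat.Coprime (orderOf y) p}
  have hLK : L ≤ K := (Subgroup.closure_le _).mpr fun y hy => hy.1
  have hLR : L ≤ R.map T.subtype := by
    refine (Subgroup.closure_le _).mpr fun y hy => ?_
    refine ⟨⟨y, hKT hy.1⟩, Subgroup.subset_closure ?_, rfl⟩
    show Nat.Coprime (orderOf (⟨y, hKT hy.1⟩ : T)) p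
    rw [Subgroup.orderOf_mk]
    exact hy.2
  have hRL : R.map T.subtype ≤ L := by
    rw [Subgroup.map_le_iff_le_comap]
    refine (Subgroup.closure_le _).mpr fun y hy => ?_
    have hy' : Nat.Coprime (orderOf y) p := hy
    show (y : G) ∈ L
    refine Subgroup.subset_closure ⟨?_, ?_⟩
    · -- `y` is trivial in the `p`-group `T/K'`
      obtain ⟨m, hm⟩ := hq (y : T ⧸ K')
      have h1 : orderOf (y : T ⧸ K') ∣ p ^ m := orderOf_dvd_of_pow_eq_one hm
      have h2 : orderOf (y : T ⧸ K') ∣ orderOf y := by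
        apply orderOf_dvd_of_pow_eq_one
        rw [← QuotientGroup.mk_pow, pow_orderOf_eq_one]
        rfl
      have h3 : Nat.Coprime (orderOf y) (p ^ m) := Nat.Coprime.pow_right _ hy'
      have h4 : orderOf (y : T ⧸ K') = 1 := Nat.eq_one_of_dvd_coprimes h3 h2 h1
      have h5 : (y : T ⧸ K') = 1 := orderOf_eq_one_iff.mp h4
      exact (QuotientGroup.eq_one_iff y).mp h5
    · rw [← Subgroup.orderOf_coe] at hy'
      exact hy'
  have hLcard : ¬ p ∣ Nat.card L := by
    intro h
    apply hR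
    have h1 : Nat.card L ∣ Nat.card (R.map T.subtype) := Subgroup.card_dvd_of_le hLR
    have h2 : Nat.card (R.map T.subtype) = Nat.card R :=
      Subgroup.card_map_of_injective (Subgroup.subtype_injective T)
    rw [h2] at h1
    exact h.trans h1
  have hLn : L.Normal := by
    refine ⟨fun n hn g => ?_⟩
    induction hn using Subgroup.closure_induction with
    | mem y hy =>
      refine Subgroup.subset_closure ⟨hKn.conj_mem y hy.1 g, ?_⟩
      have h1 : orderOf (g * y * g⁻¹) = orderOf y := by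
        have := orderOf_injective (MulAut.conj g).toMonoidHom (MulAut.conj g).injective y
        simpa using this
      rw [h1]
      exact hy.2
    | one => simp
    | mul a b _ _ iha ihb =>
      have : g * (a * b) * g⁻¹ = (g * a * g⁻¹) * (g * b * g⁻¹) := by group
      rw [this]
      exact L.mul_mem iha ihb
    | inv a _ iha =>
      have : g * a⁻¹ * g⁻¹ = (g * a * g⁻¹)⁻¹ := by group
      rw [this]
      exact L.inv_mem iha
  have hLN : L ≤ N := by
    apply hmax L hLn
    rw [eq_bot_iff]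
    rintro y ⟨hyL, hyC⟩
    rw [Subgroup.mem_bot]
    refine eq_one_of_mem_pDegKer_centralizer p (P : Subgroup G) hPidx P.isPGroup' (hLK hyL) ?_ hyC
    intro h
    apply hLcard
    have h1 : orderOf (⟨y, hyL⟩ : L) ∣ Nat.card L := orderOf_dvd_natCard _
    rw [Subgroup.orderOf_mk] at h1
    exact h.trans h1
  -- `T = R · P`
  let PT : Subgroup T := (P : Subgroup G).subgroupOf T
  have hsup : R ⊔ PT = ⊤ := by
    rw [← Subgroup.index_eq_one]
    have hqR : IsPGroup p (T ⧸ R) := Cfsg.Agent.Lib.Transfer.isPGroup_quotient_pResidual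
    obtain ⟨k, hk⟩ := Cfsg.Agent.Lib.Transfer.index_eq_pow_of_isPGroup_quotient hqR
    have h1 : (R ⊔ PT).index ∣ p ^ k := hk ▸ Subgroup.index_dvd_of_le le_sup_left
    have h2 : (R ⊔ PT).index ∣ PT.index := Subgroup.index_dvd_of_le le_sup_right
    have h3 : PT.index ∣ (P : Subgroup G).index := by
      have := Subgroup.relIndex_mul_index hPT
      exact ⟨_, this.symm⟩
    obtain ⟨j, -, hj⟩ := (Nat.dvd_prime_pow hp.out).mp h1
    rcases Nat.eq_zero_or_pos j with rfl | hpos
    · simpa using hj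
    · exfalso
      apply hPidx
      refine dvd_trans ?_ (h2.trans h3)
      rw [hj]
      exact dvd_pow_self p hpos.ne'
  intro g hg
  have h1 : (⟨g, hKT hg⟩ : T) ∈ ((R ⊔ PT : Subgroup T) : Set T) := by
    rw [hsup]
    trivial
  rw [Subgroup.normal_mul R PT] at h1
  obtain ⟨r, hr, v, hv, hrv⟩ := h1
  have hrv' : (r : G) * v = g := congrArg Subtype.val hrv
  have hrL : (r : G) ∈ L := hRL ⟨r, hr, rfl⟩
  have hvK : (v : G) ∈ K := by
    have : (v : G) = (r : G)⁻¹ * g := by rw [← hrv']; group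
    rw [this]
    exact K.mul_mem (K.inv_mem (hLK hrL)) hg
  have hvP : (v : G) ∈ (P : Subgroup G) := hv
  have hvc := mem_commutator_of_mem_pDegKer p (P : Subgroup G) hPidx hvP hvK
  rw [← hrv']
  exact Subgroup.mul_mem _ (Subgroup.mem_sup_left (hLN hrL)) (Subgroup.mem_sup_right hvc)

/-- Converse inclusion. -/
theorem core_le_charKer (P : Sylow p G) (N : Subgroup G) [hNn : N.Normal]
    (hN : N ⊓ Subgroup.centralizer ((P : Subgroup G) : Set G) = ⊥)
    {χ : G → ℂ} (hχ : IsIrrCharacter G χ) (hd : ¬ p ∣ charDegree χ) :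
    (N ⊔ ⁅(P : Subgroup G), (P : Subgroup G)⁆).normalCore ≤ charKer χ := by
  classical
  have hχc := IsIrrCharacter.isCharacter hχ
  have hNK := le_charKer_of_coprime_degree N p (P : Subgroup G) P.isPGroup' hN hχ hd
  set Q : Subgroup G := ⁅(P : Subgroup G), (P : Subgroup G)⁆ with hQ
  have hQP : Q ≤ (P : Subgroup G) := by
    rw [hQ, ← Subgroup.map_subtype_commutator]
    exact (Subgroup.map_le_iff_le_comap).mpr (fun x _ => x.2)
  -- a linear constituent on `P`
  obtain ⟨ψ, hψd, hψne⟩ := exists_coprime_constituent p (isCharacter_resFun (P : Subgroup G) hχc)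
    (d := charDegree χ) (by show χ 1 = _; exact apply_one_eq_charDegree hχc) hd
  obtain ⟨k, hk⟩ := IsPGroup.iff_card.mp P.isPGroup'
  have h3 : charDegree (ψ : ↥(P : Subgroup G) → ℂ) ∣ p ^ k := by
    rw [← hk]
    exact charDegree_dvd_card ψ.2
  obtain ⟨j, -, hj⟩ := (Nat.dvd_prime_pow hp.out).mp h3
  have hdeg1 : charDegree (ψ : ↥(P : Subgroup G) → ℂ) = 1 := by
    rcases Nat.eq_zero_or_pos j with rfl | hpos
    · simpa using hj
    · exfalso
      apply hψd
      rw [hj]
      exact dvd_pow_self p hpos.ne'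
  have hψ1 : (ψ : ↥(P : Subgroup G) → ℂ) 1 = 1 := by
    rw [apply_one_eq_charDegree (IsIrrCharacter.isCharacter ψ.2), hdeg1]
    simp
  obtain ⟨lam, hlam⟩ := IsCharacter.exists_monoidHom (IsIrrCharacter.isCharacter ψ.2) hψ1
  have htriv : ∀ r : Q, (ψ : ↥(P : Subgroup G) → ℂ) ⟨r, hQP r.2⟩ = (ψ : ↥(P : Subgroup G) → ℂ) 1 := by
    intro r
    have h1 : (r : G) ∈ (commutator (P : Subgroup G)).map (P : Subgroup G).subtype := by
      rw [Subgroup.map_subtype_commutator]
      exact r.2
    obtain ⟨c, hc, hcr⟩ := h1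
    have h2 : lam c = 1 := Abelianization.commutator_subset_ker lam hc
    have h4 : (⟨r, hQP r.2⟩ : (P : Subgroup G)) = c := Subtype.ext hcr.symm
    rw [h4, hψ1, hlam]
    simp [h2]
  have hs1 : ∑ r : Q, χ r ≠ 0 :=
    sum_subgroup_ne_zero_of_constituent (P : Subgroup G) Q hQP hχc ψ.2 hψne htriv
  have hs2 : ∑ u : (N ⊔ Q : Subgroup G), χ u ≠ 0 := by
    refine sum_sup_ne_zero N Q χ ?_ hs1
    intro n hn x
    exact apply_mem_charKer_mul hχc (hNK hn) x
  -- the core
  set U : Subgroup G := N ⊔ Q with hU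
  let M : Subgroup G := U.normalCore
  haveI hMn : M.Normal := Subgroup.normalCore_normal U
  have hMU : M ≤ U := Subgroup.normalCore_le U
  have hne : classInner (fun h : U => χ h) (fun _ => (1 : ℂ)) ≠ 0 := by
    simp only [classInner, map_one, mul_one]
    refine mul_ne_zero ?_ hs2
    have : (Nat.card U : ℂ) ≠ 0 := by exact_mod_cast Nat.card_pos.ne'
    exact inv_ne_zero this
  have hs3 : ∑ m : M, χ m ≠ 0 :=
    sum_subgroup_ne_zero_of_constituent U M hMU hχc (isIrrCharacter_one (G := U)) hne (fun _ => rfl)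
  apply le_charKer_of_classInner_one_ne_zero M hχ
  show classInner (fun m : M => χ m) (fun _ => (1 : ℂ)) ≠ 0
  simp only [classInner, map_one, mul_one]
  refine mul_ne_zero ?_ hs3
  have : (Nat.card M : ℂ) ≠ 0 := by exact_mod_cast Nat.card_pos.ne'
  exact inv_ne_zero this

/-- The main theorem. -/
theorem pDegKer_eq_core (P : Sylow p G) (N : Subgroup G) [hNn : N.Normal]
    (hN : N ⊓ Subgroup.centralizer ((P : Subgroup G) : Set G) = ⊥)
    (hmax : ∀ L : Subgroup G, L.Normal →
      L ⊓ Subgroup.centralizer ((P : Subgroup G) : Set G) = ⊥ → L ≤ N) :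
    pDegKer G p = (N ⊔ ⁅(P : Subgroup G), (P : Subgroup G)⁆).normalCore := by
  apply le_antisymm
  · haveI := pDegKer_normal (G := G) p
    exact Subgroup.normal_le_normalCore.mpr (pDegKer_le p P N hmax)
  · intro g hg
    rw [mem_pDegKer]
    intro χ hd
    exact (mem_charKer (IsIrrCharacter.isCharacter χ.2)).mp (core_le_charKer p P N hN χ.2 hd hg)

end Final

end Cfsg.Agent.Lib.H8Group
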