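import Mathlib
import Cfsg.Agent.Lib.H8Group.AllConjBlocks

/-!
# Perfect isometries between blocks with four characters
-/

set_option autoImplicit false
set_option linter.unusedSectionVars false
set_option linter.style.haveILetI false

namespace Cfsg.Agent.Lib.H8Group.KP

open Cfsg Cfsg.Agent.Lib.Char Cfsg.Agent.Lib.Blocks Cfsg.Agent.Lib.H8Group
open scoped ComplexConjugate

universe u v

section Vanish

variable {A : Type u} [Group A] [Fintype A] {M : Ideal AlgInt} {p : ℕ} [hp : Fact p.Prime]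

open scoped Classical

/-- The mean of a character on a subgroup is a natural number. -/
theorem mean_irr_subgroup {H : Type u} [Group H] [Fintype H] (T : Subgroup H) [Fintype T] (ψ : IrrCharacter H) :
    ∃ n : ℕ, (Nat.card T : ℂ)⁻¹ * ∑ s : T, (ψ : H → ℂ) (s : H) = n := by
  obtain ⟨n, hn⟩ := IsCharacter.classInner_irr_eq_nat (IsCharacter.comp (IsIrrCharacter.isCharacter ψ.2) T.subtype)
    (isIrrCharacter_one (G := T))
  refine ⟨n, ?_⟩
  rw [← hn, classInner]
  simp

/-- **Class functions which vanish on singular elements are divisible by the `p`-part of the centraliser order.** -/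
theorem memLocalRing_div_of_vanish (hM : IsPModular p M) {ι : Type*} (S : Finset ι) (a : ι → ℂ)
    (χ : ι → IrrCharacter A) (ha : ∀ i ∈ S, MemLocalRing M (a i))
    (hv : ∀ g : A, p ∣ orderOf g → ∑ i ∈ S, a i * (χ i : A → ℂ) g = 0) (g : A) :
    MemLocalRing M ((∑ i ∈ S, a i * (χ i : A → ℂ) g) / (Nat.card (Subgroup.centralizer ({g} : Set A)) : ℂ)) := by
  have := isPrime_of_modular hM
  have hpp : p.Prime := hp.out
  by_cases hg : p ∣ orderOf g
  · rw [hv g hg, zero_div]
    exact memLocalRing_zero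
  letI : Fintype (Subgroup.centralizer ({g} : Set A)) := Fintype.ofFinite _
  set H := Subgroup.centralizer ({g} : Set A) with hHdef
  let x : H := centElt g
  have hH : ∀ w : A, w ∈ H ↔ Commute w (x : A) := mem_cent_iff g
  obtain ⟨P⟩ : Nonempty (Sylow p H) := inferInstance
  letI : Fintype (P : Subgroup H) := Fintype.ofFinite _
  have hTp : IsPGroup p (P : Subgroup H) := P.isPGroup'
  have hidx : ¬ p ∣ (P : Subgroup H).index := P.not_dvd_index
  have hcard : Nat.card (P : Subgroup H) * (P : Subgroup H).index = Nat.card H := Subgroup.card_mul_index _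
  -- the function on the centraliser
  let Θ : ↥(P : Subgroup H) → ℂ := fun s => ∑ i ∈ S, a i * subF H x (χ i : A → ℂ) (s : H)
  have hΘ : ∀ s : (P : Subgroup H), s ≠ 1 → Θ s = 0 := by
    intro s hs
    refine hv _ ?_
    have hcomm : Commute (x : A) (((s : H) : A)) := ((hH _).mp (s : H).2).symm
    obtain ⟨k, hk⟩ := (IsPGroup.iff_orderOf.mp hTp) s
    have hk' : orderOf (((s : H) : A)) = p ^ k := by
      rw [Subgroup.orderOf_coe, Subgroup.orderOf_coe]
      exact hk
    have hk0 : k ≠ 0 := by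
      rintro rfl
      rw [pow_zero, orderOf_eq_one_iff] at hk
      exact hs hk
    have hcop : (orderOf (x : A)).Coprime (orderOf (((s : H) : A))) := by
      rw [hk']
      exact Nat.Coprime.pow_right _ ((Nat.Prime.coprime_iff_not_dvd hpp).mpr hg).symm
    show p ∣ orderOf (((x * (s : H) : H) : A))
    rw [Subgroup.coe_mul, hcomm.orderOf_mul_eq_mul_orderOf_of_coprime hcop, hk']
    exact Dvd.dvd.mul_left (dvd_pow_self p hk0) _
  have hsum : ∑ s : (P : Subgroup H), Θ s = Θ 1 :=
    Finset.sum_eq_single 1 (fun s _ hs => hΘ s hs) (by simp)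
  have h1 : Θ 1 = ∑ i ∈ S, a i * (χ i : A → ℂ) g := by
    refine Finset.sum_congr rfl fun i _ => ?_
    simp [subF_apply, x, centElt]
  have hmean : ∀ i ∈ S, MemLocalRing M ((Nat.card (P : Subgroup H) : ℂ)⁻¹ *
      ∑ s : (P : Subgroup H), subF H x (χ i : A → ℂ) (s : H)) := by
    intro i _
    have h2 : subF H x (χ i : A → ℂ) = ∑ ψ : IrrCharacter H, ((resMul H (χ i) ψ : ℂ) * scalarAt ψ x ^ 1) • (ψ : H → ℂ) := by
      have := subF_pow_eq_sum hH (χ i) 1
      rwa [pow_one] at this
    have h3 : (Nat.card (P : Subgroup H) : ℂ)⁻¹ * ∑ s : (P : Subgroup H), subF H x (χ i : A → ℂ) (s : H) =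
        ∑ ψ : IrrCharacter H, ((resMul H (χ i) ψ : ℂ) * scalarAt ψ x ^ 1) *
          ((Nat.card (P : Subgroup H) : ℂ)⁻¹ * ∑ s : (P : Subgroup H), (ψ : H → ℂ) (s : H)) := by
      rw [h2]
      simp only [Finset.sum_apply, Pi.smul_apply, smul_eq_mul]
      rw [Finset.sum_comm, Finset.mul_sum]
      refine Finset.sum_congr rfl fun ψ _ => ?_
      rw [← Finset.mul_sum]
      ring
    rw [h3]
    refine MemLocalRing.sum _ fun ψ _ => ?_
    obtain ⟨n, hn⟩ := mean_irr_subgroup (P : Subgroup H) ψ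
    rw [hn]
    refine MemLocalRing.mul (MemLocalRing.mul (MemLocalRing.natCast _) (MemLocalRing.pow ?_ _)) (MemLocalRing.natCast _)
    refine memLocalRing_of_isIntegral ?_
    have h4 := scalarAt_pow_eq_one ψ (central_x hH) (j := orderOf x) (pow_orderOf_eq_one x)
    exact IsIntegral.of_pow (orderOf_pos x) (by rw [h4]; exact isIntegral_one)
  have h5 : (∑ i ∈ S, a i * (χ i : A → ℂ) g) / (Nat.card H : ℂ) =
      (∑ i ∈ S, a i * ((Nat.card (P : Subgroup H) : ℂ)⁻¹ *
        ∑ s : (P : Subgroup H), subF H x (χ i : A → ℂ) (s : H))) * ((P : Subgroup H).index : ℂ)⁻¹ := by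
    have hT0 : (Nat.card (P : Subgroup H) : ℂ) ≠ 0 := by exact_mod_cast Nat.card_pos.ne'
    have hI0 : ((P : Subgroup H).index : ℂ) ≠ 0 := natCast_ne_zero_of_not_dvd hidx
    have h6 : ∑ i ∈ S, a i * ((Nat.card (P : Subgroup H) : ℂ)⁻¹ *
        ∑ s : (P : Subgroup H), subF H x (χ i : A → ℂ) (s : H)) =
        (Nat.card (P : Subgroup H) : ℂ)⁻¹ * ∑ s : (P : Subgroup H), Θ s := by
      simp only [Θ]
      rw [Finset.sum_comm, Finset.mul_sum]
      refine Finset.sum_congr rfl fun i _ => ?_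
      rw [← Finset.mul_sum]
      ring
    rw [h6, hsum, h1, ← hcard]
    push_cast
    field_simp
  rw [h5]
  exact MemLocalRing.mul (MemLocalRing.sum _ fun i hi => MemLocalRing.mul (ha i hi) (hmean i hi))
    (inv_natCast_memLocalRing hM hidx)

end Vanish

section Combin

theorem four_dvd_sum_mul {ι : Type*} (S : Finset ι) (hS : S.card = 4) (a b : ι → ℤ)
    (ha : ∀ i ∈ S, a i = 1 ∨ a i = -1) (hb : ∀ i ∈ S, b i = 1 ∨ b i = -1)
    (hsa : ∑ i ∈ S, a i = 0) (hsb : ∑ i ∈ S, b i = 0) : (4 : ℤ) ∣ ∑ i ∈ S, a i * b i := by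
  have h1 : (4 : ℤ) ∣ ∑ i ∈ S, (a i + 1) * (b i + 1) := by
    refine Finset.dvd_sum fun i hi => ?_
    rcases ha i hi with h | h <;> rcases hb i hi with h' | h' <;> rw [h, h'] <;> norm_num
  have h2 : ∑ i ∈ S, (a i + 1) * (b i + 1) = ∑ i ∈ S, a i * b i + 4 := by
    have : ∀ i, (a i + 1) * (b i + 1) = a i * b i + a i + b i + 1 := fun i => by ring
    simp only [this, Finset.sum_add_distrib, hsa, hsb, Finset.sum_const, hS]
    norm_num
  rw [h2] at h1
  have h3 : (4 : ℤ) ∣ 4 := dvd_rfl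
  exact (Int.dvd_add_left h3).mp h1

end Combin

section Perfect

variable {G : Type u} [Group G] [Fintype G] {N : Type v} [Group N] [Fintype N] {M : Ideal AlgInt}

open scoped Classical

/-- The first type of block: rank one. -/
structure KleinOne (M : Ideal AlgInt) (A : Type*) [Group A] [Fintype A] (B : Set (IrrCharacter A)) : Prop where
  same : ∀ χ ∈ B, ∀ χ' ∈ B, ∀ a : A, ¬ 2 ∣ orderOf a → (χ : A → ℂ) a = (χ' : A → ℂ) a
  sum_zero : ∀ g : A, 2 ∣ orderOf g → ∑ χ ∈ Finset.univ.filter (· ∈ B), (χ : A → ℂ) g = 0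
  sing : ∀ g : A, 2 ∣ orderOf g → ∃ (n : ℕ) (z : Fin n → IrrCharacter A → ℤ) (f : Fin n → ℂ),
    (∀ χ ∈ B, (χ : A → ℂ) g = ∑ j, (z j χ : ℂ) * f j) ∧ (∀ j, ∀ χ ∈ B, z j χ = 1 ∨ z j χ = -1) ∧
    (∀ j, ∑ χ ∈ Finset.univ.filter (· ∈ B), z j χ = 0) ∧ (∀ j, MemLocalRing M (f j)) ∧
    ∀ j, MemLocalRing M (4 * f j / (Nat.card (Subgroup.centralizer ({g} : Set A)) : ℂ))

/-- The second type of block: one singular column. -/
structure KleinThree (M : Ideal AlgInt) (A : Type*) [Group A] [Fintype A] (B : Set (IrrCharacter A))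
    (z : IrrCharacter A → ℤ) : Prop where
  sign : ∀ χ ∈ B, z χ = 1 ∨ z χ = -1
  orth : ∀ a : A, ¬ 2 ∣ orderOf a → ∑ χ ∈ Finset.univ.filter (· ∈ B), (z χ : ℂ) * (χ : A → ℂ) a = 0
  sing : ∀ g : A, 2 ∣ orderOf g → ∃ f : ℂ, (∀ χ ∈ B, (χ : A → ℂ) g = (z χ : ℂ) * f) ∧ MemLocalRing M f ∧
    MemLocalRing M (4 * f / (Nat.card (Subgroup.centralizer ({g} : Set A)) : ℂ))

variable {B : Set (IrrCharacter G)} {c : Set (IrrCharacter N)} {I : IrrCharacter N → IrrCharacter G}

theorem sum_bijOn {R : Type*} [AddCommMonoid R] (hI : Set.BijOn I c B) (F : IrrCharacter G → R) :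
    ∑ η ∈ Finset.univ.filter (· ∈ c), F (I η) = ∑ χ ∈ Finset.univ.filter (· ∈ B), F χ := by
  refine Finset.sum_bij (fun η _ => I η) ?_ ?_ ?_ (fun _ _ => rfl)
  · intro η hη
    exact Finset.mem_filter.mpr ⟨Finset.mem_univ _, hI.1 (Finset.mem_filter.mp hη).2⟩
  · intro η hη η' hη' h
    exact hI.2.1 (Finset.mem_filter.mp hη).2 (Finset.mem_filter.mp hη').2 h
  · intro χ hχ
    obtain ⟨η, hη, rfl⟩ := hI.2.2 (Finset.mem_filter.mp hχ).2
    exact ⟨η, Finset.mem_filter.mpr ⟨Finset.mem_univ _, hη⟩, rfl⟩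

theorem kernel_eq (ε : IrrCharacter N → ℤ) (x : G) (y : N) :
    signedBijectionKernel c I ε x y =
      ∑ η ∈ Finset.univ.filter (· ∈ c), (ε η : ℂ) * (I η : G → ℂ) x * (η : N → ℂ) y := by
  rw [signedBijectionKernel, ← finsum_mem_coe_finset]
  refine finsum_mem_congr ?_ fun _ _ => rfl
  ext η
  simp

theorem card_filter_eq (S : Set (IrrCharacter N)) : (Finset.univ.filter (· ∈ S)).card = Nat.card S := by
  rw [Nat.card_eq_fintype_card, Fintype.card_subtype]

variable {p : ℕ}

/-- **The perfect function for the blocks of the first type.** -/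
theorem perfect_one [Fact (Nat.Prime 2)] (hM : IsPModular 2 M) (hB : KleinOne M G B) (hc : KleinOne M N c) (hcc : Nat.card c = 4)
    (hI : Set.BijOn I c B) : IsPerfectFun 2 M (signedBijectionKernel c I (fun _ => 1)) := by
  have := isPrime_of_modular hM
  have hcard : (Finset.univ.filter (· ∈ c)).card = 4 := by rw [card_filter_eq, hcc]
  have hne : (Finset.univ.filter (· ∈ c)).Nonempty := by
    rw [← Finset.card_pos, hcard]
    norm_num
  obtain ⟨η₀, hη₀⟩ := hne
  have hη₀' : η₀ ∈ c := (Finset.mem_filter.mp hη₀).2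
  have hker : ∀ x y, signedBijectionKernel c I (fun _ => 1) x y =
      ∑ η ∈ Finset.univ.filter (· ∈ c), (η : N → ℂ) y * (I η : G → ℂ) x := by
    intro x y
    rw [kernel_eq]
    refine Finset.sum_congr rfl fun η _ => ?_
    simp
    ring
  have hker' : ∀ x y, signedBijectionKernel c I (fun _ => 1) x y =
      ∑ η ∈ Finset.univ.filter (· ∈ c), (I η : G → ℂ) x * (η : N → ℂ) y := by
    intro x y
    rw [hker]
    refine Finset.sum_congr rfl fun η _ => ?_
    ring
  -- vanishing
  have hv1 : ∀ x y, 2 ∣ orderOf x → ¬ 2 ∣ orderOf y →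
      ∑ η ∈ Finset.univ.filter (· ∈ c), (η : N → ℂ) y * (I η : G → ℂ) x = 0 := by
    intro x y hx hy
    have h1 : ∀ η ∈ Finset.univ.filter (· ∈ c), (η : N → ℂ) y * (I η : G → ℂ) x = (η₀ : N → ℂ) y * (I η : G → ℂ) x := by
      intro η hη
      rw [hc.same η (Finset.mem_filter.mp hη).2 η₀ hη₀' y hy]
    rw [Finset.sum_congr rfl h1, ← Finset.mul_sum, sum_bijOn hI (fun χ => (χ : G → ℂ) x), hB.sum_zero x hx, mul_zero]
  have hv2 : ∀ x y, ¬ 2 ∣ orderOf x → 2 ∣ orderOf y →
      ∑ η ∈ Finset.univ.filter (· ∈ c), (I η : G → ℂ) x * (η : N → ℂ) y = 0 := by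
    intro x y hx hy
    have h1 : ∀ η ∈ Finset.univ.filter (· ∈ c), (I η : G → ℂ) x * (η : N → ℂ) y = (I η₀ : G → ℂ) x * (η : N → ℂ) y := by
      intro η hη
      rw [hB.same _ (hI.1 (Finset.mem_filter.mp hη).2) _ (hI.1 hη₀') x hx]
    rw [Finset.sum_congr rfl h1, ← Finset.mul_sum, hc.sum_zero y hy, mul_zero]
  intro x y
  by_cases hx : 2 ∣ orderOf x
  · by_cases hy : 2 ∣ orderOf y
    · -- both singular
      obtain ⟨n, z, f, h1, h2, h3, h4, h5⟩ := hB.sing x hx
      obtain ⟨n', z', f', h1', h2', h3', h4', h5'⟩ := hc.sing y hy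
      have hw : ∀ j j', ∃ w : ℤ, ∑ η ∈ Finset.univ.filter (· ∈ c), z j (I η) * z' j' η = 4 * w := by
        intro j j'
        refine four_dvd_sum_mul _ hcard _ _ (fun η hη => h2 j _ (hI.1 (Finset.mem_filter.mp hη).2))
          (fun η hη => h2' j' _ (Finset.mem_filter.mp hη).2) ?_ (h3' j')
        rw [sum_bijOn hI (fun χ => z j χ), h3 j]
      choose w hw using hw
      have hform : signedBijectionKernel c I (fun _ => 1) x y =
          ∑ j, ∑ j', (w j j' : ℂ) * (4 * f j) * f' j' := by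
        rw [hker']
        have h6 : ∀ η ∈ Finset.univ.filter (· ∈ c), (I η : G → ℂ) x * (η : N → ℂ) y =
            ∑ j, ∑ j', ((z j (I η) * z' j' η : ℤ) : ℂ) * (f j * f' j') := by
          intro η hη
          rw [h1 _ (hI.1 (Finset.mem_filter.mp hη).2), h1' _ (Finset.mem_filter.mp hη).2, Finset.sum_mul_sum]
          refine Finset.sum_congr rfl fun j _ => Finset.sum_congr rfl fun j' _ => ?_
          push_cast
          ring
        rw [Finset.sum_congr rfl h6, Finset.sum_comm]
        refine Finset.sum_congr rfl fun j _ => ?_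
        rw [Finset.sum_comm]
        refine Finset.sum_congr rfl fun j' _ => ?_
        rw [← Finset.sum_mul, ← Int.cast_sum, hw j j']
        push_cast
        ring
      refine ⟨?_, ?_, Or.inl ?_⟩
      · have h7 : signedBijectionKernel c I (fun _ => 1) x y / (Nat.card (Subgroup.centralizer ({x} : Set G)) : ℂ) =
            ∑ j, ∑ j', (w j j' : ℂ) * (4 * f j / (Nat.card (Subgroup.centralizer ({x} : Set G)) : ℂ)) * f' j' := by
          rw [hform, Finset.sum_div]
          refine Finset.sum_congr rfl fun j _ => ?_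
          rw [Finset.sum_div]
          refine Finset.sum_congr rfl fun j' _ => ?_
          ring
        rw [h7]
        exact MemLocalRing.sum _ fun j _ => MemLocalRing.sum _ fun j' _ =>
          MemLocalRing.mul (MemLocalRing.mul (MemLocalRing.intCast _) (h5 j)) (h4' j')
      · have h7 : signedBijectionKernel c I (fun _ => 1) x y / (Nat.card (Subgroup.centralizer ({y} : Set N)) : ℂ) =
            ∑ j, ∑ j', (w j j' : ℂ) * f j * (4 * f' j' / (Nat.card (Subgroup.centralizer ({y} : Set N)) : ℂ)) := by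
          rw [hform, Finset.sum_div]
          refine Finset.sum_congr rfl fun j _ => ?_
          rw [Finset.sum_div]
          refine Finset.sum_congr rfl fun j' _ => ?_
          ring
        rw [h7]
        exact MemLocalRing.sum _ fun j _ => MemLocalRing.sum _ fun j' _ =>
          MemLocalRing.mul (MemLocalRing.mul (MemLocalRing.intCast _) (h4 j)) (h5' j')
      · show ¬ 2 ∣ orderOf x ↔ ¬ 2 ∣ orderOf y
        simp [hx, hy]
    · have h0 := hv1 x y hx hy
      rw [hker, h0, zero_div, zero_div]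
      exact ⟨memLocalRing_zero, memLocalRing_zero, Or.inr rfl⟩
  · by_cases hy : 2 ∣ orderOf y
    · have h0 := hv2 x y hx hy
      rw [hker', h0, zero_div, zero_div]
      exact ⟨memLocalRing_zero, memLocalRing_zero, Or.inr rfl⟩
    · refine ⟨?_, ?_, Or.inl ?_⟩
      · rw [hker]
        exact memLocalRing_div_of_vanish hM _ (fun η : IrrCharacter N => (η : N → ℂ) y) I
          (fun η _ => memLocalRing_of_isIntegral (irr_isIntegral _ _)) (fun g hg => hv1 g y hg hy) x
      · rw [hker']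
        exact memLocalRing_div_of_vanish hM _ (fun η : IrrCharacter N => (I η : G → ℂ) x) (fun η => η)
          (fun η _ => memLocalRing_of_isIntegral (irr_isIntegral _ _)) (fun g hg => hv2 x g hx hg) y
      · show ¬ 2 ∣ orderOf x ↔ ¬ 2 ∣ orderOf y
        simp [hx, hy]

/-- **The perfect function for the blocks of the second type.** -/
theorem perfect_three [Fact (Nat.Prime 2)] (hM : IsPModular 2 M) {z : IrrCharacter G → ℤ} {z' : IrrCharacter N → ℤ}
    (hB : KleinThree M G B z) (hc : KleinThree M N c z') (hcc : Nat.card c = 4)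
    (hI : Set.BijOn I c B) : IsPerfectFun 2 M (signedBijectionKernel c I (fun η => z' η * z (I η))) := by
  have := isPrime_of_modular hM
  have hcard : (Finset.univ.filter (· ∈ c)).card = 4 := by rw [card_filter_eq, hcc]
  set ε : IrrCharacter N → ℤ := fun η => z' η * z (I η) with hε
  have hsq : ∀ η ∈ Finset.univ.filter (· ∈ c), ((z (I η) : ℂ)) * (z (I η) : ℂ) = 1 ∧ ((z' η : ℂ)) * (z' η : ℂ) = 1 := by
    intro η hη
    have h1 := Finset.mem_filter.mp hη
    constructor
    · rcases hB.sign _ (hI.1 h1.2) with h | h <;> rw [h] <;> norm_num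
    · rcases hc.sign _ h1.2 with h | h <;> rw [h] <;> norm_num
  have hker : ∀ x y, signedBijectionKernel c I ε x y =
      ∑ η ∈ Finset.univ.filter (· ∈ c), ((ε η : ℂ) * (η : N → ℂ) y) * (I η : G → ℂ) x := by
    intro x y
    rw [kernel_eq]
    refine Finset.sum_congr rfl fun η _ => ?_
    ring
  have hker' : ∀ x y, signedBijectionKernel c I ε x y =
      ∑ η ∈ Finset.univ.filter (· ∈ c), ((ε η : ℂ) * (I η : G → ℂ) x) * (η : N → ℂ) y := by
    intro x y
    rw [kernel_eq]
  have hv1 : ∀ x y, 2 ∣ orderOf x → ¬ 2 ∣ orderOf y →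
      ∑ η ∈ Finset.univ.filter (· ∈ c), ((ε η : ℂ) * (η : N → ℂ) y) * (I η : G → ℂ) x = 0 := by
    intro x y hx hy
    obtain ⟨f, hf, -, -⟩ := hB.sing x hx
    have h1 : ∀ η ∈ Finset.univ.filter (· ∈ c), ((ε η : ℂ) * (η : N → ℂ) y) * (I η : G → ℂ) x =
        f * ((z' η : ℂ) * (η : N → ℂ) y) := by
      intro η hη
      rw [hf _ (hI.1 (Finset.mem_filter.mp hη).2), hε]
      push_cast
      linear_combination ((z' η : ℂ) * (η : N → ℂ) y * f) * (hsq η hη).1
    rw [Finset.sum_congr rfl h1, ← Finset.mul_sum, hc.orth y hy, mul_zero]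
  have hv2 : ∀ x y, ¬ 2 ∣ orderOf x → 2 ∣ orderOf y →
      ∑ η ∈ Finset.univ.filter (· ∈ c), ((ε η : ℂ) * (I η : G → ℂ) x) * (η : N → ℂ) y = 0 := by
    intro x y hx hy
    obtain ⟨f, hf, -, -⟩ := hc.sing y hy
    have h1 : ∀ η ∈ Finset.univ.filter (· ∈ c), ((ε η : ℂ) * (I η : G → ℂ) x) * (η : N → ℂ) y =
        f * ((z (I η) : ℂ) * (I η : G → ℂ) x) := by
      intro η hη
      rw [hf _ (Finset.mem_filter.mp hη).2, hε]
      push_cast
      linear_combination ((z (I η) : ℂ) * (I η : G → ℂ) x * f) * (hsq η hη).2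
    rw [Finset.sum_congr rfl h1, ← Finset.mul_sum, sum_bijOn hI (fun χ => (z χ : ℂ) * (χ : G → ℂ) x), hB.orth x hx, mul_zero]
  have hεloc : ∀ η, MemLocalRing M (ε η : ℂ) := fun η => MemLocalRing.intCast _
  intro x y
  by_cases hx : 2 ∣ orderOf x
  · by_cases hy : 2 ∣ orderOf y
    · obtain ⟨f, hf, h4, h5⟩ := hB.sing x hx
      obtain ⟨f', hf', h4', h5'⟩ := hc.sing y hy
      have hform : signedBijectionKernel c I ε x y = 4 * f * f' := by
        rw [kernel_eq]
        have h6 : ∀ η ∈ Finset.univ.filter (· ∈ c), (ε η : ℂ) * (I η : G → ℂ) x * (η : N → ℂ) y = f * f' := by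
          intro η hη
          rw [hf _ (hI.1 (Finset.mem_filter.mp hη).2), hf' _ (Finset.mem_filter.mp hη).2, hε]
          push_cast
          have h7 := (hsq η hη).1
          have h8 := (hsq η hη).2
          linear_combination (f * f' * (z' η : ℂ) * (z' η : ℂ)) * h7 + (f * f') * h8
        rw [Finset.sum_congr rfl h6, Finset.sum_const, hcard]
        simp
        ring
      refine ⟨?_, ?_, Or.inl ?_⟩
      · have h7 : signedBijectionKernel c I ε x y / (Nat.card (Subgroup.centralizer ({x} : Set G)) : ℂ) =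
            (4 * f / (Nat.card (Subgroup.centralizer ({x} : Set G)) : ℂ)) * f' := by
          rw [hform]
          ring
        rw [h7]
        exact MemLocalRing.mul h5 h4'
      · have h7 : signedBijectionKernel c I ε x y / (Nat.card (Subgroup.centralizer ({y} : Set N)) : ℂ) =
            f * (4 * f' / (Nat.card (Subgroup.centralizer ({y} : Set N)) : ℂ)) := by
          rw [hform]
          ring
        rw [h7]
        exact MemLocalRing.mul h4 h5'
      · show ¬ 2 ∣ orderOf x ↔ ¬ 2 ∣ orderOf y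
        simp [hx, hy]
    · have h0 := hv1 x y hx hy
      rw [hker, h0, zero_div, zero_div]
      exact ⟨memLocalRing_zero, memLocalRing_zero, Or.inr rfl⟩
  · by_cases hy : 2 ∣ orderOf y
    · have h0 := hv2 x y hx hy
      rw [hker', h0, zero_div, zero_div]
      exact ⟨memLocalRing_zero, memLocalRing_zero, Or.inr rfl⟩
    · refine ⟨?_, ?_, Or.inl ?_⟩
      · rw [hker]
        exact memLocalRing_div_of_vanish hM _ (fun η : IrrCharacter N => (ε η : ℂ) * (η : N → ℂ) y) I
          (fun η _ => MemLocalRing.mul (hεloc η) (memLocalRing_of_isIntegral (irr_isIntegral _ _))) (fun g hg => hv1 g y hg hy) x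
      · rw [hker']
        exact memLocalRing_div_of_vanish hM _ (fun η : IrrCharacter N => (ε η : ℂ) * (I η : G → ℂ) x) (fun η => η)
          (fun η _ => MemLocalRing.mul (hεloc η) (memLocalRing_of_isIntegral (irr_isIntegral _ _))) (fun g hg => hv2 x g hx hg) y
      · show ¬ 2 ∣ orderOf x ↔ ¬ 2 ∣ orderOf y
        simp [hx, hy]

/-- A bijection between the two sets of four characters. -/
theorem exists_bijOn (hB : Nat.card B = 4) (hc : Nat.card c = 4) : ∃ I : IrrCharacter N → IrrCharacter G, Set.BijOn I c B := by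
  have h1 : Nat.card c = Nat.card B := by rw [hB, hc]
  obtain ⟨e⟩ := Finite.card_eq.mp h1
  have hne : Nonempty B := (Nat.card_pos_iff.mp (by omega)).1
  obtain ⟨χ₀⟩ := hne
  let I : IrrCharacter N → IrrCharacter G := fun η => if h : η ∈ c then (e ⟨η, h⟩ : B) else χ₀
  have hI : ∀ η (h : η ∈ c), I η = (e ⟨η, h⟩ : B) := fun η h => dif_pos h
  refine ⟨I, ?_, ?_, ?_⟩
  · intro η h
    rw [hI η h]
    exact (e ⟨η, h⟩).2
  · intro η h η' h' heq
    rw [hI η h, hI η' h'] at heq
    have := e.injective (Subtype.ext heq)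
    exact congrArg Subtype.val this
  · intro χ h
    obtain ⟨⟨η, hη⟩, h2⟩ := e.surjective ⟨χ, h⟩
    refine ⟨η, hη, ?_⟩
    rw [hI η hη, h2]

end Perfect

end Cfsg.Agent.Lib.H8Group.KP
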