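import Mathlib
import Cfsg.Agent.Lib.H8Group.KleinPerfect
import Cfsg.Agent.Lib.H8Group.KleinColumn
import Cfsg.Agent.Lib.H8Group.MajorRows
import Cfsg.Agent.Lib.H8Group.ChainBlocks

/-!
# The columns of the generalized decomposition matrix of a block with four characters
-/

set_option autoImplicit false
set_option linter.unusedSectionVars false
set_option linter.style.haveILetI false

namespace Cfsg.Agent.Lib.H8Group.KP

open Cfsg Cfsg.Agent.Lib.Char Cfsg.Agent.Lib.Blocks Cfsg.Agent.Lib.H8Group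
open scoped ComplexConjugate

universe u v

section Good

variable {A : Type u} [Group A] [Fintype A] {M : Ideal AlgInt}

open scoped Classical

/-- A block of rank one with four characters and defect two. -/
def Good4 (b : Set (IrrCharacter A)) : Prop :=
  blockRank 2 b = 1 ∧ Nat.card b = 4 ∧ blockDefect 2 b = 2

variable [hp2 : Fact (Nat.Prime 2)]

theorem good_same (hM : IsPModular 2 M) {b : Set (IrrCharacter A)} (hb : IsPBlock M b) (hg : Good4 b) :
    ∀ ξ ∈ b, ∀ ξ' ∈ b, pRegularPart 2 (ξ : A → ℂ) = pRegularPart 2 (ξ' : A → ℂ) := by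
  have := isPrime_of_modular hM
  obtain ⟨φ, d, -, h1, h2⟩ := exists_rank_one_data hM hb hg.1
  have hS : (Finset.univ.filter (· ∈ b)).card = 4 := by rw [← natCard_block_eq, hg.2.1]
  have h3 : ∑ χ ∈ Finset.univ.filter (· ∈ b), d χ ^ 2 = 4 := by
    rw [hg.2.2] at h2
    rw [← finsum_mem_coe_finset]
    rw [← show (2 : ℕ) ^ 2 = 4 from rfl, ← h2]
    refine finsum_mem_congr ?_ fun _ _ => rfl
    ext χ
    simp
  have hd : ∀ χ ∈ b, d χ ≠ 0 := by
    intro χ hχ h0
    have h4 := h1 χ hχ 1 (by simp [IsPRegular])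
    rw [h0] at h4
    simp only [Nat.cast_zero, zero_mul] at h4
    exact irr_apply_one_ne_zero χ h4
  have hd1 : ∀ χ ∈ b, d χ = 1 := by
    -- all squares are at least one, and they sum to the number of terms
    have h5 : ∑ χ ∈ Finset.univ.filter (· ∈ b), (d χ ^ 2 - 1) = 0 := by
      have h6 : ∀ χ ∈ Finset.univ.filter (· ∈ b), 1 ≤ d χ ^ 2 := fun χ hχ =>
        Nat.one_le_pow _ _ (Nat.pos_of_ne_zero (hd χ (Finset.mem_filter.mp hχ).2))
      have h7 := Finset.sum_tsub_distrib (Finset.univ.filter (· ∈ b)) h6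
      rw [h7, h3]
      simp [hS]
    intro χ hχ
    have h8 := (Finset.sum_eq_zero_iff.mp h5) χ (Finset.mem_filter.mpr ⟨Finset.mem_univ _, hχ⟩)
    have h9 := hd χ hχ
    have h10 : d χ ^ 2 ≤ 1 := by omega
    nlinarith [Nat.pos_of_ne_zero h9]
  have key : ∀ ξ ∈ b, pRegularPart 2 (ξ : A → ℂ) = pRegularPart 2 φ := by
    intro ξ hξ
    funext a
    by_cases ha : 2 ∣ orderOf a
    · rw [pRegularPart_of_dvd _ ha, pRegularPart_of_dvd _ ha]
    · rw [pRegularPart_of_not_dvd _ ha, pRegularPart_of_not_dvd _ ha, h1 ξ hξ a ha, hd1 ξ hξ]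
      simp
  intro ξ hξ ξ' hξ'
  rw [key ξ hξ, key ξ' hξ']

theorem good_inner (hM : IsPModular 2 M) {b : Set (IrrCharacter A)} (hb : IsPBlock M b) (hg : Good4 b) :
    ∀ ξ ∈ b, ∀ ξ' ∈ b, classInner (pRegularPart 2 (ξ : A → ℂ)) (ξ' : A → ℂ) = 1 / 4 := by
  have := isPrime_of_modular hM
  have hsame := good_same hM hb hg
  have hall : ∀ ξ₁ ∈ b, ∀ ξ₂ ∈ b, ∀ ξ₃ ∈ b, ∀ ξ₄ ∈ b,
      classInner (pRegularPart 2 (ξ₁ : A → ℂ)) (ξ₂ : A → ℂ) = classInner (pRegularPart 2 (ξ₃ : A → ℂ)) (ξ₄ : A → ℂ) := by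
    intro ξ₁ h₁ ξ₂ h₂ ξ₃ h₃ ξ₄ h₄
    rw [hsame ξ₁ h₁ ξ₃ h₃, classInner_pRegularPart_symm, hsame ξ₂ h₂ ξ₄ h₄, classInner_pRegularPart_symm]
  have h1 := sum_classInner_pRegularPart hM hb
  rw [hg.1] at h1
  intro ξ hξ ξ' hξ'
  have h2 : ∑ χ : {ψ : IrrCharacter A // ψ ∈ b}, classInner (pRegularPart 2 ((χ : IrrCharacter A) : A → ℂ)) ((χ : IrrCharacter A) : A → ℂ) =
      (Nat.card b : ℂ) * classInner (pRegularPart 2 (ξ : A → ℂ)) (ξ' : A → ℂ) := by
    rw [Finset.sum_congr rfl fun χ _ => hall χ.1 χ.2 χ.1 χ.2 ξ hξ ξ' hξ', Finset.sum_const, Finset.card_univ, nsmul_eq_mul,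
      Nat.card_eq_fintype_card]
  rw [h2, hg.2.1] at h1
  have h3 : ((4 : ℕ) : ℂ) = 4 := by norm_num
  rw [h3] at h1
  have h4 : ((1 : ℕ) : ℂ) = 1 := by norm_num
  rw [h4] at h1
  linear_combination (1 / 4 : ℂ) * h1

theorem good_blockT (hM : IsPModular 2 M) {b : Set (IrrCharacter A)} (hb : IsPBlock M b) (hg : Good4 b)
    (ξ ξ' : {ψ : IrrCharacter A // ψ ∈ b}) : tMat 2 b ξ ξ' = 1 := by
  have h1 := pow_defect_mul_classInner hM hb ξ.2 (ξ' : IrrCharacter A)
  rw [good_inner hM hb hg _ ξ.2 _ ξ'.2, hg.2.2] at h1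
  have h2 : ((blockT 2 b (ξ : IrrCharacter A) (ξ' : IrrCharacter A) : ℤ) : ℂ) = ((1 : ℤ) : ℂ) := by
    rw [← h1]
    norm_num
  exact_mod_cast h2

end Good

section Column

variable {A : Type u} [Group A] [Fintype A] {M : Ideal AlgInt} [hp2 : Fact (Nat.Prime 2)]
variable {H : Subgroup A} [Fintype H] {x : H}

open scoped Classical

/-- The entry of the column of a block. -/
noncomputable def zB (b : Set (IrrCharacter H)) (x : H) (χ : IrrCharacter A) : ℂ :=
  ∑ ξ : {ψ : IrrCharacter H // ψ ∈ b}, (resMul H χ (ξ : IrrCharacter H) : ℂ) * scalarAt (ξ : IrrCharacter H) x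

/-- The blocks inducing `B`. -/
noncomputable def blF (M : Ideal AlgInt) [M.IsPrime] (H : Subgroup A) [Fintype H] (B : Set (IrrCharacter A)) :
    Finset (Set (IrrCharacter H)) :=
  (blocksFinset M H).filter (fun b => IsInducedBlock M H b B)

theorem mem_blF [M.IsPrime] {B : Set (IrrCharacter A)} {b : Set (IrrCharacter H)} :
    b ∈ blF M H B ↔ IsInducedBlock M H b B := by
  rw [blF, Finset.mem_filter, mem_blocksFinset]
  exact ⟨fun h => h.2, fun h => ⟨h.1, h⟩⟩

theorem pRegularPart_sum_smul {ι : Type*} (S : Finset ι) (c : ι → ℂ) (f : ι → H → ℂ) :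
    pRegularPart 2 (∑ i ∈ S, c i • f i) = ∑ i ∈ S, c i • pRegularPart 2 (f i) := by
  funext a
  by_cases ha : 2 ∣ orderOf a
  · rw [pRegularPart_of_dvd _ ha]
    simp [Finset.sum_apply, pRegularPart_of_dvd _ ha]
  · rw [pRegularPart_of_not_dvd _ ha]
    simp [Finset.sum_apply, pRegularPart_of_not_dvd _ ha]

/-- The expansion of the truncated section function. -/
theorem regular_subF_eq_sum (hH : ∀ w : A, w ∈ H ↔ Commute w (x : A)) (χ : IrrCharacter A) :
    pRegularPart 2 (subF H x (χ : A → ℂ)) = ∑ ψ : IrrCharacter H, ((resMul H χ ψ : ℂ) * scalarAt ψ x) •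
      pRegularPart 2 (ψ : H → ℂ) := by
  have h := subF_pow_eq_sum hH χ 1
  rw [pow_one] at h
  rw [h, pRegularPart_sum_smul]
  simp only [pow_one]

theorem inner_regular_subF (hM : IsPModular 2 M) (hH : ∀ w : A, w ∈ H ↔ Commute w (x : A)) (χ : IrrCharacter A)
    {b : Set (IrrCharacter H)} (hb : IsPBlock M b) (hg : Good4 b) {ψ : IrrCharacter H} (hψ : ψ ∈ b) :
    classInner (pRegularPart 2 (subF H x (χ : A → ℂ))) (ψ : H → ℂ) = zB b x χ / 4 := by
  have := isPrime_of_modular hM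
  rw [regular_subF_eq_sum hH, classInner_sum_left, zB, Finset.sum_div]
  have h1 : ∑ φ : IrrCharacter H, classInner (((resMul H χ φ : ℂ) * scalarAt φ x) • pRegularPart 2 (φ : H → ℂ)) (ψ : H → ℂ) =
      ∑ φ ∈ Finset.univ.filter (· ∈ b), ((resMul H χ φ : ℂ) * scalarAt φ x) / 4 := by
    rw [Finset.sum_filter]
    refine Finset.sum_congr rfl fun φ _ => ?_
    rw [classInner_smul_left]
    by_cases hφ : φ ∈ b
    · rw [if_pos hφ, good_inner hM hb hg φ hφ ψ hψ]
      ring
    · rw [if_neg hφ, classInner_pRegularPart_symm, classInner_pRegularPart_eq_zero hM hb hψ hφ, mul_zero]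
  rw [h1]
  exact Finset.sum_subtype _ (fun φ => by simp) _

/-- **The expansion of a section in terms of the blocks inducing `B`.** -/
theorem col_formula (hM : IsPModular 2 M) (hH : ∀ w : A, w ∈ H ↔ Commute w (x : A))
    (hxp : ∃ k, orderOf (x : A) = 2 ^ k) {B : Set (IrrCharacter A)} (hB : IsPBlock M B)
    (hgood : ∀ b : Set (IrrCharacter H), IsInducedBlock M H b B → Good4 b)
    {χ : IrrCharacter A} (hχ : χ ∈ B) (ξb : Set (IrrCharacter H) → IrrCharacter H)
    (hξb : ∀ b : Set (IrrCharacter H), IsInducedBlock M H b B → ξb b ∈ b) :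
    have := isPrime_of_modular hM
    pRegularPart 2 (subF H x (χ : A → ℂ)) = ∑ b ∈ blF M H B, zB b x χ • pRegularPart 2 (ξb b : H → ℂ) := by
  intro hpr
  rw [← sub_eq_zero]
  have hF : IsClassFunction H (pRegularPart 2 (subF H x (χ : A → ℂ))) :=
    pRegularPart_isClassFunction (subF_isClassFunction hH (irr_isClassFunction χ))
  have hG : ∀ b ∈ blF M H B, IsClassFunction H (zB b x χ • pRegularPart 2 (ξb b : H → ℂ)) := fun b _ =>
    IsClassFunction.smul _ (pRegularPart_isClassFunction (irr_isClassFunction _))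
  refine classFunction_eq_zero_of_orthogonal _ (IsClassFunction.sub hF (IsClassFunction.sum _ hG)) fun ψf hψf => ?_
  let ψ : IrrCharacter H := ⟨ψf, hψf⟩
  show classInner _ (ψ : H → ℂ) = 0
  rw [classInner_sub_left, classInner_sum_left, sub_eq_zero]
  -- the block of `ψ`
  obtain ⟨B', hB'⟩ := exists_isInducedBlock_sub hM hH hxp (isPBlock_blockOf ψ)
  have hψb : ψ ∈ blockOf M (ψ : H → ℂ) := self_mem_blockOf ψ
  have hother : ∀ b ∈ blF M H B, b ≠ blockOf M (ψ : H → ℂ) →
      classInner (zB b x χ • pRegularPart 2 (ξb b : H → ℂ)) (ψ : H → ℂ) = 0 := by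
    intro b hb hne
    have hbI := mem_blF.mp hb
    have hψ' : ψ ∉ b := by
      intro h
      exact hne (blockOf_eq_of_mem hbI.1 h)
    rw [classInner_smul_left, classInner_pRegularPart_eq_zero hM hbI.1 (hξb b hbI) hψ', mul_zero]
  by_cases hBB : B' = B
  · subst hBB
    have hm : blockOf M (ψ : H → ℂ) ∈ blF M H B' := mem_blF.mpr hB'
    rw [Finset.sum_eq_single _ hother (fun h => absurd hm h), inner_regular_subF hM hH χ hB'.1 (hgood _ hB') hψb,
      classInner_smul_left, good_inner hM hB'.1 (hgood _ hB') _ (hξb _ hB') _ hψb]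
    ring
  · have hχB' : χ ∉ B' := by
      intro h
      exact hBB ((blockOf_eq_of_mem hB'.2.1 h).trans (blockOf_eq_of_mem hB hχ).symm)
    rw [classInner_subF_eq_zero hM hH hxp hB' hχB' hψb]
    symm
    refine Finset.sum_eq_zero fun b hb => hother b hb ?_
    rintro rfl
    apply hBB
    exact IsInducedBlock.unique _ hB' (mem_blF.mp hb)

/-- Squares summing to four over four terms, one of them odd. -/
theorem signs_of_sum_sq {ι : Type*} (S : Finset ι) (hS : S.card = 4) (z : ι → ℤ) (hsum : ∑ i ∈ S, z i ^ 2 = 4)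
    {i₀ : ι} (hi₀ : i₀ ∈ S) (hodd : ¬ (2 : ℤ) ∣ z i₀) : ∀ i ∈ S, z i = 1 ∨ z i = -1 := by
  have hnn : ∀ i ∈ S, 0 ≤ z i ^ 2 := fun i _ => sq_nonneg _
  have h0 : z i₀ ≠ 0 := fun h => hodd (h ▸ dvd_zero _)
  have h1 : 1 ≤ z i₀ ^ 2 := by
    have : 0 < z i₀ ^ 2 := by positivity
    omega
  have hle : ∀ i ∈ S, z i ^ 2 ≤ 1 := by
    intro i hi
    by_cases h : i = i₀
    · subst h
      have h2 : z i ^ 2 ≤ 4 := by
        rw [← hsum]
        exact Finset.single_le_sum hnn hi
      have h3 : -2 ≤ z i := by nlinarith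
      have h4 : z i ≤ 2 := by nlinarith
      have h5 : z i = -1 ∨ z i = 1 := by
        have : z i ≠ -2 := fun h => hodd (by rw [h]; norm_num)
        have : z i ≠ 2 := fun h => hodd (by rw [h])
        omega
      rcases h5 with h5 | h5 <;> rw [h5] <;> norm_num
    · have h2 : z i ^ 2 + z i₀ ^ 2 ≤ 4 := by
        classical
        rw [← hsum, ← Finset.sum_pair (f := fun j => z j ^ 2) h]
        refine Finset.sum_le_sum_of_subset_of_nonneg ?_ (fun j hj _ => hnn j hj)
        intro j hj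
        simp only [Finset.mem_insert, Finset.mem_singleton] at hj
        rcases hj with rfl | rfl <;> assumption
      have h3 : z i ^ 2 ≤ 3 := by omega
      have h4 : -1 ≤ z i := by nlinarith
      have h5 : z i ≤ 1 := by nlinarith
      nlinarith
  have h2 : ∑ i ∈ S, (1 - z i ^ 2) = 0 := by
    rw [Finset.sum_sub_distrib, hsum]
    simp [hS]
  intro i hi
  have h3 := (Finset.sum_eq_zero_iff_of_nonneg (fun j hj => by linarith [hle j hj])).mp h2 i hi
  have h4 : z i ^ 2 = 1 := by linarith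
  have h5 : (z i - 1) * (z i + 1) = 0 := by linear_combination h4
  rcases mul_eq_zero.mp h5 with h6 | h6
  · left
    omega
  · right
    omega

/-- The column of a block has entries `±1`. -/
theorem col_signs (hM : IsPModular 2 M) (hH : ∀ w : A, w ∈ H ↔ Commute w (x : A))
    (hxp : ∃ k, orderOf (x : A) = 2 ^ k) (hx2 : x ^ 2 = 1) {B : Set (IrrCharacter A)} (hB : IsPBlock M B)
    (hk : Nat.card B = 4) {b : Set (IrrCharacter H)} (hind : IsInducedBlock M H b B) (hg : Good4 b) :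
    ∃ z : IrrCharacter A → ℤ, (∀ χ, zB b x χ = (z χ : ℂ)) ∧ ∀ χ ∈ B, z χ = 1 ∨ z χ = -1 := by
  have := isPrime_of_modular hM
  have hs : ∀ i : {ψ : IrrCharacter H // ψ ∈ b}, ∃ s : ℤ, scalarAt (i : IrrCharacter H) x = (s : ℂ) := by
    intro i
    have h1 := scalarAt_pow_eq_one (i : IrrCharacter H) (central_x hH) hx2
    have h2 : (scalarAt (i : IrrCharacter H) x - 1) * (scalarAt (i : IrrCharacter H) x + 1) = 0 := by
      linear_combination h1
    rcases mul_eq_zero.mp h2 with h | h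
    · refine ⟨1, ?_⟩
      push_cast
      linear_combination h
    · refine ⟨-1, ?_⟩
      push_cast
      linear_combination h
  choose s hs using hs
  let z : IrrCharacter A → ℤ := fun χ => ∑ i : {ψ : IrrCharacter H // ψ ∈ b}, (resMul H χ (i : IrrCharacter H) : ℤ) * s i
  have hz : ∀ χ, zB b x χ = (z χ : ℂ) := by
    intro χ
    simp only [zB, z, hs]
    push_cast
    rfl
  have hrow : ∀ χ, ∑ i, rowD b χ x 1 i = (z χ : ℂ) := by
    intro χ
    rw [← hz, zB]
    simp only [rowD, pow_one]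
    push_cast
    rfl
  have hhq : ∀ χ : IrrCharacter A, hq (tMat 2 b) (rowD b χ x 1) = ((z χ ^ 2 : ℤ) : ℂ) := by
    intro χ
    have h1 : hq (tMat 2 b) (rowD b χ x 1) = (∑ i, rowD b χ x 1 i) * conj (∑ i, rowD b χ x 1 i) := by
      rw [hq, map_sum, Finset.sum_mul_sum]
      refine Finset.sum_congr rfl fun i _ => Finset.sum_congr rfl fun i' _ => ?_
      rw [good_blockT hM hind.1 hg i i']
      simp
    rw [h1, hrow]
    simp
    ring
  have hsum : ∑ χ ∈ Finset.univ.filter (· ∈ B), z χ ^ 2 = 4 := by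
    have h1 := sum_hq_tMat hM hH hxp hind (j := 1) (by norm_num)
    rw [hg.1, hg.2.2] at h1
    have h2 : ((∑ χ ∈ Finset.univ.filter (· ∈ B), z χ ^ 2 : ℤ) : ℂ) = ((4 : ℤ) : ℂ) := by
      have h3 : ((4 : ℤ) : ℂ) = ((2 ^ 2 : ℕ) : ℂ) * ((1 : ℕ) : ℂ) := by norm_num
      rw [h3, ← h1, Int.cast_sum, Finset.sum_filter]
      refine Finset.sum_congr rfl fun χ _ => ?_
      by_cases hχ : χ ∈ B
      · rw [if_pos hχ, indic_apply_of_mem hχ, one_mul, hhq]
      · rw [if_neg hχ, indic_apply_of_notMem hχ, zero_mul]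
    exact_mod_cast h2
  obtain ⟨χ₀, hχ₀, h00⟩ := exists_height_zero (p := 2) (IsPBlock.nonempty hB)
  have hS : (Finset.univ.filter (· ∈ B)).card = 4 := by rw [← natCard_block_eq, hk]
  have hodd : ¬ (2 : ℤ) ∣ z χ₀ := by
    intro hdvd
    obtain ⟨n, hn⟩ := exists_degF_not_dvd (p := 2) (IsPBlock.nonempty hind.1)
    apply rowR_not_mem hM hH hxp hind hn hχ₀ h00
    have h1 : rowR (p := 2) b χ₀ x 1 n = (((∑ ξ, n ξ) * z χ₀ : ℤ) : ℂ) := by
      rw [Int.cast_mul, ← hrow, rowR, Finset.mul_sum]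
      refine Finset.sum_congr rfl fun i _ => ?_
      have h2 : tVec (p := 2) b n i = ∑ ξ, n ξ := by
        rw [tVec]
        refine Finset.sum_congr rfl fun ξ _ => ?_
        rw [good_blockT hM hind.1 hg i ξ, mul_one]
      rw [h2]
      ring
    rw [h1, intCast_memLocalIdeal_iff hM]
    exact Dvd.dvd.mul_left hdvd _
  refine ⟨z, hz, fun χ hχ => ?_⟩
  exact signs_of_sum_sq _ hS z hsum (Finset.mem_filter.mpr ⟨Finset.mem_univ _, hχ₀⟩) hodd χ
    (Finset.mem_filter.mpr ⟨Finset.mem_univ _, hχ⟩)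

/-- The integrality of the values in a block of defect two, for characters of height zero. -/
theorem four_div_memLocalRing (hM : IsPModular 2 M) {K : Type u} [Group K] [Fintype K] {b : Set (IrrCharacter K)}
    (hg : Good4 b) {ξ : IrrCharacter K} (hξ : ξ ∈ b) (y : K) :
    MemLocalRing M (4 * (ξ : K → ℂ) y / (Nat.card (Subgroup.centralizer ({y} : Set K)) : ℂ)) := by
  have := isPrime_of_modular hM
  have h1 : MemLocalRing M (centralChar (ξ : K → ℂ) y) := memLocalRing_of_isIntegral (isIntegral_centralChar ξ y)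
  have hdeg : (charDegree (ξ : K → ℂ)) ≠ 0 := by
    intro h
    have h2 := irr_one_eq ξ
    rw [h] at h2
    exact irr_apply_one_ne_zero ξ (by simpa using h2)
  have hfac : (Nat.card K).factorization 2 ≤ (4 * charDegree (ξ : K → ℂ)).factorization 2 := by
    rw [Nat.factorization_mul (by norm_num) hdeg, Finsupp.add_apply,
      show (4 : ℕ) = 2 ^ 2 from rfl, Nat.Prime.factorization_pow Nat.prime_two]
    simp only [Finsupp.single_eq_same]
    have h3 := hg.2.2
    rw [blockDefect] at h3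
    have h4 : sInf ((fun χ : IrrCharacter K => (charDegree (χ : K → ℂ)).factorization 2) '' b) ≤
        (charDegree (ξ : K → ℂ)).factorization 2 := Nat.sInf_le ⟨ξ, hξ, rfl⟩
    omega
  have h5 : MemLocalRing M (((4 * charDegree (ξ : K → ℂ) : ℕ) : ℂ) / (Nat.card K : ℂ)) :=
    natCast_div_memLocalRing hM Nat.card_pos.ne' hfac
  have h6 : 4 * (ξ : K → ℂ) y / (Nat.card (Subgroup.centralizer ({y} : Set K)) : ℂ) =
      centralChar (ξ : K → ℂ) y * (((4 * charDegree (ξ : K → ℂ) : ℕ) : ℂ) / (Nat.card K : ℂ)) := by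
    have h7 : (Nat.card K : ℂ) = (Nat.card (Subgroup.centralizer ({y} : Set K)) : ℂ) *
        ((Subgroup.centralizer ({y} : Set K)).index : ℂ) := by
      rw [← Nat.cast_mul, Subgroup.card_mul_index]
    have h8 : ((Subgroup.centralizer ({y} : Set K)).index : ℂ) ≠ 0 := by
      exact_mod_cast Subgroup.index_ne_zero_of_finite
    have h9 : (Nat.card (Subgroup.centralizer ({y} : Set K)) : ℂ) ≠ 0 := by
      exact_mod_cast Nat.card_pos.ne'
    have h10 : (ξ : K → ℂ) 1 ≠ 0 := irr_apply_one_ne_zero ξ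
    rw [centralChar, h7]
    push_cast
    rw [← irr_one_eq ξ]
    field_simp
  rw [h6]
  exact MemLocalRing.mul h1 h5

end Column

section Expansion

variable {A : Type u} [Group A] [Fintype A] {M : Ideal AlgInt} [hp2 : Fact (Nat.Prime 2)]

open scoped Classical

/-- Data of the decomposition of a singular element. -/
theorem exists_sing_data {g x : A} (hpart : IsPPart 2 g x) (hxpow : x ∈ Subgroup.zpowers g) :
    ∃ y : Subgroup.centralizer ({x} : Set A), ((centElt x * y : Subgroup.centralizer ({x} : Set A)) : A) = g ∧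
      ¬ 2 ∣ orderOf y ∧
      Nat.card (Subgroup.centralizer ({g} : Set A)) = Nat.card (Subgroup.centralizer ({y} : Set (Subgroup.centralizer ({x} : Set A)))) := by
  obtain ⟨y, hy, hc, -, hr⟩ := hpart
  have hyH : y ∈ Subgroup.centralizer ({x} : Set A) := Subgroup.mem_centralizer_singleton_iff.mpr hc.symm.eq
  refine ⟨⟨y, hyH⟩, hy, ?_, ?_⟩
  · rw [Subgroup.orderOf_mk]
    exact hr
  · rw [Nat.card_congr (cenInf (Subgroup.centralizer ({x} : Set A)) ⟨y, hyH⟩).toEquiv]
    congr 1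
    apply congrArg (fun K : Subgroup A => (K : Type _))
    ext c
    simp only [Subgroup.mem_inf, Subgroup.mem_centralizer_singleton_iff]
    constructor
    · intro h
      have hcg : Commute c g := h
      have hcx : Commute c x := by
        obtain ⟨n, rfl⟩ := Subgroup.mem_zpowers_iff.mp hxpow
        exact hcg.zpow_right n
      have hcy : Commute c y := by
        have h1 : y = x⁻¹ * g := by rw [← hy]; group
        rw [h1]
        exact hcx.inv_right.mul_right hcg
      exact ⟨hcx, hcy⟩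
    · rintro ⟨h1, h2⟩
      rw [← hy]
      exact Commute.mul_right (a := c) (b := x) (c := y) h1 h2

end Expansion


section Types

variable {A : Type u} [Group A] [Fintype A] {M : Ideal AlgInt} [hp2 : Fact (Nat.Prime 2)]
variable [∀ x : A, Fintype (Subgroup.centralizer ({x} : Set A))]

open scoped Classical

/-- The hypothesis on the subsections. -/
def SubGood (M : Ideal AlgInt) (B : Set (IrrCharacter A)) : Prop :=
  ∀ x : A, (∃ k, orderOf x = 2 ^ k) → x ≠ 1 → ∀ b : Set (IrrCharacter (Subgroup.centralizer ({x} : Set A))),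
    IsInducedBlock M (Subgroup.centralizer ({x} : Set A)) b B → x ^ 2 = 1 ∧ Good4 b

theorem exists_reps_fun (M : Ideal AlgInt) [M.IsPrime] (B : Set (IrrCharacter A)) {H : Subgroup A} [Fintype H] :
    ∃ ξb : Set (IrrCharacter H) → IrrCharacter H, ∀ b : Set (IrrCharacter H), IsInducedBlock M H b B → ξb b ∈ b := by
  have h : ∀ b : Set (IrrCharacter H), ∃ ξ : IrrCharacter H, IsInducedBlock M H b B → ξ ∈ b := by
    intro b
    by_cases hb : IsInducedBlock M H b B
    · obtain ⟨ξ, hξ⟩ := IsPBlock.nonempty hb.1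
      exact ⟨ξ, fun _ => hξ⟩
    · exact ⟨⟨_, isIrrCharacter_one⟩, fun h => absurd h hb⟩
  choose ξb hξb using h
  exact ⟨ξb, hξb⟩

/-- The expansion at a singular element. -/
theorem sing_expand (hM : IsPModular 2 M) {B : Set (IrrCharacter A)} (hB : IsPBlock M B) (hSG : SubGood M B)
    {g x : A} (hpart : IsPPart 2 g x) (hxpow : x ∈ Subgroup.zpowers g) (hx1 : x ≠ 1)
    (ξb : Set (IrrCharacter (Subgroup.centralizer ({x} : Set A))) → IrrCharacter (Subgroup.centralizer ({x} : Set A)))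
    (hξb : ∀ b, IsInducedBlock M (Subgroup.centralizer ({x} : Set A)) b B → ξb b ∈ b) :
    have := isPrime_of_modular hM
    ∃ y : Subgroup.centralizer ({x} : Set A),
      Nat.card (Subgroup.centralizer ({g} : Set A)) = Nat.card (Subgroup.centralizer ({y} : Set (Subgroup.centralizer ({x} : Set A)))) ∧
      ∀ χ ∈ B, (χ : A → ℂ) g = ∑ b ∈ blF M (Subgroup.centralizer ({x} : Set A)) B, zB b (centElt x) χ * (ξb b : _ → ℂ) y := by
  intro hpr
  obtain ⟨y, hy, hr, hcard⟩ := exists_sing_data hpart hxpow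
  obtain ⟨-, -, -, hxp, -⟩ := id hpart
  refine ⟨y, hcard, fun χ hχ => ?_⟩
  have hxp' : ∃ k, orderOf ((centElt x : Subgroup.centralizer ({x} : Set A)) : A) = 2 ^ k := hxp
  have h1 := col_formula hM (mem_cent_iff x) hxp' hB (fun b hb => (hSG x hxp hx1 b hb).2) hχ ξb hξb
  have h2 := congrFun h1 y
  rw [pRegularPart_of_not_dvd _ hr, subF_apply, hy, Finset.sum_apply] at h2
  rw [h2]
  refine Finset.sum_congr rfl fun b _ => ?_
  rw [Pi.smul_apply, pRegularPart_of_not_dvd _ hr, smul_eq_mul]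

/-- The column of a block is balanced in the case of rank one. -/
theorem col_balanced (hM : IsPModular 2 M) {B : Set (IrrCharacter A)} (hB : IsPBlock M B) (hSG : SubGood M B)
    {x : A} (hxp : ∃ k, orderOf x = 2 ^ k) (hx1 : x ≠ 1)
    (hzero : ∀ y : Subgroup.centralizer ({x} : Set A), ¬ 2 ∣ orderOf y →
      ∑ χ ∈ Finset.univ.filter (· ∈ B), (χ : A → ℂ) (x * y) = 0)
    {b₀ : Set (IrrCharacter (Subgroup.centralizer ({x} : Set A)))}
    (hb₀ : IsInducedBlock M (Subgroup.centralizer ({x} : Set A)) b₀ B) :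
    ∑ χ ∈ Finset.univ.filter (· ∈ B), zB b₀ (centElt x) χ = 0 := by
  have := isPrime_of_modular hM
  obtain ⟨ξb, hξb⟩ := exists_reps_fun (H := Subgroup.centralizer ({x} : Set A)) M B
  have hxp' : ∃ k, orderOf ((centElt x : Subgroup.centralizer ({x} : Set A)) : A) = 2 ^ k := hxp
  have hg := fun b hb => (hSG x hxp hx1 b hb).2
  have hform := fun χ hχ => col_formula hM (mem_cent_iff x) hxp' hB hg (χ := χ) hχ ξb hξb
  -- the sum of the functions vanishes
  have h1 : ∑ χ ∈ Finset.univ.filter (· ∈ B), pRegularPart 2 (subF _ (centElt x) (χ : A → ℂ)) = 0 := by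
    funext a
    rw [Finset.sum_apply]
    by_cases ha : 2 ∣ orderOf a
    · simp [pRegularPart_of_dvd _ ha]
    · simp only [pRegularPart_of_not_dvd _ ha, subF_apply]
      exact hzero a ha
  have h2 : ∑ χ ∈ Finset.univ.filter (· ∈ B), pRegularPart 2 (subF _ (centElt x) (χ : A → ℂ)) =
      ∑ b ∈ blF M (Subgroup.centralizer ({x} : Set A)) B,
        (∑ χ ∈ Finset.univ.filter (· ∈ B), zB b (centElt x) χ) • pRegularPart 2 (ξb b : _ → ℂ) := by
    rw [Finset.sum_congr rfl fun χ hχ => hform χ (Finset.mem_filter.mp hχ).2, Finset.sum_comm]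
    refine Finset.sum_congr rfl fun b _ => ?_
    rw [Finset.sum_smul]
  rw [h2] at h1
  have h3 := congrArg (fun f => classInner f ((ξb b₀ : IrrCharacter _) : _ → ℂ)) h1
  simp only [classInner_sum_left, classInner_smul_left, classInner_zero_left] at h3
  have hm : b₀ ∈ blF M (Subgroup.centralizer ({x} : Set A)) B := mem_blF.mpr hb₀
  rw [Finset.sum_eq_single b₀ ?_ (fun h => absurd hm h),
    good_inner hM hb₀.1 (hg _ hb₀) _ (hξb _ hb₀) _ (hξb _ hb₀)] at h3
  · have h4 : (∑ χ ∈ Finset.univ.filter (· ∈ B), zB b₀ (centElt x) χ) * (1 / 4) = 0 := h3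
    have h5 := (mul_eq_zero.mp h4).resolve_right (by norm_num)
    exact h5
  · intro b hb hne
    have hbI := mem_blF.mp hb
    have hψ' : ξb b₀ ∉ b := by
      intro h
      exact hne ((blockOf_eq_of_mem hbI.1 h).trans (blockOf_eq_of_mem hb₀.1 (hξb _ hb₀)).symm)
    rw [classInner_pRegularPart_eq_zero hM hbI.1 (hξb b hbI) hψ', mul_zero]

theorem singular_mul {x : A} (hxp : ∃ k, orderOf x = 2 ^ k) (hx1 : x ≠ 1) (y : Subgroup.centralizer ({x} : Set A))
    (hy : ¬ 2 ∣ orderOf y) : 2 ∣ orderOf (x * (y : A)) := by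
  obtain ⟨k, hk⟩ := hxp
  have hk0 : k ≠ 0 := by
    rintro rfl
    rw [pow_zero, orderOf_eq_one_iff] at hk
    exact hx1 hk
  have hc : Commute x (y : A) := (Subgroup.mem_centralizer_singleton_iff.mp y.2).symm
  have hy' : ¬ 2 ∣ orderOf (y : A) := by rwa [Subgroup.orderOf_coe]
  have hcop : (orderOf x).Coprime (orderOf (y : A)) := by
    rw [hk]
    exact Nat.Coprime.pow_left _ ((Nat.Prime.coprime_iff_not_dvd Nat.prime_two).mpr hy')
  rw [hc.orderOf_mul_eq_mul_orderOf_of_coprime hcop, hk]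
  exact Dvd.dvd.mul_right (dvd_pow_self 2 hk0) _

/-- **The first type.** -/
theorem kleinOne_of (hM : IsPModular 2 M) {B : Set (IrrCharacter A)} (hB : IsPBlock M B) (hk : Nat.card B = 4)
    (hr : blockRank 2 B = 1) (hd : blockDefect 2 B = 2) (hSG : SubGood M B) : KleinOne M A B := by
  have := isPrime_of_modular hM
  have hsame : ∀ χ ∈ B, ∀ χ' ∈ B, ∀ a : A, ¬ 2 ∣ orderOf a → (χ : A → ℂ) a = (χ' : A → ℂ) a := by
    intro χ hχ χ' hχ' a ha
    have h1 := congrFun (good_same hM hB ⟨hr, hk, hd⟩ χ hχ χ' hχ') a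
    rwa [pRegularPart_of_not_dvd _ ha, pRegularPart_of_not_dvd _ ha] at h1
  have hzero : ∀ g : A, 2 ∣ orderOf g → ∑ χ ∈ Finset.univ.filter (· ∈ B), (χ : A → ℂ) g = 0 := by
    intro g hg
    obtain ⟨χ₀, hχ₀⟩ := IsPBlock.nonempty hB
    have h1 := weak_block_orthogonality hM hB (x := 1) (y := g) (by simp) hg
    have hset : B = ((Finset.univ.filter (· ∈ B) : Finset (IrrCharacter A)) : Set (IrrCharacter A)) := by
      ext χ
      simp
    rw [hset, finsum_mem_coe_finset] at h1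
    have h2 : ∀ χ ∈ Finset.univ.filter (· ∈ B), (χ : A → ℂ) 1 * conj ((χ : A → ℂ) g) = (χ₀ : A → ℂ) 1 * conj ((χ : A → ℂ) g) := by
      intro χ hχ
      rw [hsame χ (Finset.mem_filter.mp hχ).2 χ₀ hχ₀ 1 (by simp)]
    rw [Finset.sum_congr rfl h2, ← Finset.mul_sum, ← map_sum] at h1
    have h3 := (mul_eq_zero.mp h1).resolve_left (irr_apply_one_ne_zero χ₀)
    exact (map_eq_zero _).mp h3
  refine ⟨hsame, hzero, fun g hg => ?_⟩
  obtain ⟨α, hα⟩ := exists_isPExp A 2
  have hpart := hα.isPPart g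
  set x := g ^ α with hx
  have hxpow : x ∈ Subgroup.zpowers g := ⟨α, by simp [hx]⟩
  have hx1 : x ≠ 1 := by
    intro h
    rw [hx] at h
    exact hα.pow_eq_one_iff.mp h hg
  obtain ⟨-, -, -, hxp, -⟩ := id hpart
  obtain ⟨ξb, hξb⟩ := exists_reps_fun (H := Subgroup.centralizer ({x} : Set A)) M B
  obtain ⟨y, hcard, hexp⟩ := sing_expand hM hB hSG hpart hxpow hx1 ξb hξb
  have hxp' : ∃ k, orderOf ((centElt x : Subgroup.centralizer ({x} : Set A)) : A) = 2 ^ k := hxp
  have hx2 : (centElt x : Subgroup.centralizer ({x} : Set A)) ^ 2 = 1 → True := fun _ => trivial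
  have hcol : ∀ b : {b // b ∈ blF M (Subgroup.centralizer ({x} : Set A)) B}, ∃ z : IrrCharacter A → ℤ,
      (∀ χ, zB (b : Set _) (centElt x) χ = (z χ : ℂ)) ∧ ∀ χ ∈ B, z χ = 1 ∨ z χ = -1 := by
    rintro ⟨b, hb⟩
    have hbI := mem_blF.mp hb
    obtain ⟨h2, hG⟩ := hSG x hxp hx1 b hbI
    refine col_signs hM (mem_cent_iff x) hxp' ?_ hB hk hbI hG
    apply Subtype.ext
    simpa [centElt] using h2
  choose z hz hzs using hcol
  let e := (blF M (Subgroup.centralizer ({x} : Set A)) B).equivFin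
  refine ⟨(blF M (Subgroup.centralizer ({x} : Set A)) B).card, fun j => z (e.symm j),
    fun j => (ξb (e.symm j : Set _) : _ → ℂ) y, ?_, fun j => hzs _, ?_, fun j => ?_, fun j => ?_⟩
  · intro χ hχ
    rw [hexp χ hχ, ← Finset.sum_coe_sort, ← Equiv.sum_comp e.symm]
    refine Finset.sum_congr rfl fun j _ => ?_
    rw [hz]
  · intro j
    have hbI := mem_blF.mp (e.symm j).2
    have h1 := col_balanced hM hB hSG hxp hx1 (fun y hy => hzero _ (singular_mul hxp hx1 y hy)) hbI
    have h2 : ((∑ χ ∈ Finset.univ.filter (· ∈ B), z (e.symm j) χ : ℤ) : ℂ) = 0 := by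
      rw [Int.cast_sum, ← h1]
      refine Finset.sum_congr rfl fun χ _ => ?_
      rw [hz]
    exact_mod_cast h2
  · exact memLocalRing_of_isIntegral (irr_isIntegral _ _)
  · rw [hcard]
    have hbI := mem_blF.mp (e.symm j).2
    exact four_div_memLocalRing hM (hSG x hxp hx1 _ hbI).2 (hξb _ hbI) y

/-- **The second type.** -/
theorem kleinThree_of (hM : IsPModular 2 M) {B : Set (IrrCharacter A)} (hB : IsPBlock M B) (hk : Nat.card B = 4)
    (hr : blockRank 2 B = 3) (hSG : SubGood M B) : ∃ z, KleinThree M A B z := by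
  have := isPrime_of_modular hM
  obtain ⟨X, hX, hXrep, h1X⟩ := exists_reps_one (G := A) (p := 2)
  have hcount := card_eq_rank_add hM hB X hX hXrep h1X
  rw [hk, hr] at hcount
  have hF : ∀ x ∈ X.erase 1, ∑ᶠ b ∈ {b : Set (IrrCharacter (Subgroup.centralizer ({x} : Set A))) |
      IsInducedBlock M (Subgroup.centralizer ({x} : Set A)) b B}, blockRank 2 b =
      (blF M (Subgroup.centralizer ({x} : Set A)) B).card := by
    intro x hx
    obtain ⟨hx1, hxX⟩ := Finset.mem_erase.mp hx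
    rw [finsum_induced_eq_sum, Finset.card_eq_sum_ones]
    refine Finset.sum_congr rfl fun b hb => ?_
    exact (hSG x (hX x hxX) hx1 b (mem_blF.mp hb)).2.1
  rw [Finset.sum_congr rfl hF] at hcount
  have hsum : ∑ x ∈ X.erase 1, (blF M (Subgroup.centralizer ({x} : Set A)) B).card = 1 := by omega
  obtain ⟨x₀, hx₀, hne⟩ : ∃ x₀ ∈ X.erase 1, (blF M (Subgroup.centralizer ({x₀} : Set A)) B).card ≠ 0 := by
    by_contra hcon
    push Not at hcon
    rw [Finset.sum_eq_zero hcon] at hsum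
    exact zero_ne_one hsum
  have hle : (blF M (Subgroup.centralizer ({x₀} : Set A)) B).card ≤ 1 := by
    rw [← hsum]
    exact Finset.single_le_sum (f := fun x : A => (blF M (Subgroup.centralizer ({x} : Set A)) B).card) (fun _ _ => Nat.zero_le _) hx₀
  have hone : (blF M (Subgroup.centralizer ({x₀} : Set A)) B).card = 1 := by omega
  have hothers : ∀ x ∈ X.erase 1, x ≠ x₀ → (blF M (Subgroup.centralizer ({x} : Set A)) B).card = 0 := by
    intro x hx hxne
    have h1 : ∑ y ∈ {x, x₀}, (blF M (Subgroup.centralizer ({y} : Set A)) B).card ≤ 1 := by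
      rw [← hsum]
      refine Finset.sum_le_sum_of_subset ?_
      intro y hy
      simp only [Finset.mem_insert, Finset.mem_singleton] at hy
      rcases hy with rfl | rfl <;> assumption
    rw [Finset.sum_pair hxne] at h1
    omega
  obtain ⟨b₀, hb₀⟩ := Finset.card_eq_one.mp hone
  obtain ⟨hx₀1, hx₀X⟩ := Finset.mem_erase.mp hx₀
  have hb₀I : IsInducedBlock M (Subgroup.centralizer ({x₀} : Set A)) b₀ B := mem_blF.mp (by rw [hb₀]; simp)
  have hxp₀ := hX x₀ hx₀X
  obtain ⟨hx₀2, hG₀⟩ := hSG x₀ hxp₀ hx₀1 b₀ hb₀I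
  have hxp₀' : ∃ k, orderOf ((centElt x₀ : Subgroup.centralizer ({x₀} : Set A)) : A) = 2 ^ k := hxp₀
  obtain ⟨z, hz, hzs⟩ := col_signs hM (mem_cent_iff x₀) hxp₀' (by
    apply Subtype.ext
    simpa [centElt] using hx₀2) hB hk hb₀I hG₀
  obtain ⟨ξb, hξb⟩ := exists_reps_fun (H := Subgroup.centralizer ({x₀} : Set A)) M B
  obtain ⟨α, hα⟩ := exists_isPExp A 2
  -- the value at a singular element
  have hval : ∀ (g : A), 2 ∣ orderOf g → ∃ f : ℂ, (∀ χ ∈ B, (χ : A → ℂ) g = (z χ : ℂ) * f) ∧ MemLocalRing M f ∧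
      MemLocalRing M (4 * f / (Nat.card (Subgroup.centralizer ({g} : Set A)) : ℂ)) := by
    intro g hg
    have hpart := hα.isPPart g
    have hg1 : g ^ α ≠ 1 := fun h => hα.pow_eq_one_iff.mp h hg
    obtain ⟨y₀, hy₀, hc₀, hxp₁, hr₀⟩ := id hpart
    obtain ⟨x, ⟨hxX, hgx⟩, -⟩ := hXrep (g ^ α) hxp₁
    obtain ⟨c, hc⟩ := isConj_iff.mp hgx
    have hx1 : x ≠ 1 := by
      intro h
      rw [h, isConj_one_left] at hgx
      exact hg1 hgx
    set g' := c * g * c⁻¹ with hg'
    have hpart' : IsPPart 2 g' x := by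
      refine ⟨c * y₀ * c⁻¹, ?_, ?_, hX x hxX, ?_⟩
      · rw [← hc, hg']
        conv_rhs => rw [← hy₀]
        group
      · rw [← hc]
        show c * g ^ α * c⁻¹ * (c * y₀ * c⁻¹) = c * y₀ * c⁻¹ * (c * g ^ α * c⁻¹)
        have h1 : g ^ α * y₀ = y₀ * g ^ α := hc₀
        generalize g ^ α = a at h1
        calc c * a * c⁻¹ * (c * y₀ * c⁻¹) = c * (a * y₀) * c⁻¹ := by group
          _ = c * (y₀ * a) * c⁻¹ := by rw [h1]
          _ = c * y₀ * c⁻¹ * (c * a * c⁻¹) := by group
      · rwa [orderOf_conj]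
    have hxpow' : x ∈ Subgroup.zpowers g' := by
      refine ⟨(α : ℤ), ?_⟩
      show g' ^ (α : ℤ) = x
      rw [zpow_natCast, hg', conj_pow, hc]
    have hcl : ∀ χ : IrrCharacter A, (χ : A → ℂ) g' = (χ : A → ℂ) g := fun χ =>
      irr_isClassFunction χ g c
    have hcardc : Nat.card (Subgroup.centralizer ({g} : Set A)) = Nat.card (Subgroup.centralizer ({g'} : Set A)) :=
      Nat.card_congr (cenSingletonConj c g).toEquiv
    by_cases hxx : x = x₀
    · subst hxx
      obtain ⟨y, hcard, hexp⟩ := sing_expand hM hB hSG hpart' hxpow' hx1 ξb hξb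
      refine ⟨(ξb b₀ : _ → ℂ) y, fun χ hχ => ?_, memLocalRing_of_isIntegral (irr_isIntegral _ _), ?_⟩
      · rw [← hcl, hexp χ hχ, hb₀, Finset.sum_singleton, hz]
      · rw [hcardc, hcard]
        exact four_div_memLocalRing hM hG₀ (hξb _ hb₀I) y
    · have h0 := Finset.card_eq_zero.mp (hothers x (Finset.mem_erase.mpr ⟨hx1, hxX⟩) hxx)
      obtain ⟨ξb', hξb'⟩ := exists_reps_fun (H := Subgroup.centralizer ({x} : Set A)) M B
      obtain ⟨y, -, hexp⟩ := sing_expand hM hB hSG hpart' hxpow' hx1 ξb' hξb'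
      refine ⟨0, fun χ hχ => ?_, memLocalRing_zero, by simpa using memLocalRing_zero⟩
      rw [← hcl, hexp χ hχ, h0]
      simp
  have hsing₀ : 2 ∣ orderOf x₀ := by
    obtain ⟨k, hk⟩ := hxp₀
    have hk0 : k ≠ 0 := by
      rintro rfl
      rw [pow_zero, orderOf_eq_one_iff] at hk
      exact hx₀1 hk
    rw [hk]
    exact dvd_pow_self 2 hk0
  refine ⟨z, ⟨hzs, fun a ha => ?_, hval⟩⟩
  have h1 := weak_block_orthogonality hM hB (x := a) (y := x₀) ha hsing₀
  have hset : B = ((Finset.univ.filter (· ∈ B) : Finset (IrrCharacter A)) : Set (IrrCharacter A)) := by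
    ext χ
    simp
  rw [hset, finsum_mem_coe_finset] at h1
  have hv : ∀ χ ∈ Finset.univ.filter (· ∈ B), (χ : A → ℂ) a * conj ((χ : A → ℂ) x₀) =
      ((z χ : ℂ) * (χ : A → ℂ) a) * conj (((ξb b₀ : IrrCharacter _) : Subgroup.centralizer ({x₀} : Set A) → ℂ) 1) := by
    intro χ hχ
    have h2 := congrFun (col_formula hM (mem_cent_iff x₀) hxp₀' hB (fun b hb => (hSG x₀ hxp₀ hx₀1 b hb).2)
      (Finset.mem_filter.mp hχ).2 ξb hξb) 1
    rw [pRegularPart_of_not_dvd _ (by simp), subF_apply, hb₀, Finset.sum_singleton, Pi.smul_apply,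
      pRegularPart_of_not_dvd _ (by simp), smul_eq_mul, hz] at h2
    have h3 : (χ : A → ℂ) x₀ = (z χ : ℂ) * ((ξb b₀ : IrrCharacter _) : Subgroup.centralizer ({x₀} : Set A) → ℂ) 1 := by
      rw [← h2]
      simp [centElt]
    rw [h3, map_mul, map_intCast]
    ring
  rw [Finset.sum_congr rfl hv, ← Finset.sum_mul] at h1
  have h4 : conj (((ξb b₀ : IrrCharacter _) : Subgroup.centralizer ({x₀} : Set A) → ℂ) 1) ≠ 0 := fun h =>
    irr_apply_one_ne_zero _ ((map_eq_zero _).mp h)
  exact (mul_eq_zero.mp h1).resolve_right h4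

end Types

end Cfsg.Agent.Lib.H8Group.KP
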