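import Mathlib
import Cfsg.Agent.Lib.H8Group.KleinCols
import Cfsg.Agent.S4637

/-!
# The subsections of a block with a Klein four defect group
-/

set_option autoImplicit false
set_option linter.unusedSectionVars false
set_option linter.style.haveILetI false

namespace Cfsg.Agent.Lib.H8Group.KP

open Cfsg Cfsg.Agent.Lib.Char Cfsg.Agent.Lib.Blocks Cfsg.Agent.Lib.H8Group
open scoped ComplexConjugate

universe u v

section Transport

variable {H G : Type u} [Group H] [Group G] [Fintype H] [Fintype G]

theorem natCard_transBlock (e : H ≃* G) (B : Set (IrrCharacter G)) : Nat.card (transBlock e B) = Nat.card B := by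
  refine Nat.card_congr ((Equiv.subtypeEquiv (irrCompEquiv e) ?_).symm)
  intro χ
  exact (mem_blockPull e (B := B) (χ := χ)).symm

theorem good4_transBlock {e : H ≃* G} {B : Set (IrrCharacter G)} (h : Good4 (transBlock e B)) : Good4 B := by
  obtain ⟨h1, h2, h3⟩ := h
  refine ⟨?_, ?_, ?_⟩
  · have : blockRank 2 (blockPull e B) = blockRank 2 B := blockRank_blockPull e B
    rw [← this]
    exact h1
  · rw [← natCard_transBlock e B]
    exact h2
  · have : blockDefect 2 (blockPull e B) = blockDefect 2 B := blockDefect_blockPull e 2 B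
    rw [← this]
    exact h3

end Transport

section Sub

variable {G : Type u} [Group G] [Fintype G] {M : Ideal AlgInt} [hp2 : Fact (Nat.Prime 2)]

open scoped Classical

/-- The block of a subsection below a maximal pair. -/
theorem good_of_subpairLE (hM : IsPModular 2 M) {B : Set (IrrCharacter G)} (hB : IsPBlock M B) {P : Subgroup G}
    (hPD : IsDefectGroup 2 M B P) (hV : IsKleinFour P)
    {c : Set (IrrCharacter (Subgroup.centralizer (P : Set G)))} (hcb : IsBrauerPairOf 2 M B P c)
    {u : G} (hu : u ∈ P) (hu1 : u ≠ 1)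
    {f'' : Set (IrrCharacter (Subgroup.centralizer ((Subgroup.zpowers u : Subgroup G) : Set G)))}
    (hf'' : SubpairLE 2 M (Subgroup.zpowers u) f'' P c) : Good4 f'' := by
  have := isPrime_of_modular hM
  have hPp : IsPGroup 2 P := IsDefectGroup.isPGroup hPD
  letI : Fintype (Subgroup.centralizer (P : Set G)) := Fintype.ofFinite _
  letI : ∀ u : G, Fintype (Subgroup.centralizer ((Subgroup.zpowers u : Subgroup G) : Set G)) := fun _ => Fintype.ofFinite _
  have hc : IsInducedBlock M (Subgroup.centralizer (P : Set G)) c B := (isBrauerPairOf_iff hM hPp hcb.1.2).mp hcb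
  have hmax := isMaximalBrauerPair_of_defect hM hcb hPD
  have hcardP : Nat.card P = 4 := hV.card_four
  have hexp : ∀ x ∈ P, x * x = 1 := fun x hx => congrArg Subtype.val (IsKleinFour.mul_self (⟨x, hx⟩ : P))
  have hab : ∀ x ∈ P, ∀ y ∈ P, x * y = y * x := by
    intro x hx y hy
    have := mul_comm_of_exponent_two hV.exponent_two (⟨x, hx⟩ : P) ⟨y, hy⟩
    exact congrArg Subtype.val this
  let T : Subgroup G := stabOfBlock P c
  have hT : ∀ g : G, g ∈ T ↔ (g ∈ Subgroup.normalizer (P : Set G) ∧ StabilizesBlock (Subgroup.centralizer (P : Set G)) c g) :=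
    fun g => mem_stabOfBlock
  have hTN : T ≤ Subgroup.normalizer (P : Set G) := fun t ht => ((hT t).mp ht).1
  have hreg : ∀ t ∈ T, (∃ k : ℕ, orderOf t = 2 ^ k) → t ∈ Subgroup.centralizer (P : Set G) := by
    intro t ht hk
    obtain ⟨h1, h2⟩ := (hT t).mp ht
    have h3 := Cfsg.Agent.Lib.Char.MP.mem_sup_of_maximal hM hmax h1 h2 hk
    have h4 : P ≤ Subgroup.centralizer (P : Set G) := fun x hx =>
      Subgroup.mem_centralizer_iff.mpr (fun y hy => hab y hy x hx)
    rwa [sup_eq_right.mpr h4] at h3
  have hfree : ∀ g ∈ T, ∀ x ∈ P, x ≠ 1 → g * x * g⁻¹ = x → g ∈ Subgroup.centralizer (P : Set G) :=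
    fun g hg x hx hx1 hgx => klein_free hcardP hexp hTN hreg hg hx hx1 hgx
  have hP1 : P ≠ ⊥ := by
    intro h
    rw [h] at hu
    exact hu1 (Subgroup.mem_bot.mp hu)
  have hPe := hmax.1.1
  have hQP : Subgroup.zpowers u ≤ P := by
    rw [Subgroup.zpowers_le]
    exact hu
  have hQ1 : Subgroup.zpowers u ≠ ⊥ := fun h => hu1 (Subgroup.zpowers_eq_bot.mp h)
  letI : Fintype (Subgroup.centralizer ((P.subgroupOf (Subgroup.centralizer ((Subgroup.zpowers u : Subgroup G) : Set G)) : Subgroup _) : Set (Subgroup.centralizer ((Subgroup.zpowers u : Subgroup G) : Set G)))) :=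
    Fintype.ofFinite _
  have hPW := cenData_of_abelian hQP hab
  have hcd0 : CenData (P.subgroupOf (Subgroup.centralizer ((Subgroup.zpowers u : Subgroup G) : Set G))) P :=
    cenData_of_le le_rfl hPW hQP
  obtain ⟨f', hf'⟩ := exists_isInducedBlock_cent hM (isPGroup_subgroupOf hPp _)
    (isPBlock_transBlock (cenTrans hcd0) hc.1)
  have hfIn := in_of_isInducedBlock hcd0 hc.1 hf'
  obtain ⟨hcd, hle, hmax'⟩ := isMaximalBrauerPair_in_centralizer hM hmax hab hQP hfIn
  have hff' : f'' = f' := subpairLE_unique hM hPe _ hQP _ _ hf'' hle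
  have hnil : IsNilpotentBlock 2 M f' :=
    (Cfsg.Agent.S4650.result 2 M hM B hB P hPD hab hP1 c hc T hT).mp hfree _ hQP hQ1 f' hfIn
  have hDf' : IsDefectGroup 2 M f' (P.subgroupOf (Subgroup.centralizer ((Subgroup.zpowers u : Subgroup G) : Set G))) :=
    isDefectGroup_of_isMaximalBrauerPair hM hmax'
  have hab' : ∀ x ∈ P.subgroupOf (Subgroup.centralizer ((Subgroup.zpowers u : Subgroup G) : Set G)),
      ∀ y ∈ P.subgroupOf (Subgroup.centralizer ((Subgroup.zpowers u : Subgroup G) : Set G)), x * y = y * x := by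
    intro x hx y hy
    apply Subtype.ext
    exact hab _ (Subgroup.mem_subgroupOf.mp hx) _ (Subgroup.mem_subgroupOf.mp hy)
  obtain ⟨hl1, hk1⟩ := nilpotent_abelian_aux hM _ (Subgroup.centralizer ((Subgroup.zpowers u : Subgroup G) : Set G)) rfl f' _ hnil hDf' hab'
  have hfB' : IsPBlock M f' := isPBlock_of_subpairLE hM hPe hle
  have hdef' : blockDefect 2 f' = 2 := by
    have h1 := card_defectGroup hM hfB' hDf'
    rw [Nat.card_congr (Subgroup.subgroupOfEquivOfLe hPW).toEquiv, hcardP] at h1
    have h2 : (2 : ℕ) ^ 2 = 2 ^ blockDefect 2 f' := h1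
    exact (Nat.pow_right_injective le_rfl h2).symm
  rw [hff']
  refine ⟨hl1, ?_, hdef'⟩
  rw [hk1, Nat.card_congr (Subgroup.subgroupOfEquivOfLe hPW).toEquiv, hcardP]

/-- **All the subsections of a block with a Klein four defect group are good.** -/
theorem klein_subGood [∀ x : G, Fintype (Subgroup.centralizer ({x} : Set G))] (hM : IsPModular 2 M) {B : Set (IrrCharacter G)}
    (hB : IsPBlock M B) {P : Subgroup G} (hPD : IsDefectGroup 2 M B P) (hV : IsKleinFour P) : SubGood M B := by
  have := isPrime_of_modular hM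
  have hPp : IsPGroup 2 P := IsDefectGroup.isPGroup hPD
  obtain ⟨c, hcb⟩ := Cfsg.Agent.Lib.Char.BK.exists_isBrauerPairOf_of_isDefectGroup hM hB hPD
  have hmax := isMaximalBrauerPair_of_defect hM hcb hPD
  have hexp : ∀ x ∈ P, x * x = 1 := fun x hx => congrArg Subtype.val (IsKleinFour.mul_self (⟨x, hx⟩ : P))
  intro x hxp hx1
  have key : ∀ (H : Subgroup G) [Fintype H], H = Subgroup.centralizer ((Subgroup.zpowers x : Subgroup G) : Set G) →
      ∀ b : Set (IrrCharacter H), IsInducedBlock M H b B → x ^ 2 = 1 ∧ Good4 b := by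
    rintro H _ rfl b hb
    letI : Fintype (Subgroup.centralizer ((Subgroup.zpowers x : Subgroup G) : Set G)) := Fintype.ofFinite _
    have hpr : IsBrauerPairOf 2 M B (Subgroup.zpowers x) b := (isBrauerPairOf_iff hM (isPGroup_zpowers hxp) hb.1).mpr (by convert hb)
    obtain ⟨g, hg⟩ := exists_conj_subpairLE hM hmax hpr
    have h0 : conjS g (Subgroup.zpowers x) = Subgroup.zpowers (g * x * g⁻¹) := conjS_zpowers g x
    have hle₀ : SubpairLE 2 M (Subgroup.zpowers (g * x * g⁻¹)) (conjB g h0 b) P c := subpairLE_of_eq rfl h0 hg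
    have hu₀P : g * x * g⁻¹ ∈ P := le_of_subpairLE hle₀ (Subgroup.mem_zpowers _)
    have hu₀1 : g * x * g⁻¹ ≠ 1 := by
      intro h
      apply hx1
      have h2 : g * x = g := by
        have := congrArg (· * g) h
        simpa using this
      exact mul_eq_left.mp h2
    have hgood := good_of_subpairLE hM hB hPD hV hcb hu₀P hu₀1 hle₀
    refine ⟨?_, ?_⟩
    · have h2 := hexp _ hu₀P
      have h3 : g * (x * x) * g⁻¹ = 1 := by
        rw [← h2]
        group
      have h4 : x * x = 1 := by
        have h5 : g * (x * x) = g := by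
          have := congrArg (· * g) h3
          simpa using this
        exact mul_eq_left.mp h5
      rw [pow_two]
      exact h4
    · rw [conjB_eq_transBlock] at hgood
      exact good4_transBlock hgood
  intro b hb
  exact key _ (centralizer_zpowers_eq x).symm b hb

end Sub

end Cfsg.Agent.Lib.H8Group.KP
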