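import Cfsg.Agent.Lib.H8Group.MajorTwo
import Cfsg.Agent.Lib.H8Group.ComplLattice

/-!
# The polarised form on the rows of a subsection, the conjugate sections and the complementary form
-/

set_option autoImplicit false
set_option linter.unusedSectionVars false
set_option linter.style.haveILetI false

namespace Cfsg.Agent.Lib.H8Group

open Cfsg Cfsg.Agent.Lib.Char Cfsg.Agent.Lib.Blocks
open scoped ComplexConjugate

universe u

section Polar

variable {G : Type u} [Group G] [Fintype G] {M : Ideal AlgInt} {p : ℕ} [hp : Fact p.Prime]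

open scoped Classical

/-- The polarised form at two complex vectors. -/
noncomputable def polQ {ι : Type*} [Fintype ι] (Q : ι → ι → ℤ) (D D' : ι → ℂ) : ℂ :=
  ∑ i, ∑ i', D i * conj (D' i') * (Q i i' : ℂ)

theorem polQ_self {ι : Type*} [Fintype ι] (Q : ι → ι → ℤ) (D : ι → ℂ) : polQ Q D D = hq Q D := rfl

theorem polQ_tMat (hM : IsPModular p M) {B : Set (IrrCharacter G)} (hB : IsPBlock M B)
    (D D' : {ψ : IrrCharacter G // ψ ∈ B} → ℂ) :
    polQ (tMat p B) D D' = ((p ^ blockDefect p B : ℕ) : ℂ) * classInner (pRegularPart p (vecFun B D)) (vecFun B D') := by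
  rw [pRegularPart_vecFun, classInner_sum_left, Finset.mul_sum, polQ]
  refine Finset.sum_congr rfl fun ψ _ => ?_
  rw [classInner_smul_left, vecFun, classInner_sum_right, mul_left_comm, Finset.mul_sum, Finset.mul_sum]
  refine Finset.sum_congr rfl fun ξ _ => ?_
  rw [classInner_smul_right]
  have h := pow_defect_mul_classInner hM hB ψ.2 ξ.1
  simp only [tMat]
  rw [← h]
  ring

end Polar

section Rows

variable {G : Type u} [Group G] [Fintype G] {M : Ideal AlgInt} {p : ℕ} [hp : Fact p.Prime]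
variable {H : Subgroup G} [Fintype H] {x : H}

open scoped Classical

/-- A projection can be moved across the scalar product. -/
theorem classInner_projOp_idem (e : Set (IrrCharacter H)) {u f : H → ℂ} (hu : IsClassFunction H u)
    (hf : IsClassFunction H f) :
    classInner (projOp (indic e) u) f = classInner (projOp (indic e) u) (projOp (indic e) f) := by
  classical
  rw [classInner_projOp_projOp e hu hf, classInner_projOp_left _ hu]
  refine Finset.sum_congr rfl fun ψ _ => ?_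
  rw [classInner_conj_symm (ψ : H → ℂ) f]

/-- The polarised form on the rows of a subsection. -/
noncomputable def polF (p : ℕ) [hp : Fact p.Prime] (b : Set (IrrCharacter H)) (x : H) (j : ℕ) (χ τ : IrrCharacter G) : ℂ :=
  polQ (tMat p b) (rowD b χ x j) (rowD b τ x j)

theorem polF_self (b : Set (IrrCharacter H)) (j : ℕ) (χ : IrrCharacter G) :
    polF p b x j χ χ = hq (tMat p b) (rowD b χ x j) := rfl

/-- The part in the block `b` of the subsection function. -/
noncomputable def yFun (b : Set (IrrCharacter H)) (u : H) (χ : IrrCharacter G) : H → ℂ :=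
  projOp (indic b) (subF H u (χ : G → ℂ))

theorem yFun_isClassFunction {u : H} (hHu : ∀ w : G, w ∈ H ↔ Commute w ((u : H) : G)) (b : Set (IrrCharacter H))
    (χ : IrrCharacter G) : IsClassFunction H (yFun b u χ) :=
  projOp_isClassFunction _ (subF_isClassFunction hHu (irr_isClassFunction χ))

theorem polF_eq (hM : IsPModular p M) (hH : ∀ w : G, w ∈ H ↔ Commute w (x : G))
    (hxp : ∃ k, orderOf (x : G) = p ^ k) {b : Set (IrrCharacter H)} (hb : IsPBlock M b) {j : ℕ} (hj : ¬ p ∣ j)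
    (χ τ : IrrCharacter G) :
    polF p b x j χ τ = ((p ^ blockDefect p b : ℕ) : ℂ) *
      classInner (pRegularPart p (yFun b (x ^ j) χ)) (yFun b (x ^ j) τ) := by
  have hH' := hH_pow hH hxp hj
  have hf := fun χ : IrrCharacter G => subF_isClassFunction hH' (irr_isClassFunction χ)
  rw [polF, polQ_tMat hM hb, yFun, yFun, projOp_subF_eq_vecFun hH (hf χ), projOp_subF_eq_vecFun hH (hf τ)]

/-- The scalar product with a subsection function only sees the block part. -/
theorem classInner_reg_yFun_subF (hM : IsPModular p M) {u : H} (hHu : ∀ w : G, w ∈ H ↔ Commute w ((u : H) : G))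
    {b : Set (IrrCharacter H)} (hb : IsPBlock M b) (χ ψ : IrrCharacter G) :
    classInner (pRegularPart p (yFun b u χ)) (subF H u (ψ : G → ℂ)) =
      classInner (pRegularPart p (yFun b u χ)) (yFun b u ψ) := by
  have := isPrime_of_modular hM
  have hf := fun χ : IrrCharacter G => subF_isClassFunction hHu (irr_isClassFunction χ)
  simp only [yFun]
  rw [pRegularPart_projOp hM hb (hf χ)]
  exact classInner_projOp_idem b (pRegularPart_isClassFunction (hf χ)) (hf ψ)

/-- The idempotent identity for the scalar products of the block parts. -/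
theorem sum_reg_yFun (hM : IsPModular p M) {u : H} (hHu : ∀ w : G, w ∈ H ↔ Commute w ((u : H) : G))
    (hup : ∃ k, orderOf ((u : H) : G) = p ^ k) {b : Set (IrrCharacter H)} (hb : IsPBlock M b) (χ τ : IrrCharacter G) :
    ∑ ψ : IrrCharacter G, classInner (pRegularPart p (yFun b u χ)) (yFun b u ψ) *
      classInner (pRegularPart p (yFun b u ψ)) (yFun b u τ) =
      classInner (pRegularPart p (yFun b u χ)) (yFun b u τ) := by
  have h1 := sum_subF_mul_conj (p := p) (φ := yFun b u χ) hHu hup (yFun_isClassFunction hHu b τ)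
  rw [← h1]
  refine Finset.sum_congr rfl fun ψ _ => ?_
  rw [classInner_reg_yFun_subF hM hHu hb χ ψ, classInner_reg_yFun_subF hM hHu hb τ ψ, conj_classInner_regular]

theorem sum_polF_mul (hM : IsPModular p M) (hH : ∀ w : G, w ∈ H ↔ Commute w (x : G))
    (hxp : ∃ k, orderOf (x : G) = p ^ k) {b : Set (IrrCharacter H)} (hb : IsPBlock M b) {j : ℕ} (hj : ¬ p ∣ j)
    (χ τ : IrrCharacter G) :
    ∑ ψ : IrrCharacter G, polF p b x j χ ψ * polF p b x j ψ τ =
      ((p ^ blockDefect p b : ℕ) : ℂ) * polF p b x j χ τ := by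
  have h1 := sum_reg_yFun hM (hH_pow hH hxp hj) (hxp_pow hxp j) hb χ τ
  simp only [polF_eq hM hH hxp hb hj]
  rw [← h1, Finset.mul_sum, Finset.mul_sum]
  refine Finset.sum_congr rfl fun ψ _ => ?_
  ring

/-- The block part of the regular part vanishes off the induced block. -/
theorem reg_yFun_eq_zero (hM : IsPModular p M) {u : H} (hHu : ∀ w : G, w ∈ H ↔ Commute w ((u : H) : G))
    (hup : ∃ k, orderOf ((u : H) : G) = p ^ k) {b : Set (IrrCharacter H)} {B : Set (IrrCharacter G)}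
    (hind : IsInducedBlock M H b B) {ψ : IrrCharacter G} (hψ : ψ ∉ B) (f : H → ℂ) :
    classInner (pRegularPart p (yFun b u ψ)) f = 0 := by
  have := isPrime_of_modular hM
  have hf := subF_isClassFunction hHu (irr_isClassFunction ψ)
  simp only [yFun]
  rw [pRegularPart_projOp hM hind.1 hf, classInner_projOp_left _ (pRegularPart_isClassFunction hf)]
  refine Finset.sum_eq_zero fun ξ _ => ?_
  by_cases hξ : ξ ∈ b
  · rw [classInner_subF_eq_zero hM hHu hup hind hψ hξ]
    ring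
  · rw [indic_apply_of_notMem hξ, zero_mul]

theorem polF_eq_zero (hM : IsPModular p M) (hH : ∀ w : G, w ∈ H ↔ Commute w (x : G))
    (hxp : ∃ k, orderOf (x : G) = p ^ k) {b : Set (IrrCharacter H)} {B : Set (IrrCharacter G)}
    (hind : IsInducedBlock M H b B) {j : ℕ} (hj : ¬ p ∣ j) {ψ : IrrCharacter G} (hψ : ψ ∉ B)
    (τ : IrrCharacter G) : polF p b x j ψ τ = 0 := by
  rw [polF_eq hM hH hxp hind.1 hj, reg_yFun_eq_zero hM (hH_pow hH hxp hj) (hxp_pow hxp j) hind hψ, mul_zero]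

/-- The conjugation by `g` as an automorphism of the common centralizer. -/
theorem exists_conjEquiv {u u' : H} (hHu : ∀ w : G, w ∈ H ↔ Commute w ((u : H) : G))
    (hHu' : ∀ w : G, w ∈ H ↔ Commute w ((u' : H) : G)) {g : G} (hg : g * u * g⁻¹ = u') :
    ∃ e : H ≃* H, ∀ s : H, ((e s : H) : G) = g * s * g⁻¹ := by
  have hf : ∀ s : H, g * s * g⁻¹ ∈ H := by
    intro s
    rw [hHu', ← hg]
    have h1 : Commute (s : G) (u : G) := (hHu s).mp s.2
    have h3 : Commute (g * s * g⁻¹) (g * u * g⁻¹) := by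
      rw [Commute, SemiconjBy]
      have h4 : (s : G) * u = u * s := h1
      calc g * s * g⁻¹ * (g * u * g⁻¹) = g * (s * u) * g⁻¹ := by group
        _ = g * (u * s) * g⁻¹ := by rw [h4]
        _ = g * u * g⁻¹ * (g * s * g⁻¹) := by group
    exact h3
  have hf' : ∀ s : H, g⁻¹ * s * g ∈ H := by
    intro s
    rw [hHu]
    have h1 : Commute (s : G) (u' : G) := (hHu' s).mp s.2
    have h4 : (s : G) * u' = u' * s := h1
    rw [Commute, SemiconjBy]
    have hu : (u : G) = g⁻¹ * u' * g := by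
      rw [← hg]
      group
    rw [hu]
    calc g⁻¹ * s * g * (g⁻¹ * u' * g) = g⁻¹ * (s * u') * g := by group
      _ = g⁻¹ * (u' * s) * g := by rw [h4]
      _ = g⁻¹ * u' * g * (g⁻¹ * s * g) := by group
  refine ⟨{ toFun := fun s => ⟨g * s * g⁻¹, hf s⟩
            invFun := fun s => ⟨g⁻¹ * s * g, hf' s⟩
            left_inv := fun s => Subtype.ext (by
              show g⁻¹ * (g * s * g⁻¹) * g = s
              group)
            right_inv := fun s => Subtype.ext (by
              show g * (g⁻¹ * s * g) * g⁻¹ = s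
              group)
            map_mul' := fun s t => Subtype.ext (by
              show g * ((s : G) * t) * g⁻¹ = (g * s * g⁻¹) * (g * t * g⁻¹)
              group) }, fun s => rfl⟩

/-- The conjugation transports subsection functions. -/
theorem subF_comp_conj {u u' : H} {g : G} (hg : g * u * g⁻¹ = u') {e : H ≃* H} (he : ∀ s : H, ((e s : H) : G) = g * s * g⁻¹)
    {θ : G → ℂ} (hθ : IsClassFunction G θ) : subF H u' θ ∘ e = subF H u θ := by
  funext s
  simp only [Function.comp_apply, subF_apply]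
  have h1 : ((u' * e s : H) : G) = g * ((u * s : H) : G) * g⁻¹ := by
    simp only [Subgroup.coe_mul, he, ← hg]
    group
  rw [h1]
  exact hθ _ _

/-- The regular part commutes with an automorphism. -/
theorem pRegularPart_comp (e : H ≃* H) (f : H → ℂ) : pRegularPart p f ∘ e = pRegularPart p (f ∘ e) := by
  funext s
  simp only [Function.comp_apply]
  by_cases hs : p ∣ orderOf s
  · have h1 : p ∣ orderOf (e s) := by rwa [MulEquiv.orderOf_eq]
    rw [pRegularPart_of_dvd _ h1, pRegularPart_of_dvd _ hs]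
  · have h1 : ¬ p ∣ orderOf (e s) := by rwa [MulEquiv.orderOf_eq]
    rw [pRegularPart_of_not_dvd _ h1, pRegularPart_of_not_dvd _ hs]
    rfl

/-- **Two sections conjugate in the sense of subsections have the same form.** -/
theorem classInner_reg_yFun_conj {u u' : H} {g : G} (hg : g * u * g⁻¹ = u') {e : H ≃* H}
    (he : ∀ s : H, ((e s : H) : G) = g * s * g⁻¹) {b : Set (IrrCharacter H)} (hbe : transBlock e b = b)
    (χ τ : IrrCharacter G) :
    classInner (pRegularPart p (yFun b u' χ)) (yFun b u' τ) =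
      classInner (pRegularPart p (yFun b u χ)) (yFun b u τ) := by
  have h1 : ∀ ξ : IrrCharacter G, yFun b u' ξ ∘ e = yFun b u ξ := by
    intro ξ
    funext s
    simp only [yFun, Function.comp_apply]
    rw [← projOp_transBlock e b, subF_comp_conj hg he (irr_isClassFunction ξ), hbe]
  rw [← classInner_comp_mulEquiv e, pRegularPart_comp, h1, h1]

/-- The conjugacy of the subsections attached to two elements. -/
def SecConj (b : Set (IrrCharacter H)) (u u' : H) : Prop :=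
  ∃ (g : G) (e : H ≃* H), g * u * g⁻¹ = u' ∧ (∀ s : H, ((e s : H) : G) = g * s * g⁻¹) ∧ transBlock e b = b

/-- **The sections of non conjugate subsections are orthogonal.** -/
theorem cross_eq_zero (hM : IsPModular p M) {u u' : H} (hHu : ∀ w : G, w ∈ H ↔ Commute w ((u : H) : G))
    (hHu' : ∀ w : G, w ∈ H ↔ Commute w ((u' : H) : G))
    (hup : ∃ k, orderOf ((u : H) : G) = p ^ k) (hup' : ∃ k, orderOf ((u' : H) : G) = p ^ k)
    {α : ℕ} (hα : IsPExp p G α) {b : Set (IrrCharacter H)} (hb : IsPBlock M b) (hno : ¬ SecConj b u u')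
    (χ χ' : IrrCharacter G) :
    classInner (indFun H (liftFun H u α (yFun b u χ))) (indFun H (liftFun H u' α (yFun b u' χ'))) = 0 := by
  have := isPrime_of_modular hM
  rw [classInner_lift_left hHu hα hup _ (isClassFunction_indFun H _)]
  by_cases hc : ∃ g : G, g * u * g⁻¹ = u'
  · obtain ⟨g, hg⟩ := hc
    obtain ⟨e, he⟩ := exists_conjEquiv hHu hHu' hg
    have hbe : transBlock e b ≠ b := fun h => hno ⟨g, e, hg, he, h⟩
    have h1 : ∀ s : H, ¬ p ∣ orderOf s → subF H u (indFun H (liftFun H u' α (yFun b u' χ'))) s =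
        projOp (indic (transBlock e b)) (subF H u (χ' : G → ℂ)) s := by
      intro s hs
      have h2 : ¬ p ∣ orderOf (e s) := by rwa [MulEquiv.orderOf_eq]
      have h3 : ((u' * e s : H) : G) = g * ((u * s : H) : G) * g⁻¹ := by
        simp only [Subgroup.coe_mul, he, ← hg]
        group
      rw [subF_apply]
      have h4 := isClassFunction_indFun H (liftFun H u' α (yFun b u' χ')) ((u * s : H) : G) g
      rw [← h4, ← h3, indFun_liftFun_mul hHu' hα hup' (yFun_isClassFunction hHu' b χ') h2, yFun,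
        ← projOp_transBlock e b, subF_comp_conj hg he (irr_isClassFunction χ')]
    have h2 : classInner (pRegularPart p (yFun b u χ)) (subF H u (indFun H (liftFun H u' α (yFun b u' χ')))) =
        classInner (pRegularPart p (yFun b u χ)) (projOp (indic (transBlock e b)) (subF H u (χ' : G → ℂ))) := by
      rw [classInner, classInner]
      congr 1
      refine Finset.sum_congr rfl fun s _ => ?_
      by_cases hs : p ∣ orderOf s
      · rw [pRegularPart_of_dvd _ hs, zero_mul, zero_mul]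
      · rw [h1 s hs]
    rw [h2, yFun, pRegularPart_projOp hM hb (subF_isClassFunction hHu (irr_isClassFunction χ)),
      classInner_projOp_left _ (pRegularPart_isClassFunction (subF_isClassFunction hHu (irr_isClassFunction χ)))]
    refine Finset.sum_eq_zero fun ξ _ => ?_
    by_cases hξ : ξ ∈ b
    · have hξ' : ξ ∉ transBlock e b := by
        intro h3
        apply hbe
        rw [blockOf_eq_of_mem (isPBlock_transBlock e hb) h3, ← blockOf_eq_of_mem hb hξ]
      rw [classInner_conj_symm (ξ : H → ℂ), classInner_projOp_irr _ (subF_isClassFunction hHu (irr_isClassFunction χ')),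
        indic_apply_of_notMem hξ']
      simp
    · rw [indic_apply_of_notMem hξ, zero_mul]
  · rw [classInner]
    refine mul_eq_zero_of_right _ (Finset.sum_eq_zero fun s _ => ?_)
    by_cases hs : p ∣ orderOf s
    · rw [pRegularPart_of_dvd _ hs, zero_mul]
    · have h2 : subF H u (indFun H (liftFun H u' α (yFun b u' χ'))) s = 0 := by
        rw [subF_apply]
        refine indFun_liftFun_of_not_conj α _ ?_
        rw [(pow_mul_eq_iff hHu hα hup s).mpr hs]
        intro h3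
        obtain ⟨g, hg⟩ := isConj_iff.mp h3
        exact hc ⟨g, hg⟩
      rw [h2, map_zero, mul_zero]

/-- **Bessel's inequality for two non conjugate subsections.** -/
theorem bessel_two (hM : IsPModular p M) {u u' : H} (hHu : ∀ w : G, w ∈ H ↔ Commute w ((u : H) : G))
    (hHu' : ∀ w : G, w ∈ H ↔ Commute w ((u' : H) : G))
    (hup : ∃ k, orderOf ((u : H) : G) = p ^ k) (hup' : ∃ k, orderOf ((u' : H) : G) = p ^ k)
    {b : Set (IrrCharacter H)} (hb : IsPBlock M b) (hno : ¬ SecConj b u u') (χ : IrrCharacter G) :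
    ∃ a a' : ℝ, classInner (pRegularPart p (yFun b u χ)) (yFun b u χ) = a ∧
      classInner (pRegularPart p (yFun b u' χ)) (yFun b u' χ) = a' ∧ a + a' ≤ 1 := by
  obtain ⟨α, hα⟩ := exists_isPExp G p
  obtain ⟨a, -, ha⟩ := classInner_self_nonneg (pRegularPart p (yFun b u χ))
  obtain ⟨a', -, ha'⟩ := classInner_self_nonneg (pRegularPart p (yFun b u' χ))
  rw [classInner_reg_self] at ha ha'
  refine ⟨a, a', ha, ha', ?_⟩
  set A := indFun H (liftFun H u α (yFun b u χ)) with hA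
  set A' := indFun H (liftFun H u' α (yFun b u' χ)) with hA'
  have h1 : classInner A A = a := by
    rw [hA, classInner_lift_lift hHu hα hup _ (yFun_isClassFunction hHu b χ), ha]
  have h2 : classInner A' A' = a' := by
    rw [hA', classInner_lift_lift hHu' hα hup' _ (yFun_isClassFunction hHu' b χ), ha']
  have h3 : classInner A (χ : G → ℂ) = a := by
    rw [hA, classInner_lift_left hHu hα hup _ (irr_isClassFunction χ), classInner_reg_yFun_subF hM hHu hb, ha]
  have h4 : classInner A' (χ : G → ℂ) = a' := by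
    rw [hA', classInner_lift_left hHu' hα hup' _ (irr_isClassFunction χ), classInner_reg_yFun_subF hM hHu' hb, ha']
  have h5 : classInner (χ : G → ℂ) A = a := by
    rw [classInner_conj_symm, h3, Complex.conj_ofReal]
  have h6 : classInner (χ : G → ℂ) A' = a' := by
    rw [classInner_conj_symm, h4, Complex.conj_ofReal]
  have h7 : classInner A A' = 0 := cross_eq_zero hM hHu hHu' hup hup' hα hb hno χ χ
  have h8 : classInner A' A = 0 := by
    rw [classInner_conj_symm, h7, map_zero]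
  obtain ⟨r, hr, hrv⟩ := classInner_self_nonneg ((χ : G → ℂ) - A - A')
  have h9 : classInner ((χ : G → ℂ) - A - A') ((χ : G → ℂ) - A - A') = ((1 - a - a' : ℝ) : ℂ) := by
    simp only [classInner_sub_left, classInner_sub_right, h1, h2, h3, h4, h5, h6, h7, h8, classInner_irr_self χ.2]
    push_cast
    ring
  rw [h9] at hrv
  have h10 : 1 - a - a' = r := by exact_mod_cast hrv
  linarith

/-- **Two non conjugate subsections force twice the rank to be at most the number of characters.** -/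
theorem two_rank_le (hM : IsPModular p M) (hH : ∀ w : G, w ∈ H ↔ Commute w (x : G))
    (hxp : ∃ k, orderOf (x : G) = p ^ k) {b : Set (IrrCharacter H)} {B : Set (IrrCharacter G)}
    (hind : IsInducedBlock M H b B) {j : ℕ} (hj : ¬ p ∣ j) (hno : ¬ SecConj b (x ^ 1) (x ^ j)) :
    2 * blockRank p b ≤ Nat.card B := by
  have hpp : p.Prime := hp.out
  have hb := hind.1
  have h1j : ¬ p ∣ 1 := fun h => hpp.one_lt.ne' (Nat.dvd_one.mp h)
  have hbes := fun χ : IrrCharacter G => bessel_two (p := p) hM (hH_pow hH hxp h1j) (hH_pow hH hxp hj) (hxp_pow hxp 1) (hxp_pow hxp j) hb hno χ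
  choose a a' ha ha' hle using hbes
  set Q : ℝ := ((p ^ blockDefect p b : ℕ) : ℝ) with hQ
  have hQpos : 0 < Q := by
    rw [hQ]
    exact_mod_cast pow_pos hpp.pos _
  have hsum : ∀ {i : ℕ} (hi : ¬ p ∣ i) {c : IrrCharacter G → ℝ},
      (∀ χ : IrrCharacter G, classInner (pRegularPart p (yFun b (x ^ i) χ)) (yFun b (x ^ i) χ) = c χ) →
      ∑ χ ∈ Finset.univ.filter (· ∈ B), Q * c χ = Q * (blockRank p b : ℝ) := by
    intro i hi c hc
    have h1 := sum_hq_tMat hM hH hxp hind hi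
    have h2 : ∀ χ : IrrCharacter G, hq (tMat p b) (rowD b χ x i) = ((Q * c χ : ℝ) : ℂ) := by
      intro χ
      rw [← polF_self, polF_eq hM hH hxp hb hi, hc, hQ]
      push_cast
      rfl
    simp only [h2] at h1
    have h3 : ((∑ χ ∈ Finset.univ.filter (· ∈ B), Q * c χ : ℝ) : ℂ) = ((Q * (blockRank p b : ℝ) : ℝ) : ℂ) := by
      rw [Complex.ofReal_sum, Finset.sum_filter]
      have h4 : ((Q * (blockRank p b : ℝ) : ℝ) : ℂ) = ((p ^ blockDefect p b : ℕ) : ℂ) * (blockRank p b : ℂ) := by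
        rw [hQ]
        push_cast
        rfl
      rw [h4, ← h1]
      refine Finset.sum_congr rfl fun χ _ => ?_
      by_cases hχ : χ ∈ B
      · rw [if_pos hχ, indic_apply_of_mem hχ, one_mul]
      · rw [if_neg hχ, indic_apply_of_notMem hχ, zero_mul]
    exact_mod_cast h3
  have h1 := hsum h1j ha
  have h2 := hsum hj ha'
  have h3 : ∑ χ ∈ Finset.univ.filter (· ∈ B), (Q * a χ + Q * a' χ) ≤ ∑ χ ∈ Finset.univ.filter (· ∈ B), Q := by
    refine Finset.sum_le_sum fun χ _ => ?_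
    have := hle χ
    nlinarith
  rw [Finset.sum_add_distrib, h1, h2, Finset.sum_const, nsmul_eq_mul] at h3
  have h4 : 2 * (blockRank p b : ℝ) ≤ ((Finset.univ.filter (· ∈ B)).card : ℝ) := by
    have h5 : Q * (2 * (blockRank p b : ℝ)) ≤ Q * ((Finset.univ.filter (· ∈ B)).card : ℝ) := by
      linarith
    exact le_of_mul_le_mul_left h5 hQpos
  rw [natCard_block_eq]
  exact_mod_cast h4

theorem polF_conj_eq (hM : IsPModular p M) (hH : ∀ w : G, w ∈ H ↔ Commute w (x : G))
    (hxp : ∃ k, orderOf (x : G) = p ^ k) {b : Set (IrrCharacter H)} (hb : IsPBlock M b) {j : ℕ} (hj : ¬ p ∣ j)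
    (hsec : SecConj b (x ^ 1) (x ^ j)) (χ τ : IrrCharacter G) : polF p b x j χ τ = polF p b x 1 χ τ := by
  have hpp : p.Prime := hp.out
  have h1j : ¬ p ∣ 1 := fun h => hpp.one_lt.ne' (Nat.dvd_one.mp h)
  obtain ⟨g, e, hg, he, hbe⟩ := hsec
  rw [polF_eq hM hH hxp hb hj, polF_eq hM hH hxp hb h1j, classInner_reg_yFun_conj hg he hbe]

/-- The form is Hermitian. -/
theorem polQ_conj {ι : Type*} [Fintype ι] {Q : ι → ι → ℤ} (hQ : ∀ i i', Q i i' = Q i' i) (D D' : ι → ℂ) :
    conj (polQ Q D D') = polQ Q D' D := by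
  simp only [polQ, map_sum, map_mul, Complex.conj_conj, map_intCast]
  rw [Finset.sum_comm]
  refine Finset.sum_congr rfl fun i _ => Finset.sum_congr rfl fun i' _ => ?_
  rw [hQ i' i]
  ring

theorem polF_isIntegral (hH : ∀ w : G, w ∈ H ↔ Commute w (x : G)) (b : Set (IrrCharacter H)) (j : ℕ) (χ τ : IrrCharacter G) :
    IsIntegral ℤ (polF p b x j χ τ) := by
  simp only [polF, polQ]
  refine IsIntegral.sum _ fun i _ => IsIntegral.sum _ fun i' _ => ?_
  exact ((rowD_isIntegral b hH χ j i).mul (IsIntegral.map (starRingEnd ℂ).toIntAlgHom (rowD_isIntegral b hH τ j i'))).mul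
    (intCast_isIntegralZ _)

/-- **If all the conjugate subsections are conjugate, then the form has integer values.** -/
theorem polF_integer (hM : IsPModular p M) (hH : ∀ w : G, w ∈ H ↔ Commute w (x : G))
    (hxp : ∃ k, orderOf (x : G) = p ^ k) {b : Set (IrrCharacter H)} (hb : IsPBlock M b)
    (hsec : ∀ j, ¬ p ∣ j → SecConj b (x ^ 1) (x ^ j)) (χ τ : IrrCharacter G) : ∃ m : ℤ, polF p b x 1 χ τ = m := by
  have hpp : p.Prime := hp.out
  obtain ⟨k, hk⟩ := hxp
  have hxN : x ^ p ^ (k + 1) = 1 := by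
    apply Subtype.ext
    simp only [Subgroup.coe_pow, Subgroup.coe_one]
    rw [pow_succ, pow_mul, ← hk, pow_orderOf_eq_one, one_pow]
  haveI : NeZero (p ^ (k + 1)) := ⟨pow_ne_zero _ hpp.ne_zero⟩
  have hv : ∀ i : {ψ : IrrCharacter H // ψ ∈ b}, scalarAt (i : IrrCharacter H) x ^ p ^ (k + 1) = 1 := fun i =>
    scalarAt_pow_eq_one _ (central_x hH) hxN
  have hv' : ∀ i : {ψ : IrrCharacter H // ψ ∈ b}, conj (scalarAt (i : IrrCharacter H) x) ^ p ^ (k + 1) = 1 := fun i => by
    rw [← map_pow, hv, map_one]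
  refine int_of_isIntegral_of_rat (polF_isIntegral hH b 1 χ τ) (rat_of_forall_sigma (n := p ^ (k + 1)) ?_ ?_)
  · refine sum_mem fun i _ => sum_mem fun i' _ => ?_
    simp only [rowD, map_mul, map_pow, map_intCast]
    refine mul_mem (mul_mem (mul_mem (intCast_mem _ _) (pow_mem (mem_cycField_of_pow_eq_one _ (hv i)) _))
      (mul_mem (intCast_mem _ _) (pow_mem (mem_cycField_of_pow_eq_one _ (hv' i')) _))) (intCast_mem _ _)
  · intro σ l hl hs
    have hpl : ¬ p ∣ l := by
      intro h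
      have h2 : p ∣ Nat.gcd l (p ^ (k + 1)) := Nat.dvd_gcd h (dvd_pow_self p (by omega))
      rw [hl] at h2
      exact hpp.one_lt.ne' (Nat.dvd_one.mp h2)
    have h1 : polF p b x l χ τ = polF p b x 1 χ τ := polF_conj_eq hM hH ⟨k, hk⟩ hb hpl (hsec l hpl) χ τ
    have hσ1 : ∀ (χ' : IrrCharacter G) (i : {ψ : IrrCharacter H // ψ ∈ b}), σ (rowD b χ' x 1 i) = rowD b χ' x l i := by
      intro χ' i
      simp only [rowD, map_mul, map_intCast, map_pow, pow_one]
      rw [hs _ (hv i)]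
    have hσ2 : ∀ (χ' : IrrCharacter G) (i : {ψ : IrrCharacter H // ψ ∈ b}),
        σ (conj (rowD b χ' x 1 i)) = conj (rowD b χ' x l i) := by
      intro χ' i
      simp only [rowD, map_mul, map_intCast, map_pow, pow_one]
      rw [hs _ (hv' i)]
    have key : σ (polF p b x 1 χ τ) = polF p b x l χ τ := by
      rw [polF, polQ, map_sum, polF, polQ]
      refine Finset.sum_congr rfl fun i _ => ?_
      rw [map_sum]
      refine Finset.sum_congr rfl fun i' _ => ?_
      rw [map_mul, map_mul, hσ1, hσ2, map_intCast]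
    rw [key, h1]

end Rows

section Two

variable {G : Type u} [Group G] [Fintype G] {M : Ideal AlgInt}
variable {H : Subgroup G} [Fintype H] {x : H}

open scoped Classical

theorem two_dvd_sub_one {n : ℕ} (h : ¬ 2 ∣ n) : (2 : ℤ) ∣ (n : ℤ) - 1 := by omega

theorem memLocalIdeal_natCast_sub_one (hM : IsPModular 2 M) {n : ℕ} (h : ¬ 2 ∣ n) : MemLocalIdeal M ((n : ℂ) - 1) := by
  have h1 := (intCast_memLocalIdeal_iff hM ((n : ℤ) - 1)).mpr (by exact_mod_cast two_dvd_sub_one h)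
  simpa using h1

/-- The pairing with a row modulo the maximal ideal: the degree form. -/
theorem rowR_div_congr (hM : IsPModular 2 M) (hH : ∀ w : G, w ∈ H ↔ Commute w (x : G)) {α : ℕ} (hα : IsPExp 2 G α)
    (hxp : ∃ k, orderOf (x : G) = 2 ^ k) {b : Set (IrrCharacter H)} {B : Set (IrrCharacter G)}
    (hind : IsInducedBlock M H b B) (hdef : blockDefect 2 b = blockDefect 2 B)
    (n : {ψ : IrrCharacter H // ψ ∈ b} → ℤ) {χ : IrrCharacter G} (hχ : χ ∈ B) :
    MemLocalIdeal M (rowR (p := 2) b χ x 1 n / ((2 : ℕ) : ℂ) ^ blockHeight 2 B (χ : G → ℂ) -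
      ((∑ i, n i * degF 2 b i : ℤ) : ℂ)) := by
  have := isPrime_of_modular hM
  have hB := hind.2.1
  have hb := hind.1
  obtain ⟨ξ₀, hξ₀, h00⟩ := exists_height_zero (p := 2) (IsPBlock.nonempty hb)
  obtain ⟨χ₀, hχ₀, h0⟩ := exists_height_zero (p := 2) (IsPBlock.nonempty hB)
  set a₀ : {ψ : IrrCharacter H // ψ ∈ b} → ℤ := fun ψ => (resMul H χ₀ ψ : ℤ) with ha₀
  set Fn : ℤ := ∑ i, n i * degF 2 b i with hFn
  have h1 : ((2 : ℕ) : ℤ) ∣ qbil (tMat 2 b) a₀ n - Fn := by
    have h2 := qbil_tMat_congr hM hb hξ₀ a₀ n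
    have hd : ¬ (2 : ℤ) ∣ (degQ 2 b ξ₀ : ℤ) := by
      intro h3
      exact not_dvd_degQ hξ₀ h00 (by exact_mod_cast h3)
    have hT : ¬ (2 : ℤ) ∣ blockT 2 b ξ₀ ξ₀ := by
      have h3 := not_dvd_blockT_self hM hb hξ₀ h00 hξ₀ h00
      exact_mod_cast h3
    have hFa : ¬ (2 : ℤ) ∣ ∑ i, a₀ i * degF 2 b i := by
      have h3 := height_zero_row hM hH hxp hind hχ₀ h0
      exact_mod_cast h3
    have h3 : (2 : ℤ) ∣ ((degQ 2 b ξ₀ : ℤ)) ^ 2 - 1 := by
      have h4 : (2 : ℤ) ∣ (degQ 2 b ξ₀ : ℤ) - 1 := by omega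
      have h5 : ((degQ 2 b ξ₀ : ℤ)) ^ 2 - 1 = ((degQ 2 b ξ₀ : ℤ) - 1) * ((degQ 2 b ξ₀ : ℤ) + 1) := by ring
      rw [h5]
      exact Dvd.dvd.mul_right h4 _
    have h4 : (2 : ℤ) ∣ blockT 2 b ξ₀ ξ₀ * (∑ i, a₀ i * degF 2 b i) - 1 := by
      have h5 : (2 : ℤ) ∣ blockT 2 b ξ₀ ξ₀ - 1 := by omega
      have h6 : (2 : ℤ) ∣ (∑ i, a₀ i * degF 2 b i) - 1 := by omega
      have h7 : blockT 2 b ξ₀ ξ₀ * (∑ i, a₀ i * degF 2 b i) - 1 =
          (blockT 2 b ξ₀ ξ₀ - 1) * (∑ i, a₀ i * degF 2 b i) + ((∑ i, a₀ i * degF 2 b i) - 1) := by ring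
      rw [h7]
      exact dvd_add (Dvd.dvd.mul_right h5 _) h6
    have h5 : qbil (tMat 2 b) a₀ n - Fn =
        (((degQ 2 b ξ₀ : ℤ)) ^ 2 * qbil (tMat 2 b) a₀ n - blockT 2 b ξ₀ ξ₀ * ((∑ i, a₀ i * degF 2 b i) * Fn)) -
          ((degQ 2 b ξ₀ : ℤ) ^ 2 - 1) * qbil (tMat 2 b) a₀ n +
          (blockT 2 b ξ₀ ξ₀ * (∑ i, a₀ i * degF 2 b i) - 1) * Fn := by ring
    rw [h5]
    have h6 : (2 : ℤ) ∣ ((degQ 2 b ξ₀ : ℤ)) ^ 2 * qbil (tMat 2 b) a₀ n - blockT 2 b ξ₀ ξ₀ * ((∑ i, a₀ i * degF 2 b i) * Fn) := by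
      exact_mod_cast h2
    push_cast
    exact dvd_add (dvd_sub h6 (Dvd.dvd.mul_right h3 _)) (Dvd.dvd.mul_right h4 _)
  have h2 : MemLocalIdeal M (rowR (p := 2) b χ₀ x 1 n - (Fn : ℂ)) := by
    have h3 : MemLocalIdeal M (rowR (p := 2) b χ₀ x 1 n - ((qbil (tMat 2 b) a₀ n : ℤ) : ℂ)) :=
      rowR_sub_qbil_mem hM hH hxp b χ₀ n
    have h4 := (intCast_memLocalIdeal_iff hM _).mpr h1
    have h5 := MemLocalIdeal.add h3 h4
    have h6 : rowR (p := 2) b χ₀ x 1 n - ((qbil (tMat 2 b) a₀ n : ℤ) : ℂ) +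
        ((qbil (tMat 2 b) a₀ n - Fn : ℤ) : ℂ) = rowR (p := 2) b χ₀ x 1 n - (Fn : ℂ) := by
      push_cast
      ring
    rwa [h6] at h5
  have hS := spec_thetaFun_mem_zS (M := M) hH hα hxp (vecInt_isClassFunction b n) (vecInt_isIntegral b n)
  have h3 := zS_apply_congr hB hS hχ hχ₀
  rw [spec_theta_eq hM hH hα hxp hind hdef n hχ, spec_theta_eq hM hH hα hxp hind hdef n hχ₀] at h3
  obtain ⟨c, hc, hdc⟩ := degQ_eq_height (p := 2) hχ
  set h := blockHeight 2 B (χ : G → ℂ) with hh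
  set R := rowR (p := 2) b χ x 1 n with hR
  set R₀ := rowR (p := 2) b χ₀ x 1 n with hR₀
  obtain ⟨e, he⟩ : ∃ e : ℕ, e = degQ 2 B χ₀ := ⟨_, rfl⟩
  have hed : ¬ 2 ∣ e := he ▸ not_dvd_degQ hχ₀ h0
  have hP : ((2 : ℕ) : ℂ) ^ h ≠ 0 := pow_ne_zero _ (by norm_num)
  have hc0 : (c : ℂ) ≠ 0 := natCast_ne_zero_of_not_dvd (p := 2) hc
  have he0 : (e : ℂ) ≠ 0 := natCast_ne_zero_of_not_dvd (p := 2) hed
  have hq0 : (cardQ 2 G : ℂ) ≠ 0 := natCast_ne_zero_of_not_dvd (p := 2) not_dvd_cardQ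
  have h4 := MemLocalIdeal.mul_left (MemLocalRing.mul (MemLocalRing.mul (MemLocalRing.natCast c)
    (MemLocalRing.natCast e)) (inv_natCast_memLocalRing hM (not_dvd_cardQ (p := 2) (G := G)))) h3
  have h5 : (c : ℂ) * (e : ℂ) * (cardQ 2 G : ℂ)⁻¹ * ((cardQ 2 G : ℂ) * R / (degQ 2 B χ : ℂ) -
      (cardQ 2 G : ℂ) * R₀ / (degQ 2 B χ₀ : ℂ)) = (e : ℂ) * (R / ((2 : ℕ) : ℂ) ^ h) - (c : ℂ) * R₀ := by
    rw [hdc, ← he]
    have h7 : ((2 ^ h * c : ℕ) : ℂ) = ((2 : ℕ) : ℂ) ^ h * (c : ℂ) := by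
      push_cast
      ring
    rw [h7]
    field_simp
  rw [h5] at h4
  have hRint : IsIntegral ℤ (R / ((2 : ℕ) : ℂ) ^ h) := rowR_div_isIntegral hM hH hα hxp hind hdef n hχ
  have h6 : MemLocalIdeal M (((e : ℂ) - 1) * (R / ((2 : ℕ) : ℂ) ^ h)) :=
    MemLocalIdeal.mul_right (memLocalIdeal_natCast_sub_one hM hed) (memLocalRing_of_isIntegral hRint)
  have h7 : MemLocalIdeal M (((c : ℂ) - 1) * R₀) :=
    MemLocalIdeal.mul_right (memLocalIdeal_natCast_sub_one hM hc)
      (memLocalRing_of_isIntegral (rowR_isIntegral (p := 2) b hH χ₀ 1 n))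
  have h8 := MemLocalIdeal.add (MemLocalIdeal.add (MemLocalIdeal.sub h4 h6) h7) h2
  have h9 : (e : ℂ) * (R / ((2 : ℕ) : ℂ) ^ h) - (c : ℂ) * R₀ - ((e : ℂ) - 1) * (R / ((2 : ℕ) : ℂ) ^ h) +
      ((c : ℂ) - 1) * R₀ + (R₀ - (Fn : ℂ)) = R / ((2 : ℕ) : ℂ) ^ h - (Fn : ℂ) := by
    ring
  rwa [h9] at h8

/-- The value of the degree form on a row. -/
theorem degF_row_parity (hM : IsPModular 2 M) (hH : ∀ w : G, w ∈ H ↔ Commute w (x : G)) {α : ℕ} (hα : IsPExp 2 G α)
    (hxp : ∃ k, orderOf (x : G) = 2 ^ k) {b : Set (IrrCharacter H)} {B : Set (IrrCharacter G)}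
    (hind : IsInducedBlock M H b B) (hdef : blockDefect 2 b = blockDefect 2 B)
    {τ : IrrCharacter G} (hτ : τ ∈ B) :
    (2 : ℤ) ∣ (∑ ψ : {ψ : IrrCharacter H // ψ ∈ b}, (resMul H τ ψ : ℤ) * degF 2 b ψ) - (degQ 2 B τ : ℤ) := by
  have := isPrime_of_modular hM
  have hb := hind.1
  by_cases h0 : blockHeight 2 B (τ : G → ℂ) = 0
  · have h1 := height_zero_row hM hH hxp hind hτ h0
    have h2 := not_dvd_degQ hτ h0
    have h3 : ¬ (2 : ℤ) ∣ ∑ ψ : {ψ : IrrCharacter H // ψ ∈ b}, (resMul H τ ψ : ℤ) * degF 2 b ψ := by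
      exact_mod_cast h1
    omega
  · have hd : (2 : ℤ) ∣ (degQ 2 B τ : ℤ) := by
      obtain ⟨c, -, hc⟩ := degQ_eq_height (p := 2) hτ
      rw [hc]
      push_cast
      exact Dvd.dvd.mul_right (dvd_pow_self _ h0) _
    refine dvd_sub ?_ hd
    by_contra hcon
    obtain ⟨n₁, hn₁⟩ := exists_degF_not_dvd (p := 2) (IsPBlock.nonempty hb)
    have h1 : ¬ ((2 : ℕ) : ℤ) ∣ ∑ ψ : {ψ : IrrCharacter H // ψ ∈ b}, (resMul H τ ψ : ℤ) * degF 2 b ψ := by
      exact_mod_cast hcon
    have h2 := qbil_tMat_not_dvd hM hb h1 hn₁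
    apply h2
    rw [← intCast_memLocalIdeal_iff hM]
    have h3 := rowR_sub_qbil_mem hM hH hxp b τ n₁
    have h4 : MemLocalIdeal M (rowR (p := 2) b τ x 1 n₁) := by
      have h5 := rowR_div_isIntegral hM hH hα hxp hind hdef n₁ hτ
      have h6 : rowR (p := 2) b τ x 1 n₁ = ((2 : ℕ) : ℂ) ^ blockHeight 2 B (τ : G → ℂ) *
          (rowR (p := 2) b τ x 1 n₁ / ((2 : ℕ) : ℂ) ^ blockHeight 2 B (τ : G → ℂ)) := by
        rw [mul_div_cancel₀ _ (pow_ne_zero _ (by norm_num))]
      rw [h6]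
      exact MemLocalIdeal.mul_right (MemLocalIdeal.pow (p_memLocalIdeal hM) h0) (memLocalRing_of_isIntegral h5)
    have h5 := MemLocalIdeal.sub h4 h3
    simpa using h5

/-- The form as a pairing with the basis vectors. -/
theorem polF_eq_rowR (b : Set (IrrCharacter H)) (χ τ : IrrCharacter G) :
    polF 2 b x 1 χ τ =
      ∑ i', conj (rowD b τ x 1 i') * rowR (p := 2) b χ x 1 (fun ξ => if ξ = i' then 1 else 0) := by
  simp only [polF, polQ, rowR, tVec]
  rw [Finset.sum_comm]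
  refine Finset.sum_congr rfl fun i' _ => ?_
  rw [Finset.mul_sum]
  refine Finset.sum_congr rfl fun i _ => ?_
  have h1 : ∑ ξ, (if ξ = i' then 1 else 0) * tMat 2 b i ξ = tMat 2 b i i' := by
    simp
  rw [h1]
  ring

theorem polF_div_isIntegral (hM : IsPModular 2 M) (hH : ∀ w : G, w ∈ H ↔ Commute w (x : G)) {α : ℕ} (hα : IsPExp 2 G α)
    (hxp : ∃ k, orderOf (x : G) = 2 ^ k) {b : Set (IrrCharacter H)} {B : Set (IrrCharacter G)}
    (hind : IsInducedBlock M H b B) (hdef : blockDefect 2 b = blockDefect 2 B)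
    {χ : IrrCharacter G} (hχ : χ ∈ B) (τ : IrrCharacter G) :
    IsIntegral ℤ (polF 2 b x 1 χ τ / ((2 : ℕ) : ℂ) ^ blockHeight 2 B (χ : G → ℂ)) := by
  rw [polF_eq_rowR, Finset.sum_div]
  refine IsIntegral.sum _ fun i' _ => ?_
  rw [mul_div_assoc]
  exact (IsIntegral.map (starRingEnd ℂ).toIntAlgHom (rowD_isIntegral b hH τ 1 i')).mul
    (rowR_div_isIntegral hM hH hα hxp hind hdef _ hχ)

/-- **The form on the rows modulo the maximal ideal.** -/
theorem polF_div_congr (hM : IsPModular 2 M) (hH : ∀ w : G, w ∈ H ↔ Commute w (x : G)) {α : ℕ} (hα : IsPExp 2 G α)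
    (hxp : ∃ k, orderOf (x : G) = 2 ^ k) {b : Set (IrrCharacter H)} {B : Set (IrrCharacter G)}
    (hind : IsInducedBlock M H b B) (hdef : blockDefect 2 b = blockDefect 2 B)
    {χ τ : IrrCharacter G} (hχ : χ ∈ B) (hτ : τ ∈ B) :
    MemLocalIdeal M (polF 2 b x 1 χ τ / ((2 : ℕ) : ℂ) ^ blockHeight 2 B (χ : G → ℂ) - ((degQ 2 B τ : ℤ) : ℂ)) := by
  have := isPrime_of_modular hM
  obtain ⟨k, hk⟩ := hxp
  have hxk : x ^ 2 ^ k = 1 := by
    apply Subtype.ext
    simp only [Subgroup.coe_pow, Subgroup.coe_one]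
    rw [← hk, pow_orderOf_eq_one]
  set h := blockHeight 2 B (χ : G → ℂ) with hh
  have h1 : polF 2 b x 1 χ τ / ((2 : ℕ) : ℂ) ^ h - ((∑ ψ : {ψ : IrrCharacter H // ψ ∈ b}, (resMul H τ ψ : ℤ) * degF 2 b ψ : ℤ) : ℂ) =
      ∑ i' : {ψ : IrrCharacter H // ψ ∈ b},
        (conj (rowD b τ x 1 i') * (rowR (p := 2) b χ x 1 (fun ξ => if ξ = i' then 1 else 0) / ((2 : ℕ) : ℂ) ^ h - (degF 2 b i' : ℂ)) +
          (conj (rowD b τ x 1 i') - ((resMul H τ i' : ℤ) : ℂ)) * (degF 2 b i' : ℂ)) := by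
    rw [polF_eq_rowR, Finset.sum_div]
    push_cast
    rw [← Finset.sum_sub_distrib]
    refine Finset.sum_congr rfl fun i' _ => ?_
    ring
  have h2 : MemLocalIdeal M (polF 2 b x 1 χ τ / ((2 : ℕ) : ℂ) ^ h -
      ((∑ ψ : {ψ : IrrCharacter H // ψ ∈ b}, (resMul H τ ψ : ℤ) * degF 2 b ψ : ℤ) : ℂ)) := by
    rw [h1]
    refine MemLocalIdeal.sum _ fun i' _ => MemLocalIdeal.add ?_ ?_
    · refine MemLocalIdeal.mul_left (memLocalRing_of_isIntegral
        (IsIntegral.map (starRingEnd ℂ).toIntAlgHom (rowD_isIntegral b hH τ 1 i'))) ?_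
      have h3 := rowR_div_congr hM hH hα ⟨k, hk⟩ hind hdef (fun ξ => if ξ = i' then 1 else 0) hχ
      have h4 : ∑ i, (if i = i' then 1 else 0) * degF 2 b i = degF 2 b i' := by simp
      rwa [h4] at h3
    · refine MemLocalIdeal.mul_right ?_ (MemLocalRing.intCast _)
      have h3 : conj (rowD b τ x 1 i') - ((resMul H τ i' : ℤ) : ℂ) =
          ((resMul H τ i' : ℤ) : ℂ) * (conj (scalarAt (i' : IrrCharacter H) x) - 1) := by
        simp only [rowD, pow_one, map_mul, map_intCast]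
        ring
      rw [h3]
      refine MemLocalIdeal.mul_left (MemLocalRing.intCast _) (root_sub_one_memLocalIdeal (p := 2) hM (k := k) ?_)
      rw [← map_pow, scalarAt_pow_eq_one _ (central_x hH) hxk, map_one]
  have h3 := (intCast_memLocalIdeal_iff hM _).mpr (degF_row_parity hM hH hα ⟨k, hk⟩ hind hdef hτ)
  have h4 := MemLocalIdeal.add h2 h3
  have h5 : polF 2 b x 1 χ τ / ((2 : ℕ) : ℂ) ^ h -
      ((∑ ψ : {ψ : IrrCharacter H // ψ ∈ b}, (resMul H τ ψ : ℤ) * degF 2 b ψ : ℤ) : ℂ) +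
      (((∑ ψ : {ψ : IrrCharacter H // ψ ∈ b}, (resMul H τ ψ : ℤ) * degF 2 b ψ) - (degQ 2 B τ : ℤ) : ℤ) : ℂ) =
      polF 2 b x 1 χ τ / ((2 : ℕ) : ℂ) ^ h - ((degQ 2 B τ : ℤ) : ℂ) := by
    rw [Int.cast_sub]
    ring
  rwa [h5] at h4

/-- **The case of rational rows.** -/
theorem major_compl_case (hM : IsPModular 2 M) (hH : ∀ w : G, w ∈ H ↔ Commute w (x : G))
    (hxp : ∃ k, orderOf (x : G) = 2 ^ k) {b : Set (IrrCharacter H)} {B : Set (IrrCharacter G)}
    (hind : IsInducedBlock M H b B) (hdef : blockDefect 2 b = blockDefect 2 B)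
    (hsec : ∀ j, ¬ 2 ∣ j → SecConj b (x ^ 1) (x ^ j)) (hk : Nat.card B ≤ blockRank 2 b + 3) :
    Nat.card B ≤ 2 ^ blockDefect 2 B := by
  have := isPrime_of_modular hM
  obtain ⟨α, hα⟩ := exists_isPExp G 2
  have hb := hind.1
  have hB := hind.2.1
  have h1j : ¬ 2 ∣ 1 := by norm_num
  choose P hP using polF_integer hM hH hxp hb hsec
  obtain ⟨d, hd⟩ : ∃ d, d = blockDefect 2 B := ⟨_, rfl⟩
  obtain ⟨Q, hQdef⟩ : ∃ Q : ℤ, Q = 2 ^ d := ⟨_, rfl⟩
  have hQpos : 0 < Q := by
    rw [hQdef]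
    positivity
  have hQC : ((2 ^ blockDefect 2 b : ℕ) : ℂ) = ((Q : ℤ) : ℂ) := by
    rw [hdef, ← hd, hQdef]
    push_cast
    rfl
  have hPs : ∀ χ τ, P χ τ = P τ χ := by
    intro χ τ
    have h1 : ((P τ χ : ℤ) : ℂ) = conj ((P χ τ : ℤ) : ℂ) := by
      rw [← hP, ← hP]
      exact (polQ_conj (tMat_symm b) _ _).symm
    rw [map_intCast] at h1
    exact_mod_cast h1.symm
  have hP2 : ∀ χ τ, ∑ ψ, P χ ψ * P ψ τ = Q * P χ τ := by
    intro χ τ
    have h1 := sum_polF_mul hM hH hxp hb h1j χ τ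
    simp only [hP, hQC] at h1
    exact_mod_cast h1
  have hP0 : ∀ ψ, ψ ∉ B → ∀ τ, P ψ τ = 0 := by
    intro ψ hψ τ
    have h1 := polF_eq_zero hM hH hxp hind h1j hψ τ
    rw [hP] at h1
    exact_mod_cast h1
  -- the index set
  have hP2κ : ∀ χ τ : {χ : IrrCharacter G // χ ∈ B}, ∑ ψ : {χ : IrrCharacter G // χ ∈ B}, P χ ψ * P ψ τ = Q * P χ τ := by
    intro χ τ
    rw [← hP2, ← Finset.sum_subtype (Finset.univ.filter (· ∈ B)) (fun ψ => by simp) (fun ψ => P χ ψ * P ψ τ)]
    refine Finset.sum_subset (Finset.subset_univ _) fun ψ _ hψ => ?_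
    have h1 : ψ ∉ B := by simpa using hψ
    rw [hP0 ψ h1, mul_zero]
  have htr : ∑ χ : {χ : IrrCharacter G // χ ∈ B}, P χ χ = Q * (blockRank 2 b : ℤ) := by
    have h1 := sum_hq_tMat hM hH hxp hind h1j
    rw [hQC] at h1
    have h2 : ∑ χ : IrrCharacter G, indic B χ * hq (tMat 2 b) (rowD b χ x 1) =
        ((∑ χ : {χ : IrrCharacter G // χ ∈ B}, P χ χ : ℤ) : ℂ) := by
      rw [Int.cast_sum, ← Finset.sum_subtype (Finset.univ.filter (· ∈ B)) (fun ψ => by simp) (fun ψ => ((P ψ ψ : ℤ) : ℂ)),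
        Finset.sum_filter]
      refine Finset.sum_congr rfl fun χ _ => ?_
      by_cases hχ : χ ∈ B
      · rw [if_pos hχ, indic_apply_of_mem hχ, one_mul, ← polF_self, hP]
      · rw [if_neg hχ, indic_apply_of_notMem hχ, zero_mul]
    rw [h2] at h1
    exact_mod_cast h1
  have hcard : Nat.card B = Fintype.card {χ : IrrCharacter G // χ ∈ B} := by
    rw [Nat.card_eq_fintype_card]
  obtain ⟨g, hg⟩ : ∃ g : {χ : IrrCharacter G // χ ∈ B} → ℤ, g = fun χ : {χ : IrrCharacter G // χ ∈ B} => (degQ 2 B χ : ℤ) := ⟨_, rfl⟩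
  obtain ⟨h, hh⟩ : ∃ h : {χ : IrrCharacter G // χ ∈ B} → ℕ, h = fun χ : {χ : IrrCharacter G // χ ∈ B} =>
      blockHeight 2 B ((χ : IrrCharacter G) : G → ℂ) := ⟨_, rfl⟩
  have hstar : ∀ χ τ : {χ : IrrCharacter G // χ ∈ B}, (2 : ℤ) ^ (h χ + 1) ∣ P χ τ - 2 ^ h χ * g τ := by
    intro χ τ
    have hi := polF_div_isIntegral hM hH hα hxp hind hdef χ.2 (τ : IrrCharacter G)
    rw [hP] at hi
    obtain ⟨m, hm⟩ := int_of_isIntegral_of_rat hi ⟨(P χ τ : ℚ) / 2 ^ blockHeight 2 B ((χ : IrrCharacter G) : G → ℂ), by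
      push_cast
      rfl⟩
    have hc := polF_div_congr hM hH hα hxp hind hdef χ.2 τ.2
    rw [hP, hm, ← Int.cast_sub, intCast_memLocalIdeal_iff hM] at hc
    have h2 : ((2 : ℕ) : ℂ) ^ blockHeight 2 B ((χ : IrrCharacter G) : G → ℂ) ≠ 0 := pow_ne_zero _ (by norm_num)
    rw [div_eq_iff h2] at hm
    have h3 : P χ τ = m * 2 ^ blockHeight 2 B ((χ : IrrCharacter G) : G → ℂ) := by
      have h4 : ((P χ τ : ℤ) : ℂ) = ((m * 2 ^ blockHeight 2 B ((χ : IrrCharacter G) : G → ℂ) : ℤ) : ℂ) := by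
        rw [hm]
        push_cast
        rfl
      exact_mod_cast h4
    rw [h3, hh, hg]
    simp only
    have h5 : m * 2 ^ blockHeight 2 B ((χ : IrrCharacter G) : G → ℂ) - 2 ^ blockHeight 2 B ((χ : IrrCharacter G) : G → ℂ) * (degQ 2 B τ : ℤ) =
        2 ^ blockHeight 2 B ((χ : IrrCharacter G) : G → ℂ) * (m - (degQ 2 B τ : ℤ)) := by ring
    rw [h5, pow_succ]
    exact mul_dvd_mul_left _ (by exact_mod_cast hc)
  have hsq : ∀ χ : {χ : IrrCharacter G // χ ∈ B}, Q * P χ χ = ∑ ψ : {χ : IrrCharacter G // χ ∈ B}, P χ ψ ^ 2 := by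
    intro χ
    rw [← hP2κ]
    refine Finset.sum_congr rfl fun ψ _ => ?_
    rw [hPs ψ χ, sq]
  have hpos : ∀ χ : {χ : IrrCharacter G // χ ∈ B}, 0 < P χ χ := by
    intro χ
    have h1 : 0 ≤ P χ χ := by
      have h2 : 0 ≤ Q * P χ χ := by
        rw [hsq]
        positivity
      exact nonneg_of_mul_nonneg_right h2 hQpos
    have h2 : P χ χ ≠ 0 := by
      intro h3
      have h4 := hq_rowD_ne_zero hM hH hα hxp hind hdef χ.2
      rw [← polF_self, hP, h3] at h4
      simp at h4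
    omega
  have hle : ∀ χ : {χ : IrrCharacter G // χ ∈ B}, P χ χ ≤ Q := by
    intro χ
    have h1 : P χ χ ^ 2 ≤ Q * P χ χ := by
      rw [hsq]
      exact Finset.single_le_sum (f := fun ψ : {χ : IrrCharacter G // χ ∈ B} => P χ ψ ^ 2) (fun ψ _ => by positivity) (Finset.mem_univ χ)
    have h2 := hpos χ
    nlinarith
  have hdvd : ∀ χ : {χ : IrrCharacter G // χ ∈ B}, (2 : ℤ) ^ h χ ∣ P χ χ := by
    intro χ
    have h1 := (pow_dvd_pow (2 : ℤ) (Nat.le_succ (h χ))).trans (hstar χ χ)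
    have h2 := dvd_add h1 (dvd_mul_right ((2 : ℤ) ^ h χ) (g χ))
    simpa using h2
  have hhd : ∀ χ : {χ : IrrCharacter G // χ ∈ B}, h χ ≤ d := by
    intro χ
    have h1 := Int.le_of_dvd (hpos χ) (hdvd χ)
    have h2 := h1.trans (hle χ)
    rw [hQdef] at h2
    have h3 : 2 ^ h χ ≤ 2 ^ d := by exact_mod_cast h2
    exact (Nat.pow_le_pow_iff_right (by norm_num)).mp h3
  have hgodd : ∀ χ : {χ : IrrCharacter G // χ ∈ B}, (¬ (2 : ℤ) ∣ g χ ↔ h χ = 0) := by
    intro χ
    constructor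
    · intro h1
      by_contra h2
      apply h1
      obtain ⟨c, -, hc⟩ := degQ_eq_height (p := 2) χ.2
      rw [hg]
      simp only
      rw [hc]
      push_cast
      rw [hh] at h2
      exact Dvd.dvd.mul_right (dvd_pow_self _ h2) _
    · intro h1 h2
      rw [hh] at h1
      have h3 := not_dvd_degQ χ.2 h1
      have h4 : (2 : ℤ) ∣ (degQ 2 B (χ : IrrCharacter G) : ℤ) := by
        rw [hg] at h2
        exact h2
      apply h3
      exact_mod_cast h4
  obtain ⟨χ₀, hχ₀, h00⟩ := exists_height_zero (p := 2) (IsPBlock.nonempty hB)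
  obtain ⟨κ₀, hκ₀⟩ : ∃ κ₀ : {χ : IrrCharacter G // χ ∈ B}, κ₀ = ⟨χ₀, hχ₀⟩ := ⟨_, rfl⟩
  have hχ₀κ : h κ₀ = 0 := by
    rw [hh, hκ₀]
    exact h00
  rw [hcard, ← hd]
  have hgoal : (Fintype.card {χ : IrrCharacter G // χ ∈ B} : ℤ) ≤ Q := by
    by_cases hd0 : d = 0
    · have hQ1 : Q = 1 := by
        rw [hQdef, hd0, pow_zero]
      -- all heights vanish
      have hall : ∀ χ, h χ = 0 := fun χ => by
        have := hhd χ
        omega
      have hodd : ∀ χ τ : {χ : IrrCharacter G // χ ∈ B}, 1 ≤ P χ τ ^ 2 := by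
        intro χ τ
        have h1 := hstar χ τ
        rw [hall χ, zero_add, pow_one, pow_zero, one_mul] at h1
        have h2 := (hgodd τ).mpr (hall τ)
        have h3 : P χ τ ≠ 0 := by
          intro h4
          rw [h4] at h1
          omega
        have h4 : 0 < P χ τ ^ 2 := by positivity
        omega
      have h1 := hsq κ₀
      have h2 := hle κ₀
      have h3 : (Fintype.card {χ : IrrCharacter G // χ ∈ B} : ℤ) ≤ ∑ ψ : {χ : IrrCharacter G // χ ∈ B}, P κ₀ ψ ^ 2 := by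
        calc (Fintype.card {χ : IrrCharacter G // χ ∈ B} : ℤ) = ∑ ψ : {χ : IrrCharacter G // χ ∈ B}, (1 : ℤ) := by simp
          _ ≤ _ := Finset.sum_le_sum fun ψ _ => hodd _ ψ
      rw [← h1, hQ1, one_mul] at h3
      rw [hQ1] at h2 ⊢
      exact h3.trans h2
    · have hlt : ∀ χ, h χ < d := by
        intro χ
        refine lt_of_le_of_ne (hhd χ) fun h1 => ?_
        have h2 : P χ χ = 2 ^ d := by
          have h3 := hdvd χ
          rw [h1] at h3
          have h4 := Int.le_of_dvd (hpos χ) h3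
          have h5 := hle χ
          rw [hQdef] at h5
          omega
        have h3 := hstar χ χ
        rw [h1, h2, pow_succ] at h3
        have h4 : (2 : ℤ) ^ d - 2 ^ d * g χ = 2 ^ d * (1 - g χ) := by ring
        rw [h4] at h3
        have h5 : (2 : ℤ) ∣ 1 - g χ := (mul_dvd_mul_iff_left (pow_ne_zero _ two_ne_zero)).mp h3
        have h6 : ¬ (2 : ℤ) ∣ g χ := by omega
        have h7 := (hgodd χ).mp h6
        omega
      set N : {χ : IrrCharacter G // χ ∈ B} → {χ : IrrCharacter G // χ ∈ B} → ℤ :=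
        fun χ τ => Q * (if χ = τ then 1 else 0) - P χ τ with hN
      have hNs : ∀ χ τ, N χ τ = N τ χ := by
        intro χ τ
        simp only [hN]
        rw [hPs χ τ]
        by_cases h1 : χ = τ
        · simp [h1]
        · simp [h1, Ne.symm h1]
      have hN2 : ∀ χ τ, ∑ ψ, N χ ψ * N ψ τ = Q * N χ τ := by
        intro χ τ
        have h1 : ∀ ψ, N χ ψ * N ψ τ = Q * Q * ((if χ = ψ then 1 else 0) * (if ψ = τ then 1 else 0)) -
            Q * ((if χ = ψ then 1 else 0) * P ψ τ) - Q * ((if ψ = τ then 1 else 0) * P χ ψ) + P χ ψ * P ψ τ := by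
          intro ψ
          simp only [hN]
          ring
        simp only [h1]
        rw [Finset.sum_add_distrib, Finset.sum_sub_distrib, Finset.sum_sub_distrib, ← Finset.mul_sum, ← Finset.mul_sum,
          ← Finset.mul_sum, hP2κ]
        have h2 : ∑ ψ, ((if χ = ψ then (1 : ℤ) else 0) * (if ψ = τ then 1 else 0)) = if χ = τ then 1 else 0 := by
          simp
        have h3 : ∑ ψ, ((if χ = ψ then (1 : ℤ) else 0) * P ψ τ) = P χ τ := by simp
        have h4 : ∑ ψ, ((if ψ = τ then (1 : ℤ) else 0) * P χ ψ) = P χ τ := by simp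
        rw [h2, h3, h4]
        simp only [hN]
        ring
      have h1 : ∀ χ ψ, (2 : ℤ) ^ (h χ + 1) ∣ N χ ψ - 2 ^ h χ * g ψ := by
        intro χ ψ
        have h2 : N χ ψ - 2 ^ h χ * g ψ = Q * (if χ = ψ then 1 else 0) - (P χ ψ - 2 ^ h χ * g ψ) - 2 ^ (h χ + 1) * g ψ := by
          simp only [hN]
          rw [pow_succ]
          ring
        rw [h2]
        have h3 : (2 : ℤ) ^ (h χ + 1) ∣ Q := by
          rw [hQdef]
          exact pow_dvd_pow _ (hlt χ)
        exact dvd_sub (dvd_sub (Dvd.dvd.mul_right h3 _) (hstar χ ψ)) (dvd_mul_right _ _)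
      have h3 : ∑ χ, N χ χ ≤ 3 * Q := by
        have h4 : ∑ χ, N χ χ = Q * (Fintype.card {χ : IrrCharacter G // χ ∈ B} : ℤ) - Q * (blockRank 2 b : ℤ) := by
          simp only [hN, if_true, mul_one]
          rw [Finset.sum_sub_distrib, htr]
          simp [mul_comm]
        rw [h4]
        have h5 : (Fintype.card {χ : IrrCharacter G // χ ∈ B} : ℤ) ≤ (blockRank 2 b : ℤ) + 3 := by
          rw [hcard] at hk
          exact_mod_cast hk
        nlinarith
      exact compl_lattice hQpos hNs hN2 h1 hgodd hχ₀κ h3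
  rw [hQdef] at hgoal
  exact_mod_cast hgoal

end Two

end Cfsg.Agent.Lib.H8Group
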