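import Cfsg.Agent.Lib.H8Group.MajorRows
import Mathlib.NumberTheory.NumberField.Cyclotomic.Basic

/-!
# Major subsections of `2`-blocks: the improved bound

The form on a row of positive height has average divisible by twice the power of `2` of the height.
-/

set_option autoImplicit false
set_option linter.unusedSectionVars false
set_option linter.style.haveILetI false

namespace Cfsg.Agent.Lib.H8Group

open Cfsg Cfsg.Agent.Lib.Char Cfsg.Agent.Lib.Blocks
open scoped ComplexConjugate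

universe u

section Coef

open Polynomial

/-- **The powers of a root of unity form an integral basis.** -/
theorem coef_int_of_isIntegral {n : ℕ} [NeZero n] {ζ : ℂ} (hζ : IsPrimitiveRoot ζ n) (c : ℕ → ℚ)
    (h : IsIntegral ℤ (∑ r ∈ Finset.range (Nat.totient n), (c r : ℂ) * ζ ^ r)) {r : ℕ}
    (hr : r < Nat.totient n) : ∃ m : ℤ, c r = m := by
  classical
  have hn : 0 < n := NeZero.pos n
  have hint : IsIntegral ℤ ζ := hζ.isIntegral hn
  have halg : IsAlgebraic ℚ ζ := by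
    have h1 : IsIntegral ℚ ζ := hint.tower_top
    exact h1.isAlgebraic
  let K := IntermediateField.adjoin ℚ ({ζ} : Set ℂ)
  haveI hcyc : IsCyclotomicExtension {n} ℚ K := by
    change IsCyclotomicExtension {n} ℚ (IntermediateField.adjoin ℚ ({ζ} : Set ℂ)).toSubalgebra
    rw [IntermediateField.adjoin_simple_toSubalgebra_of_isAlgebraic halg]
    exact hζ.adjoin_isCyclotomicExtension ℚ
  let ζ' : K := IntermediateField.AdjoinSimple.gen ℚ ζ
  have hval : ∀ x : K, algebraMap K ℂ x = (x : ℂ) := fun _ => rfl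
  have hζ' : IsPrimitiveRoot ζ' n := by
    refine (IsPrimitiveRoot.map_iff_of_injective (f := algebraMap K ℂ) (FaithfulSMul.algebraMap_injective K ℂ)).mp ?_
    exact hζ
  set α : K := ∑ r ∈ Finset.range (Nat.totient n), (c r : K) * ζ' ^ r with hα
  have hαC : algebraMap K ℂ α = ∑ r ∈ Finset.range (Nat.totient n), (c r : ℂ) * ζ ^ r := by
    rw [hα, map_sum]
    refine Finset.sum_congr rfl fun r _ => ?_
    rw [map_mul, map_pow, map_ratCast]
    rfl
  have hαint : IsIntegral ℤ α := by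
    rw [← isIntegral_algebraMap_iff (FaithfulSMul.algebraMap_injective K ℂ), hαC]
    exact h
  have hclo := IsCyclotomicExtension.Rat.isIntegralClosure_adjoin_singleton hζ'
  obtain ⟨y, hy⟩ := hclo.isIntegral_iff.1 hαint
  have hy2 : (y : K) = α := hy
  have hmem : α ∈ Algebra.adjoin ℤ ({ζ'} : Set K) := hy2 ▸ y.2
  rw [Algebra.adjoin_singleton_eq_range_aeval] at hmem
  obtain ⟨g, hg⟩ := hmem
  -- the reduction modulo the cyclotomic polynomial
  have hmonic : (cyclotomic n ℤ).Monic := cyclotomic.monic n ℤ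
  set g' := g %ₘ cyclotomic n ℤ with hg'
  have hdeg : g'.natDegree < Nat.totient n := by
    have h1 := degree_modByMonic_lt g hmonic
    have h2 : (cyclotomic n ℤ).natDegree = Nat.totient n := natDegree_cyclotomic n ℤ
    by_cases h3 : g' = 0
    · rw [h3, natDegree_zero]
      exact Nat.totient_pos.mpr hn
    · rw [← h2]
      exact natDegree_lt_natDegree h3 h1
  have hroot : aeval ζ (cyclotomic n ℤ) = 0 := by
    have h1 : eval₂ (algebraMap ℤ ℂ) ζ (cyclotomic n ℤ) = 0 := by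
      have h2 := hζ.isRoot_cyclotomic hn
      rw [IsRoot.def, ← map_cyclotomic_int, eval_map] at h2
      exact h2
    exact h1
  have hg2 : aeval ζ g = ∑ r ∈ Finset.range (Nat.totient n), (c r : ℂ) * ζ ^ r := by
    rw [← hαC]
    have h1 : algebraMap K ℂ α = algebraMap K ℂ (aeval ζ' g) := by
      have h2 : ((aeval ζ') g : K) = α := hg
      rw [h2]
    rw [h1, ← aeval_algebraMap_apply]
    rfl
  have hg3 : aeval ζ g' = aeval ζ g := by
    have h1 := modByMonic_add_div g (q := cyclotomic n ℤ)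
    conv_rhs => rw [← h1]
    rw [map_add, map_mul, hroot]
    simp [hg']
  -- the difference polynomial
  set P : ℚ[X] := ∑ r ∈ Finset.range (Nat.totient n), C (c r - (g'.coeff r : ℚ)) * X ^ r with hP
  have hPdeg : P.degree < (Nat.totient n : ℕ) := by
    refine (degree_sum_le _ _).trans_lt ?_
    rw [Finset.sup_lt_iff (by exact WithBot.bot_lt_coe _)]
    intro s hs
    refine (degree_C_mul_X_pow_le _ _).trans_lt ?_
    exact_mod_cast Finset.mem_range.mp hs
  have hPval : aeval ζ P = 0 := by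
    rw [hP, map_sum]
    have h1 : aeval ζ g' = ∑ r ∈ Finset.range (Nat.totient n), ((g'.coeff r : ℤ) : ℂ) * ζ ^ r := by
      rw [aeval_eq_sum_range' hdeg]
      refine Finset.sum_congr rfl fun r _ => ?_
      rw [zsmul_eq_mul]
    have h2 : ∑ r ∈ Finset.range (Nat.totient n), ((g'.coeff r : ℤ) : ℂ) * ζ ^ r =
        ∑ r ∈ Finset.range (Nat.totient n), (c r : ℂ) * ζ ^ r := by
      rw [← h1, hg3, hg2]
    rw [← sub_eq_zero, ← Finset.sum_sub_distrib] at h2
    rw [← neg_eq_zero, ← h2, ← Finset.sum_neg_distrib]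
    refine Finset.sum_congr rfl fun r _ => ?_
    simp only [map_mul, aeval_C, map_pow, aeval_X, eq_ratCast]
    push_cast
    ring
  have hP0 : P = 0 := by
    have hmin := Polynomial.cyclotomic_eq_minpoly_rat hζ hn
    have hdvd : minpoly ℚ ζ ∣ P := minpoly.dvd ℚ ζ hPval
    rw [← hmin] at hdvd
    refine eq_zero_of_dvd_of_degree_lt hdvd ?_
    rw [degree_cyclotomic]
    exact hPdeg
  have hco : P.coeff r = c r - (g'.coeff r : ℚ) := by
    rw [hP, finsetSum_coeff, Finset.sum_eq_single r]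
    · rw [coeff_C_mul_X_pow, if_pos rfl]
    · intro b _ hb
      rw [coeff_C_mul_X_pow, if_neg hb.symm]
    · intro h1
      exact absurd (Finset.mem_range.mpr hr) h1
  rw [hP0, coeff_zero] at hco
  exact ⟨g'.coeff r, by linarith⟩

/-- A symmetric integer matrix has even total exactly when its trace is even. -/
theorem sum_symm_two_dvd {κ : Type*} [Fintype κ] {c : κ → κ → ℤ} (hc : ∀ r s, c r s = c s r)
    (h : (2 : ℤ) ∣ ∑ r, ∑ s, c r s) : (2 : ℤ) ∣ ∑ r, c r r := by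
  classical
  have h1 : ((∑ r, ∑ s, c r s : ℤ) : ZMod 2) = 0 := (ZMod.intCast_zmod_eq_zero_iff_dvd _ 2).mpr (by exact_mod_cast h)
  suffices hs : ((∑ r, c r r : ℤ) : ZMod 2) = 0 by
    have := (ZMod.intCast_zmod_eq_zero_iff_dvd _ 2).mp hs
    exact_mod_cast this
  have h2 : ((∑ r, ∑ s, c r s : ℤ) : ZMod 2) = ∑ p ∈ (Finset.univ : Finset κ) ×ˢ (Finset.univ : Finset κ), ((c p.1 p.2 : ℤ) : ZMod 2) := by
    push_cast
    rw [Finset.sum_product]
  have h3 := Finset.diag_union_offDiag (Finset.univ : Finset κ)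
  rw [← h3, Finset.sum_union (Finset.disjoint_diag_offDiag _)] at h2
  have h4 : ∑ p ∈ Finset.offDiag (Finset.univ : Finset κ), ((c p.1 p.2 : ℤ) : ZMod 2) = 0 := by
    refine Finset.sum_involution (fun p _ => (p.2, p.1)) ?_ ?_ ?_ ?_
    · intro p _
      simp only
      rw [hc p.2 p.1, ← two_mul]
      have : (2 : ZMod 2) = 0 := by decide
      rw [this, zero_mul]
    · intro p hp _ h5
      have hp' := Finset.mem_offDiag.mp hp
      apply hp'.2.2
      have := congrArg Prod.fst h5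
      exact this.symm
    · intro p hp
      have hp' := Finset.mem_offDiag.mp hp
      exact Finset.mem_offDiag.mpr ⟨hp'.2.1, hp'.1, hp'.2.2.symm⟩
    · intro p _
      rfl
  rw [h4, add_zero, Finset.sum_diag] at h2
  rw [h2] at h1
  push_cast
  exact h1

end Coef

section Avg

variable {ι : Type*} [Fintype ι] {M : Ideal AlgInt}

/-- **The average of a form at the conjugates of a row of positive height.** -/
theorem avg_two_dvd (hM : IsPModular 2 M) {N : ℕ} (hN : 1 ≤ N) {Q : ι → ι → ℤ} (hQ : ∀ i i', Q i i' = Q i' i)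
    (f a : ι → ℤ) {v : ι → ℂ} (hv : ∀ i, v i ^ 2 ^ N = 1) {h : ℕ} (hh : 1 ≤ h)
    (H1 : ∀ n : ι → ℤ, IsIntegral ℤ ((∑ i, (a i : ℂ) * v i * ((∑ ξ, n ξ * Q i ξ : ℤ) : ℂ)) / ((2 : ℕ) : ℂ) ^ h))
    (H2 : ∀ n : ι → ℤ, ((2 : ℕ) : ℤ) ∣ ∑ i, n i * f i →
      MemLocalIdeal M ((∑ i, (a i : ℂ) * v i * ((∑ ξ, n ξ * Q i ξ : ℤ) : ℂ)) / ((2 : ℕ) : ℂ) ^ h))
    (H3 : ∀ n : ι → ℤ, (∀ n', ((2 : ℕ) : ℤ) ∣ qbil Q n n') → ((2 : ℕ) : ℤ) ∣ ∑ i, n i * f i)
    {S : ℤ} (hS : (S : ℂ) = ∑ j ∈ unitsJ 2 N, hq Q (fun i => (a i : ℂ) * v i ^ j)) :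
    ∃ A : ℤ, S = ((unitsJ 2 N).card : ℤ) * A ∧ (2 : ℤ) ^ (h + 1) ∣ A := by
  classical
  have := isPrime_of_modular hM
  have hK : 2 ^ N ≠ 0 := by positivity
  haveI : NeZero (2 ^ N) := ⟨hK⟩
  obtain ⟨ζ, hζ⟩ : ∃ ζ : ℂ, IsPrimitiveRoot ζ (2 ^ N) := ⟨_, Complex.isPrimitiveRoot_exp (2 ^ N) hK⟩
  have hexp : ∀ i, ∃ e, e < 2 ^ N ∧ ζ ^ e = v i := fun i => hζ.eq_pow_of_pow_eq_one (hv i)
  choose e he hev using hexp
  obtain ⟨φ, hφ⟩ : ∃ φ, φ = 2 ^ (N - 1) := ⟨_, rfl⟩
  have hφpos : 0 < φ := by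
    rw [hφ]
    positivity
  have h2φ : 2 ^ N = 2 * φ := by
    rw [hφ, ← pow_succ']
    congr 1
    omega
  have hζφ : ζ ^ φ = -1 := by
    have h1 : IsPrimitiveRoot (ζ ^ φ) 2 := hζ.pow (by positivity) (by rw [h2φ, mul_comm])
    exact h1.eq_neg_one_of_two_right
  let r : ι → Fin φ := fun i => ⟨e i % φ, Nat.mod_lt _ hφpos⟩
  let σ : ι → ℤ := fun i => (-1) ^ (e i / φ)
  have hvr : ∀ i, v i = (σ i : ℂ) * ζ ^ ((r i : Fin φ) : ℕ) := by
    intro i
    have h1 : e i = φ * (e i / φ) + e i % φ := (Nat.div_add_mod _ _).symm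
    conv_lhs => rw [← hev i, h1, pow_add, pow_mul, hζφ]
    simp only [σ, r]
    push_cast
    rfl
  let a' : ι → ℤ := fun i => a i * σ i
  have hvj : ∀ j ∈ unitsJ 2 N, ∀ i, (a i : ℂ) * v i ^ j = (a' i : ℂ) * (ζ ^ ((r i : Fin φ) : ℕ)) ^ j := by
    intro j hj i
    have hj' : Odd j := by
      rw [← Nat.not_even_iff_odd, even_iff_two_dvd]
      exact (Finset.mem_filter.mp hj).2
    rw [hvr i, mul_pow]
    have h1 : ((σ i : ℤ) : ℂ) ^ j = (σ i : ℂ) := by
      simp only [σ]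
      push_cast
      rw [← pow_mul, mul_comm, pow_mul, hj'.neg_one_pow]
    rw [h1]
    simp only [a']
    push_cast
    ring
  have hrlt : ∀ i, ((r i : Fin φ) : ℕ) < 2 ^ N := fun i => by
    have := (r i).2
    omega
  -- the sum formula
  set A : Fin φ → ι → ℤ := fun r₀ => fibreVec r a' r₀ with hA
  have hroot : ∀ i, (ζ ^ ((r i : Fin φ) : ℕ)) ^ 2 ^ N = 1 := fun i => by
    rw [← pow_mul, mul_comm, pow_mul, hζ.pow_eq_one, one_pow]
  have hsum : ∑ j ∈ unitsJ 2 N, hq Q (fun i => (a i : ℂ) * v i ^ j) =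
      ((unitsJ 2 N).card : ℂ) * ((∑ r₀, qbil Q (A r₀) (A r₀) : ℤ) : ℂ) := by
    have h1 : ∑ j ∈ unitsJ 2 N, hq Q (fun i => (a i : ℂ) * v i ^ j) =
        ∑ j ∈ unitsJ 2 N, hq Q (fun i => (a' i : ℂ) * (ζ ^ ((r i : Fin φ) : ℕ)) ^ j) := by
      refine Finset.sum_congr rfl fun j hj => ?_
      congr 1
      funext i
      exact hvj j hj i
    rw [h1, hA, sum_qbil_fibre Q r a']
    have hswap : ∑ j ∈ unitsJ 2 N, hq Q (fun i => (a' i : ℂ) * (ζ ^ ((r i : Fin φ) : ℕ)) ^ j) =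
        ∑ i, ∑ i', ∑ j ∈ unitsJ 2 N, ((a' i : ℂ) * (ζ ^ ((r i : Fin φ) : ℕ)) ^ j) *
          conj ((a' i' : ℂ) * (ζ ^ ((r i' : Fin φ) : ℕ)) ^ j) * (Q i i' : ℂ) := by
      simp only [hq]
      rw [Finset.sum_comm]
      refine Finset.sum_congr rfl fun i _ => ?_
      rw [Finset.sum_comm]
    rw [hswap]
    push_cast
    rw [Finset.mul_sum]
    refine Finset.sum_congr rfl fun i _ => ?_
    rw [Finset.mul_sum]
    refine Finset.sum_congr rfl fun i' _ => ?_
    have hvi := norm_root_one hK (hroot i')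
    have h5 : ∀ j, ((a' i : ℂ) * (ζ ^ ((r i : Fin φ) : ℕ)) ^ j) * conj ((a' i' : ℂ) * (ζ ^ ((r i' : Fin φ) : ℕ)) ^ j) * (Q i i' : ℂ) =
        (a' i : ℂ) * (a' i' : ℂ) * (Q i i' : ℂ) * (ζ ^ ((r i : Fin φ) : ℕ) * conj (ζ ^ ((r i' : Fin φ) : ℕ))) ^ j := by
      intro j
      simp only [map_mul, map_pow, map_intCast, mul_pow]
      ring
    simp only [h5]
    rw [← Finset.mul_sum]
    set w := ζ ^ ((r i : Fin φ) : ℕ) with hw
    set w' := ζ ^ ((r i' : Fin φ) : ℕ) with hw'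
    have hz : (w * conj w') ^ 2 ^ N = 1 := by
      rw [mul_pow, ← map_pow, hroot, hroot, map_one, mul_one]
    rw [sum_units_pow (p := 2) hN hz]
    have h6 : w * conj w' = 1 ↔ r i = r i' := by
      have h7 : w = w' ↔ r i = r i' := by
        constructor
        · intro h8
          exact Fin.ext (hζ.pow_inj (hrlt i) (hrlt i') h8)
        · intro h8
          rw [hw, hw', h8]
      rw [← h7]
      constructor
      · intro h8
        have h9 : w = w * (w' * conj w') := by rw [hvi, mul_one]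
        rw [h9]
        calc w * (w' * conj w') = (w * conj w') * w' := by ring
          _ = w' := by rw [h8, one_mul]
      · intro h8
        rw [h8, hvi]
    have h7 : (w * conj w') ^ 2 = 1 ↔ r i = r i' := by
      have h8 : w ^ 2 = w' ^ 2 ↔ r i = r i' := by
        constructor
        · intro h9
          rw [hw, hw', ← pow_mul, ← pow_mul] at h9
          have h10 := hζ.pow_inj (by
            have := (r i).2
            omega) (by
            have := (r i').2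
            omega) h9
          exact Fin.ext (by omega)
        · intro h9
          rw [hw, hw', h9]
      rw [← h8]
      have hw2 : w' ^ 2 * conj (w' ^ 2) = 1 := by
        rw [map_pow, ← mul_pow, hvi, one_pow]
      rw [mul_pow, ← map_pow]
      constructor
      · intro h9
        have h10 : w ^ 2 = w ^ 2 * (w' ^ 2 * conj (w' ^ 2)) := by rw [hw2, mul_one]
        rw [h10]
        calc w ^ 2 * (w' ^ 2 * conj (w' ^ 2)) = (w ^ 2 * conj (w' ^ 2)) * w' ^ 2 := by ring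
          _ = w' ^ 2 := by rw [h9, one_mul]
      · intro h9
        rw [h9, hw2]
    have hcard : ((unitsJ 2 N).card : ℂ) = ((2 ^ (N - 1) : ℕ) : ℂ) := by
      rw [card_unitsJ (p := 2) hN]
      simp
    have hpow : ((2 ^ N : ℕ) : ℂ) = 2 * ((2 ^ (N - 1) : ℕ) : ℂ) := by
      rw [h2φ, hφ]
      push_cast
      ring
    by_cases h8 : r i = r i'
    · rw [if_pos (h6.mpr h8), if_pos (h7.mpr h8), if_pos h8, hcard, hpow]
      push_cast
      ring
    · rw [if_neg (fun h9 => h8 (h6.mp h9)), if_neg (fun h9 => h8 (h7.mp h9)), if_neg h8]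
      simp
  -- the pairings
  have hR : ∀ n : ι → ℤ, ∑ i, (a i : ℂ) * v i * ((∑ ξ, n ξ * Q i ξ : ℤ) : ℂ) =
      ∑ r₀ : Fin φ, ((qbil Q (A r₀) n : ℤ) : ℂ) * ζ ^ (r₀ : ℕ) := by
    intro n
    have h1 : ∀ r₀ : Fin φ, ((qbil Q (A r₀) n : ℤ) : ℂ) * ζ ^ (r₀ : ℕ) =
        ∑ i, (if r i = r₀ then (a' i : ℂ) * ((∑ ξ, n ξ * Q i ξ : ℤ) : ℂ) * ζ ^ ((r i : Fin φ) : ℕ) else 0) := by
      intro r₀
      rw [qbil_apply]
      push_cast
      rw [Finset.sum_mul]
      refine Finset.sum_congr rfl fun i _ => ?_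
      simp only [hA, fibreVec]
      by_cases h2 : r i = r₀
      · simp only [if_pos h2]
        rw [h2]
        congr 1
        rw [Finset.mul_sum]
        refine Finset.sum_congr rfl fun i' _ => ?_
        ring
      · simp [h2]
    simp only [h1]
    rw [Finset.sum_comm]
    refine Finset.sum_congr rfl fun i _ => ?_
    rw [Finset.sum_eq_single (r i)]
    · rw [if_pos rfl, hvr i]
      simp only [a']
      push_cast
      ring
    · intro b _ hb
      rw [if_neg hb.symm]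
    · simp
  -- the coefficients are divisible by the height
  have h2C : ((2 : ℕ) : ℂ) ^ h ≠ 0 := pow_ne_zero _ (by norm_num)
  have hCI : ∀ (r₀ : Fin φ) (n : ι → ℤ), (2 : ℤ) ^ h ∣ qbil Q (A r₀) n := by
    intro r₀ n
    let c : ℕ → ℚ := fun k => if hk : k < φ then ((qbil Q (A ⟨k, hk⟩) n : ℤ) : ℚ) / (2 : ℚ) ^ h else 0
    have htot : Nat.totient (2 ^ N) = φ := by
      obtain ⟨t, rfl⟩ : ∃ t, N = t + 1 := ⟨N - 1, by omega⟩
      rw [Nat.totient_prime_pow_succ Nat.prime_two, hφ]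
      simp
    have h1 : ∑ k ∈ Finset.range (Nat.totient (2 ^ N)), (c k : ℂ) * ζ ^ k =
        (∑ i, (a i : ℂ) * v i * ((∑ ξ, n ξ * Q i ξ : ℤ) : ℂ)) / ((2 : ℕ) : ℂ) ^ h := by
      rw [hR n, htot, Finset.sum_range, Finset.sum_div]
      refine Finset.sum_congr rfl fun k _ => ?_
      simp only [c, dif_pos k.2]
      push_cast
      ring
    obtain ⟨m, hm⟩ := coef_int_of_isIntegral hζ c (by
      rw [h1]
      exact H1 n) (r := (r₀ : ℕ)) (by
      rw [htot]
      exact r₀.2)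
    simp only [c, dif_pos r₀.2] at hm
    rw [div_eq_iff (pow_ne_zero _ two_ne_zero)] at hm
    refine ⟨m, ?_⟩
    have h2 : ((qbil Q (A r₀) n : ℤ) : ℚ) = (((2 : ℤ) ^ h * m : ℤ) : ℚ) := by
      rw [hm]
      push_cast
      ring
    exact_mod_cast h2
  choose q hq' using hCI
  have hqsymm : ∀ r₁ s₁ : Fin φ, q r₁ (A s₁) = q s₁ (A r₁) := by
    intro r₁ s₁
    have h1 := hq' r₁ (A s₁)
    have h2 := hq' s₁ (A r₁)
    rw [qbil_symm hQ, h2] at h1
    exact (mul_left_cancel₀ (pow_ne_zero _ two_ne_zero) h1).symm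
  have heven : ∀ s₁ : Fin φ, (2 : ℤ) ∣ ∑ r₁, q r₁ (A s₁) := by
    intro s₁
    have hF : ((2 : ℕ) : ℤ) ∣ ∑ i, A s₁ i * f i := by
      refine H3 _ fun n' => ?_
      rw [hq' s₁ n']
      exact Dvd.dvd.mul_right (dvd_pow_self _ (by omega)) _
    have h1 := H2 (A s₁) hF
    rw [hR (A s₁)] at h1
    have h2 : (∑ r₀ : Fin φ, ((qbil Q (A r₀) (A s₁) : ℤ) : ℂ) * ζ ^ (r₀ : ℕ)) / ((2 : ℕ) : ℂ) ^ h =
        ∑ r₀ : Fin φ, ((q r₀ (A s₁) : ℤ) : ℂ) * ζ ^ (r₀ : ℕ) := by
      rw [Finset.sum_div]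
      refine Finset.sum_congr rfl fun r₀ _ => ?_
      rw [hq' r₀ (A s₁)]
      push_cast
      field_simp
    rw [h2] at h1
    have h3 : MemLocalIdeal M (∑ r₀ : Fin φ, ((q r₀ (A s₁) : ℤ) : ℂ) * (ζ ^ (r₀ : ℕ) - 1)) :=
      MemLocalIdeal.sum _ fun r₀ _ => MemLocalIdeal.mul_left (MemLocalRing.intCast _)
        (root_sub_one_memLocalIdeal (p := 2) hM (k := N) (by
          rw [← pow_mul, mul_comm, pow_mul, hζ.pow_eq_one, one_pow]))
    have h4 := MemLocalIdeal.sub h1 h3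
    have h5 : ∑ r₀ : Fin φ, ((q r₀ (A s₁) : ℤ) : ℂ) * ζ ^ (r₀ : ℕ) -
        ∑ r₀ : Fin φ, ((q r₀ (A s₁) : ℤ) : ℂ) * (ζ ^ (r₀ : ℕ) - 1) = ((∑ r₁, q r₁ (A s₁) : ℤ) : ℂ) := by
      rw [← Finset.sum_sub_distrib]
      push_cast
      refine Finset.sum_congr rfl fun r₀ _ => ?_
      ring
    rw [h5, intCast_memLocalIdeal_iff hM] at h4
    exact_mod_cast h4
  have htr : (2 : ℤ) ∣ ∑ r₁, q r₁ (A r₁) := by
    refine sum_symm_two_dvd (c := fun r₁ s₁ => q r₁ (A s₁)) hqsymm ?_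
    rw [Finset.sum_comm]
    exact Finset.dvd_sum fun s₁ _ => heven s₁
  refine ⟨∑ r₀, qbil Q (A r₀) (A r₀), ?_, ?_⟩
  · have h1 : (S : ℂ) = ((((unitsJ 2 N).card : ℤ) * ∑ r₀, qbil Q (A r₀) (A r₀) : ℤ) : ℂ) := by
      rw [hS, hsum]
      push_cast
      rfl
    exact_mod_cast h1
  · have h1 : ∑ r₀, qbil Q (A r₀) (A r₀) = (2 : ℤ) ^ h * ∑ r₁, q r₁ (A r₁) := by
      rw [Finset.mul_sum]
      exact Finset.sum_congr rfl fun r₀ _ => hq' r₀ (A r₀)
    rw [h1, pow_succ]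
    exact mul_dvd_mul_left _ htr

end Avg

section Concrete

variable {G : Type u} [Group G] [Fintype G] {M : Ideal AlgInt} {p : ℕ} [hp : Fact p.Prime]
variable {H : Subgroup G} [Fintype H] {x : H}

open scoped Classical

/-- A row pairing agrees with the integer pairing modulo the maximal ideal. -/
theorem rowR_sub_qbil_mem (hM : IsPModular p M) (hH : ∀ w : G, w ∈ H ↔ Commute w (x : G))
    (hxp : ∃ k, orderOf (x : G) = p ^ k) (b : Set (IrrCharacter H)) (χ : IrrCharacter G)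
    (n : {ψ : IrrCharacter H // ψ ∈ b} → ℤ) :
    MemLocalIdeal M (rowR (p := p) b χ x 1 n - ((qbil (tMat p b) (fun ψ => (resMul H χ ψ : ℤ)) n : ℤ) : ℂ)) := by
  have := isPrime_of_modular hM
  obtain ⟨k, hk⟩ := hxp
  have hxk : x ^ p ^ k = 1 := by
    apply Subtype.ext
    simp only [Subgroup.coe_pow, Subgroup.coe_one]
    rw [← hk, pow_orderOf_eq_one]
  have hv : ∀ i : {ψ : IrrCharacter H // ψ ∈ b}, MemLocalIdeal M (scalarAt (i : IrrCharacter H) x - 1) := fun i =>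
    root_sub_one_memLocalIdeal hM (scalarAt_pow_eq_one _ (central_x hH) hxk)
  have h2 : ((qbil (tMat p b) (fun ψ => (resMul H χ ψ : ℤ)) n : ℤ) : ℂ) =
      ∑ i : {ψ : IrrCharacter H // ψ ∈ b}, ((resMul H χ i : ℤ) : ℂ) * (tVec (p := p) b n i : ℂ) := by
    simp only [qbil_apply, tVec]
    push_cast
    refine Finset.sum_congr rfl fun i _ => ?_
    rw [Finset.mul_sum]
    refine Finset.sum_congr rfl fun i' _ => ?_
    ring
  rw [h2, rowR, ← Finset.sum_sub_distrib]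
  refine MemLocalIdeal.sum _ fun i _ => ?_
  have h3 : rowD b χ x 1 i * (tVec (p := p) b n i : ℂ) - ((resMul H χ i : ℤ) : ℂ) * (tVec (p := p) b n i : ℂ) =
      (scalarAt (i : IrrCharacter H) x - 1) * (((resMul H χ i : ℤ) : ℂ) * (tVec (p := p) b n i : ℂ)) := by
    simp only [rowD, pow_one]
    ring
  rw [h3]
  exact MemLocalIdeal.mul_right (hv i) (MemLocalRing.mul (MemLocalRing.intCast _) (MemLocalRing.intCast _))

/-- A vector in the kernel of the degree form has row pairing divisible by more than the height. -/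
theorem rowR_div_mem (hM : IsPModular p M) (hH : ∀ w : G, w ∈ H ↔ Commute w (x : G)) {α : ℕ} (hα : IsPExp p G α)
    (hxp : ∃ k, orderOf (x : G) = p ^ k) {b : Set (IrrCharacter H)} {B : Set (IrrCharacter G)}
    (hind : IsInducedBlock M H b B) (hdef : blockDefect p b = blockDefect p B)
    {n : {ψ : IrrCharacter H // ψ ∈ b} → ℤ} (hn : (p : ℤ) ∣ ∑ i, n i * degF p b i)
    {χ : IrrCharacter G} (hχ : χ ∈ B) :
    MemLocalIdeal M (rowR (p := p) b χ x 1 n / (p : ℂ) ^ blockHeight p B (χ : G → ℂ)) := by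
  have := isPrime_of_modular hM
  have hpp : p.Prime := hp.out
  have hpZ : Prime (p : ℤ) := Nat.prime_iff_prime_int.mp hpp
  have hB := hind.2.1
  have hb := hind.1
  obtain ⟨ξ₀, hξ₀, h00⟩ := exists_height_zero (p := p) (IsPBlock.nonempty hb)
  obtain ⟨χ₀, hχ₀, h0⟩ := exists_height_zero (p := p) (IsPBlock.nonempty hB)
  set a₀ : {ψ : IrrCharacter H // ψ ∈ b} → ℤ := fun ψ => (resMul H χ₀ ψ : ℤ) with ha₀
  have h1 : (p : ℤ) ∣ qbil (tMat p b) a₀ n := by
    have h2 := qbil_tMat_congr hM hb hξ₀ a₀ n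
    have h3 : (p : ℤ) ∣ blockT p b ξ₀ ξ₀ * ((∑ i, a₀ i * degF p b i) * (∑ i, n i * degF p b i)) :=
      Dvd.dvd.mul_left (Dvd.dvd.mul_left hn _) _
    have h4 := dvd_add h2 h3
    rw [sub_add_cancel] at h4
    rcases hpZ.dvd_or_dvd h4 with h5 | h5
    · have h6 := hpZ.dvd_of_dvd_pow h5
      exact absurd (Int.natCast_dvd_natCast.mp h6) (not_dvd_degQ hξ₀ h00)
    · exact h5
  have h2 : MemLocalIdeal M (rowR (p := p) b χ₀ x 1 n) := by
    have h3 : MemLocalIdeal M (rowR (p := p) b χ₀ x 1 n - ((qbil (tMat p b) a₀ n : ℤ) : ℂ)) :=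
      rowR_sub_qbil_mem hM hH hxp b χ₀ n
    have h4 := (intCast_memLocalIdeal_iff hM _).mpr h1
    have h5 := MemLocalIdeal.add h3 h4
    rwa [sub_add_cancel] at h5
  have hS := spec_thetaFun_mem_zS (M := M) hH hα hxp (vecInt_isClassFunction b n) (vecInt_isIntegral b n)
  have h3 : MemLocalIdeal M (spec (thetaFun H x α (vecInt b n)) χ₀) := by
    rw [spec_theta_eq hM hH hα hxp hind hdef n hχ₀, div_eq_mul_inv, mul_comm _ ((degQ p B χ₀ : ℂ)⁻¹),
      ← mul_assoc, mul_comm _ (cardQ p G : ℂ), mul_comm ((cardQ p G : ℂ)), mul_assoc]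
    exact MemLocalIdeal.mul_left (inv_natCast_memLocalRing hM (not_dvd_degQ hχ₀ h0))
      (MemLocalIdeal.mul_left (MemLocalRing.natCast _) h2)
  have h4 : MemLocalIdeal M (spec (thetaFun H x α (vecInt b n)) χ) := by
    have h5 := zS_apply_congr hB hS hχ hχ₀
    simpa using MemLocalIdeal.add h5 h3
  rw [spec_theta_eq hM hH hα hxp hind hdef n hχ] at h4
  obtain ⟨c, hc, hdc⟩ := degQ_eq_height (p := p) hχ
  have hpC : (p : ℂ) ≠ 0 := by exact_mod_cast hpp.ne_zero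
  have hP : (p : ℂ) ^ blockHeight p B (χ : G → ℂ) ≠ 0 := pow_ne_zero _ hpC
  have hc0 : (c : ℂ) ≠ 0 := natCast_ne_zero_of_not_dvd hc
  have hq0 : (cardQ p G : ℂ) ≠ 0 := natCast_ne_zero_of_not_dvd not_dvd_cardQ
  have h5 := MemLocalIdeal.mul_left (MemLocalRing.mul (MemLocalRing.natCast c)
    (inv_natCast_memLocalRing hM (not_dvd_cardQ (p := p) (G := G)))) h4
  have h6 : (c : ℂ) * (cardQ p G : ℂ)⁻¹ * ((cardQ p G : ℂ) * rowR (p := p) b χ x 1 n / (degQ p B χ : ℂ)) =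
      rowR (p := p) b χ x 1 n / (p : ℂ) ^ blockHeight p B (χ : G → ℂ) := by
    rw [hdc]
    have h7 : ((p ^ blockHeight p B (χ : G → ℂ) * c : ℕ) : ℂ) = (p : ℂ) ^ blockHeight p B (χ : G → ℂ) * (c : ℂ) := by
      push_cast
      ring
    rw [h7]
    field_simp
  rwa [h6] at h5

/-- The integer lower bound for the average of the form. -/
theorem major_S1_int (hM : IsPModular p M) (hH : ∀ w : G, w ∈ H ↔ Commute w (x : G)) {α : ℕ} (hα : IsPExp p G α)
    (hxp : ∃ k, orderOf (x : G) = p ^ k) {b : Set (IrrCharacter H)} {B : Set (IrrCharacter G)}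
    (hind : IsInducedBlock M H b B) (hdef : blockDefect p b = blockDefect p B)
    {χ : IrrCharacter G} (hχ : χ ∈ B) {N : ℕ} (hN : 1 ≤ N) (hxN : x ^ p ^ N = 1) {S : ℤ}
    (hS : (S : ℂ) = ∑ j ∈ unitsJ p N, hq (tMat p b) (rowD b χ x j)) :
    ((unitsJ p N).card : ℤ) * ((p ^ blockHeight p B (χ : G → ℂ) : ℕ) : ℤ) ≤ S := by
  have h1 := major_S1_lb hM hH hα hxp hind hdef hχ hN hxN
  have h2 : ∑ j ∈ unitsJ p N, ‖hq (tMat p b) (rowD b χ x j)‖ = ((S : ℤ) : ℝ) := by
    have h3 : ∀ j, ∃ r : ℝ, 0 ≤ r ∧ hq (tMat p b) (rowD b χ x j) = (r : ℂ) := fun j => hq_tMat_real hM hind.1 _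
    choose r hr hrv using h3
    have h4 : ((S : ℤ) : ℂ) = ((∑ j ∈ unitsJ p N, r j : ℝ) : ℂ) := by
      rw [hS]
      push_cast
      exact Finset.sum_congr rfl fun j _ => hrv j
    have h5 : ((S : ℤ) : ℝ) = ∑ j ∈ unitsJ p N, r j := by exact_mod_cast h4
    rw [h5]
    refine Finset.sum_congr rfl fun j _ => ?_
    rw [hrv j, Complex.norm_real, Real.norm_of_nonneg (hr j)]
  rw [h2] at h1
  have h4 : ((((unitsJ p N).card : ℤ) * ((p ^ blockHeight p B (χ : G → ℂ) : ℕ) : ℤ) : ℤ) : ℝ) ≤ ((S : ℤ) : ℝ) := by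
    refine le_trans (le_of_eq ?_) h1
    push_cast
    ring
  exact_mod_cast h4

/-- **The improved lower bound for rows of positive height of `2`-blocks.** -/
theorem major_two_lb (hM : IsPModular 2 M) (hH : ∀ w : G, w ∈ H ↔ Commute w (x : G)) {α : ℕ} (hα : IsPExp 2 G α)
    (hxp : ∃ k, orderOf (x : G) = 2 ^ k) {b : Set (IrrCharacter H)} {B : Set (IrrCharacter G)}
    (hind : IsInducedBlock M H b B) (hdef : blockDefect 2 b = blockDefect 2 B)
    {χ : IrrCharacter G} (hχ : χ ∈ B) (hh : 1 ≤ blockHeight 2 B (χ : G → ℂ)) {N : ℕ} (hN : 1 ≤ N)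
    (hxN : x ^ 2 ^ N = 1) {S : ℤ}
    (hS : (S : ℂ) = ∑ j ∈ unitsJ 2 N, hq (tMat 2 b) (rowD b χ x j)) :
    ((unitsJ 2 N).card : ℤ) * ((2 ^ (blockHeight 2 B (χ : G → ℂ) + 1) : ℕ) : ℤ) ≤ S := by
  have := isPrime_of_modular hM
  have hb := hind.1
  have hv : ∀ i : {ψ : IrrCharacter H // ψ ∈ b}, scalarAt (i : IrrCharacter H) x ^ 2 ^ N = 1 := fun i =>
    scalarAt_pow_eq_one _ (central_x hH) hxN
  have hrow : ∀ n : {ψ : IrrCharacter H // ψ ∈ b} → ℤ,
      ∑ i : {ψ : IrrCharacter H // ψ ∈ b}, ((resMul H χ i : ℤ) : ℂ) * scalarAt (i : IrrCharacter H) x * ((∑ ξ, n ξ * tMat 2 b i ξ : ℤ) : ℂ) =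
        rowR (p := 2) b χ x 1 n := by
    intro n
    simp only [rowR, rowD, tVec, pow_one]
  obtain ⟨A, hA, hdvd⟩ := avg_two_dvd hM hN (tMat_symm b) (degF 2 b) (fun ψ => (resMul H χ ψ : ℤ)) hv hh
    (fun n => by
      rw [hrow n]
      exact rowR_div_isIntegral hM hH hα hxp hind hdef n hχ)
    (fun n hn => by
      rw [hrow n]
      exact rowR_div_mem hM hH hα hxp hind hdef hn hχ)
    (fun n hn => by
      by_contra hcon
      obtain ⟨n', hn'⟩ := exists_degF_not_dvd (p := 2) (IsPBlock.nonempty hb)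
      exact qbil_tMat_not_dvd hM hb hcon hn' (hn n'))
    hS
  have h1 := major_S1_int hM hH hα hxp hind hdef hχ hN hxN hS
  have hJ : (0 : ℤ) < ((unitsJ 2 N).card : ℤ) := by exact_mod_cast unitsJ_pos (p := 2) N hN
  rw [hA] at h1 ⊢
  have h2 := le_of_mul_le_mul_left h1 hJ
  refine mul_le_mul_of_nonneg_left ?_ hJ.le
  have h3 : (0 : ℤ) < A := by
    refine lt_of_lt_of_le ?_ h2
    positivity
  have h4 := Int.le_of_dvd h3 hdvd
  exact_mod_cast h4

/-- **The improved estimates in a major subsection of a `2`-block.** -/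
theorem major_bounds_two (hM : IsPModular 2 M) (hH : ∀ w : G, w ∈ H ↔ Commute w (x : G))
    (hxp : ∃ k, orderOf (x : G) = 2 ^ k) {b : Set (IrrCharacter H)} {B : Set (IrrCharacter G)}
    (hind : IsInducedBlock M H b B) (hdef : blockDefect 2 b = blockDefect 2 B) :
    ∃ m : ℕ, Odd m ∧
      ∑ χ ∈ Finset.univ.filter (· ∈ B), 2 ^ (2 * blockHeight 2 B ((χ : IrrCharacter G) : G → ℂ)) ≤ m * 2 ^ blockDefect 2 B ∧
      ∑ χ ∈ Finset.univ.filter (· ∈ B), (if blockHeight 2 B ((χ : IrrCharacter G) : G → ℂ) = 0 then m else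
          2 ^ (blockHeight 2 B ((χ : IrrCharacter G) : G → ℂ) + 1)) ≤
        2 ^ blockDefect 2 B * blockRank 2 b := by
  obtain ⟨k, hk⟩ := hxp
  obtain ⟨α, hα⟩ := exists_isPExp G 2
  have hxN : x ^ 2 ^ (k + 1) = 1 := by
    apply Subtype.ext
    simp only [Subgroup.coe_pow, Subgroup.coe_one]
    rw [pow_succ, pow_mul, ← hk, pow_orderOf_eq_one, one_pow]
  obtain ⟨m, -, hodd, h1, h2⟩ := major_core hM hH hk hind hdef
    (w := fun χ => 2 ^ (blockHeight 2 B (χ : G → ℂ) + 1)) (fun χ hχ hh S hS =>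
      major_two_lb hM hH hα ⟨k, hk⟩ hind hdef hχ hh (by omega) hxN hS)
  exact ⟨m, hodd rfl, h1, h2⟩

end Concrete

end Cfsg.Agent.Lib.H8Group
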