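import Cfsg.Agent.Lib.H8Group.AbelianIndex

set_option autoImplicit false

namespace Cfsg.Agent.Lib.H8Group

open scoped commutatorElement

theorem index_centralizer_le_card_commutator {G : Type*} [Group G] [Finite G] (x : G) :
    (Subgroup.centralizer ({x} : Set G)).index ≤ Nat.card (commutator G) := by
  classical
  let H := Subgroup.centralizer ({x} : Set G)
  let f : G ⧸ H → commutator G := Quotient.lift
    (fun g => (⟨⁅g, x⁆, Subgroup.commutator_mem_commutator (Subgroup.mem_top _) (Subgroup.mem_top _)⟩ : commutator G))
    (by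
      intro a b hab
      have h : a⁻¹ * b ∈ H := QuotientGroup.leftRel_apply.mp hab
      have h' : (a⁻¹ * b) * x = x * (a⁻¹ * b) :=
        (Subgroup.mem_centralizer_singleton_iff.mp h)
      apply Subtype.ext
      simp only [commutatorElement_def]
      have h3 : b * x * b⁻¹ = a * x * a⁻¹ := by
        calc b * x * b⁻¹ = a * ((a⁻¹ * b) * x) * (a⁻¹ * b)⁻¹ * a⁻¹ := by group
          _ = a * (x * (a⁻¹ * b)) * (a⁻¹ * b)⁻¹ * a⁻¹ := by rw [h']
          _ = a * x * a⁻¹ := by group
      rw [h3])
  have hf : Function.Injective f := by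
    intro q1 q2
    induction q1 using QuotientGroup.induction_on with
    | H a =>
      induction q2 using QuotientGroup.induction_on with
      | H b =>
        intro hab
        have h := congrArg Subtype.val hab
        change ⁅a, x⁆ = ⁅b, x⁆ at h
        rw [commutatorElement_def, commutatorElement_def] at h
        have h2 : a * x * a⁻¹ = b * x * b⁻¹ := mul_right_cancel h
        apply QuotientGroup.eq.mpr
        rw [Subgroup.mem_centralizer_singleton_iff]
        have h3 : a⁻¹ * b * x * (a⁻¹ * b)⁻¹ = x := by
          calc a⁻¹ * b * x * (a⁻¹ * b)⁻¹ = a⁻¹ * (b * x * b⁻¹) * a := by group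
            _ = a⁻¹ * (a * x * a⁻¹) * a := by rw [h2]
            _ = x := by group
        calc a⁻¹ * b * x = a⁻¹ * b * x * (a⁻¹ * b)⁻¹ * (a⁻¹ * b) := by group
          _ = x * (a⁻¹ * b) := by rw [h3]
  exact Nat.card_le_card_of_injective f hf

theorem commutative_of_card_center_ge {A : Type*} [Group A] [Finite A] (p : ℕ) [hp : Fact p.Prime]
    (hA : Nat.card A = p ^ 3) (hc : p ^ 2 ≤ Nat.card (Subgroup.center A)) :
    ∀ a b : A, a * b = b * a := by
  have hpg : IsPGroup p A := IsPGroup.of_card hA
  obtain ⟨i, hi⟩ := hpg.index (Subgroup.center A)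
  have h1 : Nat.card (Subgroup.center A) * (Subgroup.center A).index = p ^ 3 := by
    rw [Subgroup.card_mul_index, hA]
  have hi1 : i ≤ 1 := by
    by_contra hcon
    have hi2 : 2 ≤ i := by omega
    have h2 : p ^ 2 ≤ (Subgroup.center A).index := by
      rw [hi]; exact Nat.pow_le_pow_right hp.out.pos hi2
    have h3 : p ^ 2 * p ^ 2 ≤ p ^ 3 := by
      calc p ^ 2 * p ^ 2 ≤ Nat.card (Subgroup.center A) * (Subgroup.center A).index := Nat.mul_le_mul hc h2
        _ = p ^ 3 := h1
    have h4 : p ^ 3 < p ^ 4 := Nat.pow_lt_pow_right hp.out.one_lt (by norm_num)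
    have h5 : p ^ 4 = p ^ 2 * p ^ 2 := by ring
    omega
  have hcyc : IsCyclic (A ⧸ Subgroup.center A) := by
    have hcard : Nat.card (A ⧸ Subgroup.center A) = (Subgroup.center A).index := rfl
    interval_cases i
    · have h1' : Nat.card (A ⧸ Subgroup.center A) = 1 := by rw [hcard, hi]; simp
      have : Subsingleton (A ⧸ Subgroup.center A) := (Nat.card_eq_one_iff_unique.mp h1').1
      infer_instance
    · have h1' : Nat.card (A ⧸ Subgroup.center A) = p := by rw [hcard, hi]; simp
      exact isCyclic_of_prime_card h1'
  have := isMulCommutative_of_isCyclic_quotient_center_self (G := A)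
  exact fun a b => mul_comm' a b

theorem card_commutator_mul_card_center_of_index {P : Type*} [Group P] [Finite P] (p : ℕ) [hp : Fact p.Prime]
    (hP : Nat.card P = p ^ 4) (x : P) (hx : (Subgroup.centralizer ({x} : Set P)).index = p) :
    Nat.card (commutator P) * Nat.card (Subgroup.center P) = p ^ 3 := by
  have hp1 := hp.out.one_lt
  have hpg : IsPGroup p P := IsPGroup.of_card hP
  set A := Subgroup.centralizer ({x} : Set P) with hAdef
  have hcardA : Nat.card A = p ^ 3 := by
    have h1 := Subgroup.card_mul_index A
    rw [hx, hP] at h1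
    have : Nat.card A * p = p ^ 3 * p := by rw [h1]; ring
    exact Nat.eq_of_mul_eq_mul_right hp.out.pos this
  have hn : A.Normal := by
    apply Subgroup.normal_of_index_eq_minFac_card
    rw [hx, hP, Nat.Prime.pow_minFac hp.out (by norm_num)]
  have hZA : Subgroup.center P ≤ A := by
    intro z hz
    rw [hAdef, Subgroup.mem_centralizer_singleton_iff]
    exact (Subgroup.mem_center_iff.mp hz x).symm
  have hxZ : x ∉ Subgroup.center P := by
    intro hz
    have : A = ⊤ := by
      rw [eq_top_iff]
      intro g _
      rw [hAdef, Subgroup.mem_centralizer_singleton_iff]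
      exact (Subgroup.mem_center_iff.mp hz g)
    rw [this, Subgroup.index_top] at hx
    omega
  obtain ⟨k, hk0, hk⟩ := IsPGroup.card_center_eq_prime_pow hP (by norm_num)
  -- the centre of `A` is larger than the centre of `P`
  have hcA : p ^ 2 ≤ Nat.card (Subgroup.center A) := by
    let W : Subgroup P := (Subgroup.center A).map A.subtype
    have hWcard : Nat.card W = Nat.card (Subgroup.center A) :=
      Subgroup.card_map_of_injective A.subtype_injective
    have hxA : x ∈ A := by
      rw [hAdef, Subgroup.mem_centralizer_singleton_iff]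
    have hxW : x ∈ W := by
      refine ⟨⟨x, hxA⟩, ?_, rfl⟩
      rw [SetLike.mem_coe, Subgroup.mem_center_iff]
      intro g
      apply Subtype.ext
      exact (Subgroup.mem_centralizer_singleton_iff.mp g.2)
    have hZW : Subgroup.center P ≤ W := by
      intro z hz
      refine ⟨⟨z, hZA hz⟩, ?_, rfl⟩
      rw [SetLike.mem_coe, Subgroup.mem_center_iff]
      intro g
      apply Subtype.ext
      exact Subgroup.mem_center_iff.mp hz g
    obtain ⟨m, hm⟩ := IsPGroup.iff_card.mp (hpg.to_subgroup W)
    have hlt : k < m := by
      by_contra hcon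
      have hle : Nat.card W ≤ Nat.card (Subgroup.center P) := by
        rw [hm, hk]; exact Nat.pow_le_pow_right hp.out.pos (by omega)
      have := Subgroup.eq_of_le_of_card_ge hZW hle
      exact hxZ (this ▸ hxW)
    rw [← hWcard, hm]
    exact Nat.pow_le_pow_right hp.out.pos (by omega)
  have hcommA := commutative_of_card_center_ge p hcardA hcA
  have hab : ∀ a ∈ A, ∀ b ∈ A, a * b = b * a := by
    intro a ha b hb
    have := hcommA ⟨a, ha⟩ ⟨b, hb⟩
    exact congrArg Subtype.val this
  have hAprime : A.index.Prime := hx ▸ hp.out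
  obtain ⟨b, hb⟩ : ∃ b, b ∉ A := by
    by_contra hcon
    push Not at hcon
    have : A = ⊤ := eq_top_iff.mpr (fun g _ => hcon g)
    rw [this, Subgroup.index_top] at hx
    omega
  have hmain := card_commutator_mul_card_ker A hab hAprime hb
  have hkermap : (commMap A hab b).ker.map A.subtype = Subgroup.center P := by
    apply le_antisymm
    · rintro _ ⟨a, ha, rfl⟩
      have ha1 : commMap A hab b a = 1 := ha
      have ha2 : b * (a : P) * b⁻¹ * (a : P)⁻¹ = 1 := congrArg Subtype.val ha1
      have ha3 : b * (a : P) = a * b := by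
        have := mul_inv_eq_one.mp ha2
        exact mul_inv_eq_iff_eq_mul.mp this
      rw [Subgroup.mem_center_iff]
      intro g
      let S : Subgroup P := Subgroup.centralizer ({(a : P)} : Set P)
      have hS : S = ⊤ := by
        apply eq_top_of_le_of_mem_of_prime_index hAprime (x := b) _ _ hb
        · intro c hc
          rw [Subgroup.mem_centralizer_singleton_iff]
          exact hab c hc a a.2
        · rw [Subgroup.mem_centralizer_singleton_iff]
          exact ha3
      have : g ∈ S := hS ▸ Subgroup.mem_top g
      exact (Subgroup.mem_centralizer_singleton_iff.mp this)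
    · intro z hz
      refine ⟨⟨z, hZA hz⟩, ?_, rfl⟩
      change commMap A hab b ⟨z, hZA hz⟩ = 1
      apply Subtype.ext
      have := Subgroup.mem_center_iff.mp hz b
      simp only [commMap_coe, OneMemClass.coe_one]
      rw [this]
      group
  have hkercard : Nat.card (commMap A hab b).ker = Nat.card (Subgroup.center P) := by
    rw [← hkermap]
    exact (Subgroup.card_map_of_injective A.subtype_injective).symm
  rw [← hcardA, ← hmain, hkercard]

end Cfsg.Agent.Lib.H8Group
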